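import Mathlib
import Cfsg.Agent.Lib.SM12.Defs

/-! Package LIFT: central kernels of odd order and descent (plans/SM12.md). -/

set_option autoImplicit false
set_option maxRecDepth 100000
set_option synthInstance.maxSize 4096

namespace CfsgLib.SM12

open Subgroup Cfsg CfsgLib.W2 CfsgLib.W2.TG CfsgLib.Tech CfsgLib.CosetEnum CfsgLib.Yos

section cov
variable {H Γ : Type*} [Group H] [Group Γ] {π : H →* Γ}

theorem Cov.uniq (C : Cov π) {a b : H} (ha : Two a) (hb : Two b) (h : π a = π b) : a = b := by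
  have hk : π (a * b⁻¹) = 1 := by rw [map_mul, map_inv, h, mul_inv_cancel]
  have := eq_one_of_mul C.odd (y := a * b⁻¹) (u := b) hk (C.cen _ hk b).symm hb (by simpa using ha)
  exact mul_inv_eq_one.1 this

theorem Cov.lift [Finite H] (C : Cov π) {Q : Subgroup Γ} (hQ : IsPGroup 2 Q) (hr : Q ≤ π.range) :
    ∃ R : Subgroup H, Nat.card R = Nat.card Q ∧ R.map π = Q ∧ ∀ g, g ∈ R ↔ Two g ∧ π g ∈ Q := by
  let f : Q.comap π →* Q := π.subgroupComap Q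
  have hf : Function.Surjective f := fun q => by
    obtain ⟨g, hg⟩ := hr q.2
    exact ⟨⟨g, by rw [mem_comap, hg]; exact q.2⟩, Subtype.ext hg⟩
  obtain ⟨S⟩ : Nonempty (Sylow 2 (Q.comap π)) := inferInstance
  have hS : (S : Subgroup (Q.comap π)).map f = ⊤ :=
    ((S.mapSurjective hf).3 (hQ.to_subgroup ⊤) le_top).symm
  have two : ∀ g ∈ (S : Subgroup (Q.comap π)).map (Q.comap π).subtype, Two g := by
    rintro _ ⟨s, hs, rfl⟩
    obtain ⟨k, hk⟩ := S.2 ⟨s, hs⟩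
    exact ⟨k, by simpa using congrArg (fun x : (S : Subgroup (Q.comap π)) => ((x : Q.comap π) : H)) hk⟩
  have key : ∀ q ∈ Q, ∃ g ∈ (S : Subgroup (Q.comap π)).map (Q.comap π).subtype, π g = q := fun q hq => by
    obtain ⟨s, hs, h⟩ : (⟨q, hq⟩ : Q) ∈ (S : Subgroup (Q.comap π)).map f := hS ▸ mem_top _
    exact ⟨s, ⟨s, hs, rfl⟩, congrArg Subtype.val h⟩
  have hm : ((S : Subgroup (Q.comap π)).map (Q.comap π).subtype).map π = Q := by
    refine le_antisymm ?_ fun q hq => key q hq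
    rintro _ ⟨_, ⟨s, -, rfl⟩, rfl⟩
    exact s.2
  refine ⟨_, ?_, hm, fun g => ⟨fun hg => ⟨two g hg, hm ▸ mem_map_of_mem π hg⟩, fun ⟨h1, h2⟩ => ?_⟩⟩
  · conv_rhs => rw [← hm]
    refine Nat.card_congr (Equiv.ofBijective (π.subgroupMap _) ⟨fun a b h => ?_, π.subgroupMap_surjective _⟩)
    exact Subtype.ext (C.uniq (two _ a.2) (two _ b.2) (congrArg Subtype.val h))
  · obtain ⟨s, hs, h⟩ := key _ h2
    rwa [C.uniq h1 (two s hs) h.symm]

end cov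

variable {G Γ : Type*} [Group G] [Group Γ] {Y H : Subgroup G} {σ : G} {δ : ℕ}

theorem cov_cent (ho : Odd (Nat.card Y)) (π : centralizer (Y : Set G) →* Γ) (hk : ∀ g, π g = 1 ↔ g.1 ∈ Y) :
    Cov π := by
  refine ⟨fun k h g => Subtype.ext (mem_centralizer_iff.1 g.2 _ ((hk k).1 h)), ho.of_dvd_nat ?_⟩
  refine card_dvd_of_injective (((centralizer (Y : Set G)).subtype.comp π.ker.subtype).codRestrict Y
    fun k => (hk _).1 k.2) fun a b h => ?_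
  exact Subtype.ext (Subtype.ext (congrArg (fun x : Y => (x : G)) h))

/-- Two 2-elements with the same image modulo `Y` are equal if one of them centralises `Y`. -/
theorem desc_eq (ho : Odd (Nat.card Y)) (π : H →* Γ) (hk : ∀ g, π g = 1 ↔ g.1 ∈ Y) {u v : H} (hu : Two u.1)
    (hv : Two v.1) (c : ∀ y ∈ Y, v.1 * y = y * v.1) (h : π u = π v) : u.1 = v.1 := by
  have hy : (u * v⁻¹ : H).1 ∈ Y := (hk _).1 (by rw [map_mul, map_inv, h, mul_inv_cancel])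
  have := eq_one_of_mul ho hy (c _ hy) hv (by simpa using hu)
  exact mul_inv_eq_one.1 this

theorem desc_conj (ho : Odd (Nat.card Y)) (π : H →* Γ) (hk : ∀ g, π g = 1 ↔ g.1 ∈ Y) {g u v : H}
    (hu : Two u.1) (hv : Two v.1) (c : ∀ y ∈ Y, v.1 * y = y * v.1) (h : π g * π u * (π g)⁻¹ = π v) :
    g.1 * u.1 * g.1⁻¹ = v.1 :=
  desc_eq ho π hk (u := g * u * g⁻¹) (hu.conj g.1) hv c (by rw [map_mul, map_mul, map_inv, h])

theorem desc_cx (ho : Odd (Nat.card Y)) (π : H →* Γ) (hk : ∀ g, π g = 1 ↔ g.1 ∈ Y) {g u : H}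
    (hu : Two u.1) (c : ∀ y ∈ Y, u.1 * y = y * u.1) (h : π g ∈ Cx (π u)) : g.1 ∈ Cx u.1 :=
  mem_Cx'.2 (desc_conj ho π hk hu hu c (mem_Cx'.1 h))

theorem desc_card [Finite G] (ho : Odd (Nat.card Y)) (π : H →* Γ) (hs : Function.Surjective π)
    (hk : ∀ g, π g = 1 ↔ g.1 ∈ Y) {u : H} (hu : Two u.1) (c : ∀ y ∈ Y, u.1 * y = y * u.1) :
    Nat.card (Cx (π u)) ∣ Nat.card (Cx u.1) := by
  have h1 : Cx (π u) ≤ ((Cx u.1).subgroupOf H).map π := fun x hx => by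
    obtain ⟨g, rfl⟩ := hs x
    exact ⟨g, desc_cx ho π hk hu c hx, rfl⟩
  exact (card_dvd_of_le h1).trans ((card_map_dvd _ _).trans (card_comap_dvd_of_injective _ _ H.subtype_injective))

theorem desc_rel {M : Type*} [Group M] {φ : M →* G} (π : H →* Γ) (hφ : ∀ a, φ a ∈ H) {g : G} (hg : g ∈ H)
    {a b : M} (h : W2.Rel φ g a b) : W2.Rel (π.comp (φ.codRestrict H hφ)) (π ⟨g, hg⟩) a b := by
  show π _ * π _ * (π _)⁻¹ = π _
  rw [← map_inv, ← map_mul, ← map_mul]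
  exact congrArg π (Subtype.ext h)

theorem GE.desc {n : ℕ} {m : ℕ → ℕ → ℕ} {i : ℕ → ℕ} {h : TOk n m i} {φ : TG h →* G} {Out : G → Prop}
    {xp xq : ℕ} (C : GE φ σ Y Out xp xq) (π : H →* Γ) (hs : Function.Surjective π)
    (hk : ∀ g, π g = 1 ↔ g.1 ∈ Y) (hφ : ∀ a, φ a ∈ H) (hσ : σ ∈ H) {Out' : Γ → Prop}
    (hO : ∀ g : H, Out g → Out' (π g)) (hZ : ∀ a : TG h, (∀ b, b * a = a * b) → a * a = 1)
    (h2 : (o 32 : TG h) * o 32 = 1 ∧ (o 1 : TG h) * o 1 = 1) :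
    GE (π.comp (φ.codRestrict H hφ)) (π ⟨σ, hσ⟩) ⊥ Out' xp xq := by
  have t : ∀ a : TG h, a * a = 1 → Two (φ a) := fun a ha => two_of_sq (by rw [← map_mul, ha, map_one])
  refine ⟨(injective_iff_map_eq_one _).2 fun a ha => ?_, by simp, by simp, by simp, fun x h1 h2' => ?_, ?_,
    fun p hp => desc_rel π hφ hσ (C.rel p hp)⟩
  · have hy : φ a ∈ Y := (hk ⟨φ a, hφ a⟩).1 ha
    exact C.inj ((eq_one_of_two C.odd hy (t a (hZ a fun b => C.inj (by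
      rw [map_mul, map_mul, C.cY b _ hy])))).trans (map_one φ).symm)
  · obtain ⟨g, rfl⟩ := hs x
    rcases C.cent g (desc_cx C.odd π hk (u := ⟨_, hφ _⟩) (t _ h2.1) (C.cY _) h1)
      (desc_cx C.odd π hk (u := ⟨_, hφ _⟩) (t _ h2.2) (C.cY _) h2') with ⟨y, hy, a, ha, e⟩ | e
    · refine Or.inl ⟨1, one_mem _, a, ha, ?_⟩
      have : π (g * (⟨φ a, hφ a⟩ : H)⁻¹) = 1 := (hk _).2 (by
        show g.1 * (φ a)⁻¹ ∈ Y
        rwa [e, mul_inv_cancel_right])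
      rw [map_mul, map_inv, mul_inv_eq_one] at this
      rw [one_mul, this]
      rfl
    · exact Or.inr (hO g e)
  · rw [← map_mul, ← map_mul, ← map_one π]
    exact congrArg π (Subtype.ext C.s3)

theorem zW : (∀ a : NW, (LA [4, 8, 16, 32, 512] fun k => o k * a = a * o k) → a * a = 1) ∧
    (o 32 : NW) * o 32 = 1 ∧ (o 1 : NW) * o 1 = 1 := by decide +kernel

theorem zC : (∀ a : NC, (LA [4, 8, 16, 32, 512] fun k => o k * a = a * o k) → a * a = 1) ∧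
    (o 32 : NC) * o 32 = 1 ∧ (o 1 : NC) * o 1 = 1 := by decide +kernel

theorem GW.desc {φ : NW →* G} (C : GW φ σ Y δ) (π : H →* Γ) (hs : Function.Surjective π)
    (hk : ∀ g, π g = 1 ↔ g.1 ∈ Y) (hφ : ∀ a, φ a ∈ H) (hσ : σ ∈ H) :
    ∃ φ' : NW →* Γ, GW φ' (π ⟨σ, hσ⟩) ⊥ δ ∧ ∀ a, φ' a = π ⟨φ a, hφ a⟩ :=
  ⟨_, GE.desc C π hs hk hφ hσ (fun g ⟨n, hn, e⟩ => ⟨n, hn, fun a => desc_rel π hφ g.2 (e a)⟩)
    (fun a ha => zW.1 a fun _ _ => ha _) zW.2, fun _ => rfl⟩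

theorem GN.desc [Finite G] {φ : NC →* G} (C : GN φ σ Y δ) (π : H →* Γ) (hs : Function.Surjective π)
    (hk : ∀ g, π g = 1 ↔ g.1 ∈ Y) (hφ : ∀ a, φ a ∈ H) (hσ : σ ∈ H) :
    ∃ φ' : NC →* Γ, Ctx φ' (π ⟨σ, hσ⟩) (678 + δ) (716 + δ) ∧ ∀ a, φ' a = π ⟨φ a, hφ a⟩ := by
  have E := GE.desc C.toGE π hs hk hφ hσ (Out' := fun _ => False) (fun _ h => h)
    (fun a ha => zC.1 a fun _ _ => ha _) zC.2
  have t : ∀ a : NC, a * a = 1 → Two (φ a) := fun a ha => two_of_sq (by rw [← map_mul, ha, map_one])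
  refine ⟨_, ⟨E.inj, fun g h1 h2 => ?_, fun h => C.syl (h.trans ?_), fun h => C.nc ?_, E.s3, E.rel⟩,
    fun _ => rfl⟩
  · obtain ⟨y, hy, a, ha, e⟩ | e := E.cent g h1 h2
    · exact ⟨a, ha, by rw [e, mem_bot.1 hy, one_mul]⟩
    · exact e.elim
  · exact desc_card C.odd π hs hk (u := ⟨_, hφ _⟩) (t _ zC.2.1) (C.cY _)
  · obtain ⟨x, hx⟩ := isConj_iff.1 h
    obtain ⟨g, rfl⟩ := hs x
    exact isConj_iff.2 ⟨g, desc_conj C.odd π hk (u := ⟨_, hφ _⟩) (v := ⟨_, hφ _⟩) (t _ zC.2.1) (t _ zC.2.2)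
      (C.cY _) hx⟩

end CfsgLib.SM12
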