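import Mathlib
import Cfsg.Agent.Lib.SM12.Lift

/-! Package FR: the frame (plans/SM12.md). -/

set_option autoImplicit false
set_option maxRecDepth 100000
set_option synthInstance.maxSize 4096

namespace CfsgLib.SM12

open Subgroup Cfsg CfsgLib.W2 CfsgLib.W2.TG CfsgLib.Tech CfsgLib.CosetEnum CfsgLib.Yos

variable {G : Type*} [Group G] {e σ c g x : G} {φ : HM →* G} {Y L : Subgroup G} {b : Prop} {k i : ℕ}

theorem Fr0.comm (F : Fr0 e φ σ Y L c b) (a : HM) : φ a * e = e * φ a :=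
  mem_Cx.1 (F.Le ((F.rng _).1 ⟨a, rfl⟩).1)

theorem Fr0.cφ (F : Fr0 e φ σ Y L c b) (a : HM) : ∀ y ∈ Y, φ a * y = y * φ a :=
  F.cY _ ((F.rng _).1 ⟨a, rfl⟩).1

theorem fT : (∀ s < 2, ∀ a < 192, aT s a < 192) ∧
    (∀ a : HM, (o (aT 0 a.v) : HM) = a ∧ (o (aT 1 a.v) : HM) = cT (o 192) a) ∧
    (∀ a : HM, (o a.v : HT).v = a.v ∧ (o a.v * o 192 : HT).v = a.v + 192 ∧ a * o 1 = o 1 * a) ∧
    (∀ x : HT, (o (x.v / 192) : TG ok2) = 1 → (o (o x.v : HM).v : HT) = x) ∧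
    (∀ a : HM, (LA [2, 4, 8, 16, 32] fun k => o k * a = a * o k) → a * a = 1) := by decide +kernel

theorem fQ : ∀ h : HT, (LA [2, 4, 8, 16] fun q => (cT h (o q) * (o q)⁻¹) ^ 4 = 1) ∧
    ((LA [2, 4, 8, 16] fun q => cT h (o q) = o q) →
      h.v / 192 = 0 ∧ (o (h.v % 192) : HM) * o (h.v % 192) = 1) := by decide +kernel

theorem em_v (a : HM) : (em a).v = a.v := (fT.2.2.1 a).1

theorem em_inj : Function.Injective em := fun a b h => ext' (by rw [← em_v a, h, em_v])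

theorem z_cen (a : HM) : a * o 1 = o 1 * a := (fT.2.2.1 a).2.2

/-- The map onto `HT / HM`. -/
theorem exists_par : ∃ Φ : HT →* TG ok2, ∀ x, Φ x = o (x.v / 192) := by
  obtain ⟨Φ, h⟩ := sd_lift okT rfl (1 : HM →* TG ok2) (MonoidHom.id _) fT.1 fun s a => by simp [W2.Rel]
  exact ⟨Φ, fun x => by simpa using h x⟩

theorem em_cT (h : HT) (a : HM) : em (cT h a) = h * em a * h⁻¹ := by
  obtain ⟨Φ, hΦ⟩ := exists_par
  refine fT.2.2.2.1 _ ?_
  have h1 : Φ (em a) = 1 := by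
    rw [hΦ, em_v, Nat.div_eq_of_lt a.v_lt]
    rfl
  rw [← hΦ, map_mul, map_mul, ← em_apply, h1, mul_one, map_inv, mul_inv_cancel]

theorem cT_em (a p : HM) : cT (em a) p = a * p * a⁻¹ :=
  em_inj (by rw [em_cT, map_mul, map_mul, map_inv])

theorem cT_mul (h l : HT) (p : HM) : cT (h * l) p = cT h (cT l p) :=
  em_inj (by rw [em_cT, em_cT, em_cT]; group)

theorem cT_one (p : HM) : cT 1 p = p := em_inj (by rw [em_cT]; group)

theorem cT_map_mul (h : HT) (p q : HM) : cT h (p * q) = cT h p * cT h q :=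
  em_inj (by rw [map_mul, em_cT, em_cT, em_cT, map_mul]; group)

theorem ht_cases (h : HT) : ∃ a, h = em a ∨ h = em a * o 192 := by
  refine ⟨o (h.v % 192), ?_⟩
  have h1 := h.v_lt
  have h2 : (o (h.v % 192) : HM).v = h.v % 192 := v_o (Nat.mod_lt _ (by norm_num))
  rcases lt_or_ge h.v 192 with h3 | h3
  · exact Or.inl (ext' (by rw [em_v, h2]; omega))
  · exact Or.inr (ext' (by rw [em_apply, (fT.2.2.1 _).2.1, h2]; omega))

theorem Fr0.relY (F : Fr0 e φ σ Y L c b) {y : G} (hy : y ∈ Y) (a : HM) : W2.Rel φ y a a :=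
  W2.Rel.of_comm (F.cφ a y hy).symm

theorem Fr0.relE (F : Fr0 e φ σ Y L c b) (i : ℕ) (a : HM) : W2.Rel φ (e ^ i) a a :=
  W2.Rel.of_comm (Commute.pow_left (F.comm a).symm i)

theorem Fr0.φe (F : Fr0 e φ σ Y L c b) (a : HM) : φ a ∈ Cx e := mem_Cx.2 (F.comm a)

theorem Fr0.act (F : Fr0 e φ σ Y L c b) (h1 : g ∈ Cx e) (h2 : g ∈ Cx (φ (o 1))) :
    ∃ h : HT, (h.v < 192 ∨ b) ∧ (∀ a, W2.Rel φ g a (cT h a)) ∧
      ∃ y ∈ Y, ∃ i < 2, g = y * φ (o (h.v % 192)) * c ^ (h.v / 192) * e ^ i := by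
  obtain ⟨y, hy, a, i, hi, rfl | ⟨hb, rfl⟩⟩ := F.cent g h1 h2
  · refine ⟨em a, Or.inl (em_v a ▸ a.v_lt), fun p => ?_, y, hy, i, hi, ?_⟩
    · rw [cT_em]
      exact ((F.relY hy _).comp (W2.Rel.conj φ a p)).comp (F.relE i p)
    · rw [em_v, Nat.mod_eq_of_lt a.v_lt, Nat.div_eq_of_lt a.v_lt, o_v, pow_zero, mul_one]
  · refine ⟨em a * o 192, Or.inr hb, fun p => ?_, y, hy, i, hi, ?_⟩
    · rw [cT_mul, cT_em]
      exact (((F.relY hy _).comp (W2.Rel.conj φ a _)).comp (F.crel hb p)).comp (F.relE i p)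
    · have := a.v_lt
      rw [em_apply, (fT.2.2.1 a).2.1, Nat.add_mod_right, Nat.mod_eq_of_lt a.v_lt, o_v,
        show (a.v + 192) / 192 = 1 by omega, pow_one]

theorem pow_card_eq_one {y : G} (hy : y ∈ Y) : y ^ Nat.card Y = 1 :=
  congrArg Subtype.val (pow_card_eq_one' (x := (⟨y, hy⟩ : Y)))

theorem pow_odd_eq {w : G} {n : ℕ} (hn : Odd n) (hw : w * w = 1) : w ^ n = w := by
  obtain ⟨m, rfl⟩ := hn
  rw [pow_succ, pow_mul, sq, hw, one_pow, one_mul]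

theorem Fr0.normY (F : Fr0 e φ σ Y L c b) (g1 : g * e * g⁻¹ = e * φ (o 1))
    (g2 : W2.Rel φ g (o 1) (o 1)) : g ∈ normalizer (Y : Set G) := by
  have : Finite (Y : Set G) := Nat.finite_of_card_ne_zero (fun h => by
    have := F.odd
    rw [show Nat.card Y = 0 from h] at this
    exact absurd this (by decide))
  refine mem_normalizer_fintype fun y (hy : y ∈ Y) => ?_
  have uz : g * y * g⁻¹ ∈ Cx (φ (o 1)) := by
    rw [← show g * φ (o 1) * g⁻¹ = φ (o 1) from g2, conj_mem_Cx]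
    exact mem_Cx.2 (F.cφ _ y hy).symm
  have ue : g * y * g⁻¹ ∈ Cx e := by
    have h1 : e * φ (o 1) ∈ Cx (g * y * g⁻¹) := by
      rw [← g1, conj_mem_Cx, Cx_comm]
      exact F.eY hy
    have := mul_mem h1 (inv_mem (Cx_comm.1 uz))
    rwa [mul_inv_cancel_right, Cx_comm] at this
  obtain ⟨h, -, hr, y', hy', i, -, hu⟩ := F.act ue uz
  have hq : LA [2, 4, 8, 16] fun q => cT h (o q) = o q := fun q hq => by
    have p1 : g⁻¹ * φ (o q) * g ∈ Cx e := by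
      rw [← conj_mem_Cx (g := g), g1, show g * (g⁻¹ * φ (o q) * g) * g⁻¹ = φ (o q) by group, Cx_comm]
      exact mul_mem (Cx_comm.1 (F.φe _)) (mem_Cx.2 (by rw [← map_mul, ← map_mul, z_cen]))
    have p2 := mul_mem hy ((mem_normalizer_iff.1 (F.nY p1) _).1 (inv_mem hy))
    have p3 : y * (g⁻¹ * φ (o q) * g * y⁻¹ * (g⁻¹ * φ (o q) * g)⁻¹) =
        g⁻¹ * φ (cT h (o q) * (o q)⁻¹) * g⁻¹⁻¹ := by
      rw [map_mul, map_inv, ← show _ = φ (cT h (o q)) from hr (o q)]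
      group
    have p4 : Two (φ (cT h (o q) * (o q)⁻¹)) :=
      ⟨2, by rw [← map_pow, show (2 ^ 2 : ℕ) = 4 from rfl, (fQ h).1 q hq, map_one]⟩
    rw [p3] at p2
    have p5 := eq_one_of_two F.odd p2 (p4.conj g⁻¹)
    rw [conj_eq_one_iff, ← map_one φ] at p5
    exact mul_inv_eq_one.1 (F.inj p5)
  obtain ⟨h0, h1⟩ := (fQ h).2 hq
  rw [h0, pow_zero, mul_one, mul_assoc y'] at hu
  have c1 : Commute (φ (o (h.v % 192))) (e ^ i) := Commute.pow_right (F.comm _) i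
  have w2 : φ (o (h.v % 192)) * e ^ i * (φ (o (h.v % 192)) * e ^ i) = 1 := by
    rw [← sq, c1.mul_pow, sq, ← map_mul, h1, map_one, one_mul, ← pow_mul, mul_comm, pow_mul, sq, F.ee, one_pow]
  have c2 : Commute y' (φ (o (h.v % 192)) * e ^ i) :=
    Commute.mul_right (F.cφ _ y' hy').symm (Commute.pow_right (mem_Cx.1 (F.eY hy')) i)
  have h3 : (g * y * g⁻¹) ^ Nat.card Y = 1 := by rw [conj_pow, pow_card_eq_one hy, mul_one, mul_inv_cancel]
  rw [hu, c2.mul_pow, pow_card_eq_one hy', one_mul, pow_odd_eq F.odd w2] at h3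
  show g * y * g⁻¹ ∈ Y
  rwa [hu, h3, mul_one]

theorem not_dvd_odd_mul {m n k : ℕ} (hm : Odd m) (h : ¬ 2 ^ k ∣ n) : ¬ 2 ^ (k + 1) ∣ m * n * 2 := fun h' =>
  h (((Nat.coprime_two_left.2 hm).pow_left k).dvd_of_dvd_mul_left
    (Nat.dvd_of_mul_dvd_mul_right (by norm_num) (pow_succ 2 k ▸ h')))

theorem Fr0.syl_inner [Finite G] (F : Fr0 e φ σ Y L c b) (hb : ¬ b) : ¬ 256 ∣ Nat.card (Cx e) := by
  let f := (Y.subtype.noncommCoprod L.subtype fun y l => (F.cY _ l.2 _ y.2).symm).noncommCoprod (hom2 e F.ee)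
    fun p s => Commute.pow_right (mem_Cx.1 (mul_mem (F.eY p.1.2) (F.Le p.2.2))) s.v
  have h1 : Cx e ≤ f.range := fun g hg => by
    obtain ⟨y, hy, l, hl, rfl | rfl⟩ := F.inner hb g hg
    · exact ⟨((⟨y, hy⟩, ⟨l, hl⟩), o 0), by
        show y * l * e ^ 0 = _
        rw [pow_zero, mul_one]⟩
    · exact ⟨((⟨y, hy⟩, ⟨l, hl⟩), o 1), by
        show y * l * e ^ 1 = _
        rw [pow_one]⟩
  refine fun h => not_dvd_odd_mul (k := 7) F.odd F.sylL ((h.trans (card_dvd_of_le h1)).trans ?_)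
  have := card_range_dvd f
  rwa [Nat.card_prod, Nat.card_prod, card_eq] at this

theorem socT : ∀ g : HT, g = 1 ∨ g = o 1 ∨ LE ([2, 4, 8, 16, 32, 64].map o) fun k : HT =>
    k * g * k⁻¹ * g⁻¹ = o 1 ∨ LE ([2, 4, 8, 16, 32, 64].map o) fun l : HT =>
      l * (k * g * k⁻¹ * g⁻¹) * l⁻¹ * (k * g * k⁻¹ * g⁻¹)⁻¹ = o 1 := by decide +kernel

theorem Fr.exists_ht (F : Fr e φ σ Y L c b) (hb : b) : ∃ ψ : HT →* G, Function.Injective ψ ∧
    (∀ a, ψ (em a) = φ a) ∧ ψ (o 192) = c := by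
  obtain ⟨ψ, h⟩ := sd_lift okT rfl φ (hom2 c F.cc) fT.1 fun s a => by
    have hs := s.v_lt
    rw [hom2_apply]
    obtain h | h : s.v = 0 ∨ s.v = 1 := by omega
    · rw [h, (fT.2.1 a).1, pow_zero]
      exact W2.Rel.of_comm (by rw [one_mul, mul_one])
    · rw [h, (fT.2.1 a).2, pow_one]
      exact F.crel hb a
  have h1 : ∀ a, ψ (em a) = φ a := fun a => by
    rw [h, em_v, Nat.mod_eq_of_lt a.v_lt, Nat.div_eq_of_lt a.v_lt, o_v, hom2_apply]
    show φ a * c ^ 0 = _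
    rw [pow_zero, mul_one]
  refine ⟨ψ, injective_of_socle ψ (z := o 1) ?_ _ socT, h1, ?_⟩
  · rw [show (o 1 : HT) = em (o 1) from rfl, h1, ← map_one φ]
    exact fun h => absurd (F.inj h) (by decide +kernel)
  · rw [h, hom2_apply]
    show φ 1 * c ^ 1 = c
    rw [map_one, one_mul, pow_one]

theorem Fr0.mul_e (F : Fr0 e φ σ Y L c b) : Fr0 e φ σ Y L (c * e) b := by
  refine { F with ce := mul_mem F.ce (mem_Cx.2 rfl), cs := ?_, crel := fun hb a => ?_, cent := fun g h1 h2 => ?_ }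
  · rw [mul_assoc, ← mem_Cx.1 (F.Le F.sL), ← mul_assoc, F.cs, mul_assoc]
  · exact (F.crel hb a).comp (W2.Rel.of_comm (F.comm a).symm)
  · obtain ⟨y, hy, a, i, hi, h | ⟨hb, h⟩⟩ := F.cent g h1 h2
    · exact ⟨y, hy, a, i, hi, Or.inl h⟩
    · refine ⟨y, hy, a, 1 - i, by omega, Or.inr ⟨hb, h.trans ?_⟩⟩
      obtain rfl | rfl : i = 0 ∨ i = 1 := by omega
      · simp [mul_assoc, F.ee]
      · simp [mul_assoc]

theorem Fr.mul_e (F : Fr e φ σ Y L c b) : Fr e φ σ Y L (c * e) b :=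
  ⟨F.toFr0.mul_e, by
    rw [mul_assoc, ← mul_assoc e, ← mem_Cx.1 F.ce, mul_assoc, F.ee, mul_one, F.cc]⟩

/-- `e` is not in `Y L`. -/
theorem Fr0.ne_mul (F : Fr0 e φ σ Y L c b) {y l : G} (hy : y ∈ Y) (hl : l ∈ L) : e ≠ y * l := fun h => by
  have := pow_mem hl (Nat.card Y)
  rw [← one_mul (l ^ _), ← pow_card_eq_one hy, ← Commute.mul_pow (F.cY l hl y hy).symm, ← h,
    pow_odd_eq F.odd F.ee] at this
  exact F.eL this

theorem Fr0.eq_one (F : Fr0 e φ σ Y L c b) {a : HM} (ha : φ a ∈ Y) : a = 1 :=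
  F.inj ((eq_one_of_two F.odd ha (two_of_sq (by
    rw [← map_mul, fT.2.2.2.2 a fun k _ => F.inj (by rw [map_mul, map_mul, F.cφ _ _ ha]), map_one]))).trans
      (map_one φ).symm)

theorem Fr.desc [Finite G] (F : Fr e φ σ Y L c b) {Γ : Type*} [Group Γ] (π : normalizer (Y : Set G) →* Γ)
    (hs : Function.Surjective π) (hk : ∀ g, π g = 1 ↔ g.1 ∈ Y) :
    ∃ (φ' : HM →* Γ) (L' : Subgroup Γ) (he : e ∈ normalizer (Y : Set G)) (hσ : σ ∈ normalizer (Y : Set G))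
      (hc : c ∈ normalizer (Y : Set G)), Fr (π ⟨e, he⟩) φ' (π ⟨σ, hσ⟩) ⊥ L' (π ⟨c, hc⟩) b ∧
        ∀ a h, φ' a = π ⟨φ a, h⟩ := by
  have hφ : ∀ a, φ a ∈ normalizer (Y : Set G) := fun a => F.nY (F.φe a)
  have he : e ∈ normalizer (Y : Set G) := F.nY (mem_Cx.2 rfl)
  have hL : L ≤ normalizer (Y : Set G) := F.Le.trans F.nY
  have te : Two e := two_of_sq F.ee
  have tz : Two (φ (o 1)) := two_of_sq (by
    rw [← map_mul, show (o 1 : HM) * o 1 = 1 by decide +kernel, map_one])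
  have cx : ∀ {u v : normalizer (Y : Set G)}, u.1 ∈ Cx v.1 → π u ∈ Cx (π v) := fun {u v} h => mem_Cx.2 (by
    rw [← map_mul, ← map_mul]
    exact congrArg π (Subtype.ext (mem_Cx.1 h)))
  have dE : ∀ {u : normalizer (Y : Set G)}, π u ∈ Cx (π ⟨e, he⟩) → u.1 ∈ Cx e := fun h =>
    desc_cx F.odd π hk (u := ⟨e, he⟩) te (fun y hy => (mem_Cx.1 (F.eY hy)).symm) h
  have dZ : ∀ {u : normalizer (Y : Set G)}, π u ∈ Cx (π ⟨φ (o 1), hφ _⟩) → u.1 ∈ Cx (φ (o 1)) := fun h =>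
    desc_cx F.odd π hk (u := ⟨_, hφ _⟩) tz (F.cφ _) h
  have eq : ∀ {u v : normalizer (Y : Set G)} {y : G}, y ∈ Y → u.1 = y * v.1 → π u = π v := fun {u v y} hy h => by
    rw [← mul_inv_eq_one, ← map_inv, ← map_mul, hk]
    show u.1 * v.1⁻¹ ∈ Y
    rwa [h, mul_inv_cancel_right]
  refine ⟨π.comp (φ.codRestrict _ hφ), (L.subgroupOf _).map π, he, hL F.sL, F.nY F.ce,
    ⟨⟨(injective_iff_map_eq_one _).2 fun a ha => F.eq_one ((hk ⟨φ a, hφ a⟩).1 ha), ?_, ?_, ?_, fun x => ?_,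
      fun h => F.sylL (h.trans ?_), ⟨⟨σ, hL F.sL⟩, F.sL, rfl⟩, ?_, fun p hp => desc_rel π hφ _ (F.rel p hp), ?_,
      by simp, bot_le, by simp, le_normalizer_of_normal, cx F.ce, ?_, fun hb a => desc_rel π hφ _ (F.crel hb a),
      fun x h1 h2 => ?_, fun hb x h1 => ?_⟩, ?_⟩, fun _ _ => rfl⟩
  · rw [← map_mul, ← map_one π]
    exact congrArg π (Subtype.ext F.ee)
  · rintro ⟨l, hl, h⟩
    have : (⟨e, he⟩ * l⁻¹ : normalizer (Y : Set G)).1 ∈ Y :=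
      (hk _).1 (by rw [map_mul, map_inv, h, mul_inv_cancel])
    exact F.ne_mul this hl (inv_mul_cancel_right e l.1).symm
  · rintro _ ⟨l, hl, rfl⟩
    exact cx (F.Le hl)
  · constructor
    · rintro ⟨a, rfl⟩
      have := (F.rng _).1 ⟨a, rfl⟩
      exact ⟨⟨⟨φ a, hφ a⟩, this.1, rfl⟩, cx (u := ⟨φ a, hφ a⟩) (v := ⟨_, hφ _⟩) this.2⟩
    · rintro ⟨⟨l, hl, rfl⟩, h⟩
      obtain ⟨a, ha⟩ := (F.rng l.1).2 ⟨hl, dZ h⟩
      exact ⟨a, congrArg π (Subtype.ext ha)⟩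
  · exact (card_map_dvd _ _).trans (card_comap_dvd_of_injective _ _ (subtype_injective _))
  · rw [← map_mul, ← map_mul, ← map_one π]
    exact congrArg π (Subtype.ext F.s3)
  · show π _ * π _ * π _ = _
    rw [← map_mul, ← map_mul, ← map_inv]
    exact congrArg π (Subtype.ext F.qinv)
  · rw [← map_mul, ← map_mul]
    exact congrArg π (Subtype.ext F.cs)
  · obtain ⟨g, rfl⟩ := hs x
    obtain ⟨y, hy, a, i, hi, h⟩ := F.cent g (dE h1) (dZ h2)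
    refine ⟨1, one_mem _, a, i, hi, h.imp (fun h => ?_) (And.imp_right fun h => ?_)⟩
    · show _ = 1 * π _ * _
      rw [one_mul, ← map_pow, ← map_mul]
      exact eq hy (h.trans (mul_assoc _ _ _))
    · show _ = 1 * π _ * _ * _
      rw [one_mul, ← map_pow, ← map_mul, ← map_mul]
      exact eq hy (h.trans (by simp [mul_assoc]))
  · obtain ⟨g, rfl⟩ := hs x
    obtain ⟨y, hy, l, hl, h⟩ := F.inner hb g (dE h1)
    refine ⟨1, one_mem _, π ⟨l, hL hl⟩, ⟨_, hl, rfl⟩, h.imp (fun h => ?_) fun h => ?_⟩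
    · rw [one_mul]
      exact eq hy h
    · rw [one_mul, ← map_mul]
      exact eq hy (h.trans (mul_assoc _ _ _))
  · rw [← map_mul, ← map_one π]
    exact congrArg π (Subtype.ext F.cc)

end CfsgLib.SM12
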