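import Mathlib
import Cfsg.Agent.Lib.SM12.Fr
import Cfsg.Agent.Lib.Yos.A
import Cfsg.Agent.Lib.Transfer.Thompson

/-! Package EGB: `e` is conjugate to `e z` (plans/SM12.md). -/

set_option autoImplicit false
set_option maxRecDepth 100000
set_option synthInstance.maxSize 4096

namespace CfsgLib.SM12

open Subgroup Cfsg CfsgLib.W2 CfsgLib.W2.TG CfsgLib.Tech CfsgLib.CosetEnum CfsgLib.Yos

variable {G : Type*} [Group G] {e σ c g x : G} {φ : HM →* G} {Y L : Subgroup G} {b : Prop} {k i : ℕ}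

namespace EGb

/-- Adjoining an element whose square lies in `H`. -/
theorem ext2 [Finite G] {H : Subgroup G} (hn : ∀ h ∈ H, x * h * x⁻¹ ∈ H) (h2 : x * x ∈ H) (hx : x ∉ H) :
    ∃ K : Subgroup G, (∀ g, g ∈ K ↔ g ∈ H ∨ g * x ∈ H) ∧ H ≤ K ∧ x ∈ K ∧ Nat.card K = Nat.card H * 2 ∧
      ∀ P : Subgroup G, H ≤ P → x ∈ P → K ≤ P := by
  have hN := mem_normalizer_of_forall hn
  let K : Subgroup G :=
    { carrier := {g | g ∈ H ∨ g * x ∈ H}
      one_mem' := .inl H.one_mem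
      mul_mem' := by
        rintro a b (ha | ha) (hb | hb)
        · exact .inl (mul_mem ha hb)
        · exact .inr (mul_assoc a b x ▸ mul_mem ha hb)
        · exact .inr (by convert mul_mem ha (conj_mem_of_mem_normalizer' hN hb) using 1; group)
        · exact .inl (by
            convert mul_mem (mul_mem ha (conj_mem_of_mem_normalizer' hN hb)) (inv_mem h2) using 1; group)
      inv_mem' := by
        rintro a (ha | ha)
        · exact .inl (inv_mem ha)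
        · exact .inr (by convert mul_mem (hn _ (inv_mem ha)) h2 using 1; group) }
  have h1 : H ≤ K := fun g hg => .inl hg
  refine ⟨K, fun _ => Iff.rfl, h1, .inr h2, ?_, fun P k1 k2 g hg =>
    hg.elim (fun k => k1 k) fun k => (mul_mem_cancel_right k2).1 (k1 k)⟩
  rw [← card_mul_relIndex' h1, relIndex_eq_two_iff.2 ⟨x, Or.inr h2, fun g hg => ?_⟩]
  by_cases h : g ∈ H
  · exact Or.inr ⟨h, fun k => hx ((mul_mem_cancel_left h).1 k)⟩
  · exact Or.inl ⟨hg.resolve_left h, h⟩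

theorem fC : (∀ h : HT, (LA [2, 4, 8, 16] fun q => cT h (o q) = o q) → h.v < 2) ∧
    (∀ a : HM, a.v < 64 → (cT (o 192) a).v < 64 ∧ (¬ LA [2, 4, 8, 16] fun q => a * o q * a⁻¹ = cT (o 192) (o q)) ∧
      (a * a * (a * a) = 1 → (a * a).v < 4)) ∧
    (∀ a : HM, a * cT (o 192) a * o 1 = 1 → ∀ a' : HM, a' * cT (o 192) a' * o 1 = 1 → LA [1, 2, 4, 8, 16] fun q =>
      a * cT (o 192) (a' * cT (o 192) (o q) * a'⁻¹) * a⁻¹ = a' * cT (o 192) (a * cT (o 192) (o q) * a⁻¹) * a'⁻¹) ∧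
    (o 1 : HM) * o 1 = 1 ∧ (o 128 : HM) * cT (o 192) (o 128) = 1 ∧ (o 128 : HM) * o 128 * o 128 = 1 ∧
    cT (o 192) (o 1) = o 1 := by decide +kernel

/-- A step up from a Sylow 2-subgroup of `C(e)`. -/
theorem step [Finite G] {S : Subgroup G} {z : G} (hsy : IsSylowIn 2 S (Cx e)) (he : e ∈ S) (hz : z ∈ S)
    (cz : S ≤ Cx z) (e1 : e ≠ 1) (z1 : z ≠ 1) (nc : ¬ IsConj e z)
    (hZ : ∀ u ∈ S, S ≤ Cx u → u = 1 ∨ u = z ∨ u = e ∨ u = e * z) :
    (∀ g ∈ normalizer (S : Set G), g * e * g⁻¹ = e ∨ g * e * g⁻¹ = e * z) ∧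
      (IsSylowIn 2 S ⊤ ∨ ∃ g, g * e * g⁻¹ = e * z ∧ g * z * g⁻¹ = z) := by
  have := Fact.mk Nat.prime_two
  have h1 : ∀ g ∈ normalizer (S : Set G), ∀ p ∈ S, S ≤ Cx p → p ≠ 1 →
      g * p * g⁻¹ = z ∨ g * p * g⁻¹ = e ∨ g * p * g⁻¹ = e * z := fun g hg p hp hc h =>
    (hZ _ (conj_mem_of_mem_normalizer hg hp) (by
      rw [← cj_Cx, ← mem_normalizer_iff_cj.1 hg]; exact cj_mono g hc)).resolve_left fun k =>
        h (conj_eq_one_iff.1 k)
  have h2 : ∀ g ∈ normalizer (S : Set G), g * e * g⁻¹ = e ∨ g * e * g⁻¹ = e * z := fun g hg =>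
    (h1 g hg e he hsy.le e1).resolve_left fun k => nc (isConj_iff.2 ⟨g, k⟩)
  refine ⟨h2, or_iff_not_imp_left.2 fun hn => ?_⟩
  obtain ⟨R, hR, hlt, -, hN⟩ := exists_lt_pgroup_normalizer hsy.pgroup le_top hn
  obtain ⟨g, hg, hg'⟩ := SetLike.exists_of_lt hlt
  have h3 := (h2 g (hN hg)).resolve_left fun k => hg' (hsy.le_of_normalizes (isPGroup_zpowers_of_mem hR hg)
    (zpowers_le.2 (mem_Cx'.2 k)) (zpowers_le.2 (hN hg)) (mem_zpowers g))
  refine ⟨g, h3, ?_⟩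
  rcases h1 g (hN hg) z hz cz z1 with k | k | k
  · exact k
  · exact absurd (isConj_iff.2 ⟨g, k⟩).symm nc
  · exact absurd (mul_left_cancel (mul_right_cancel (h3.trans k.symm)) ▸ IsConj.refl e) nc

end EGb

open EGb

theorem Fr0.zz (F : Fr0 e φ σ Y L c b) : φ (o 1) * φ (o 1) = 1 := by rw [← map_mul, fC.2.2.2.1, map_one]

theorem Fr0.cenQ (F : Fr0 e φ σ Y L c b) (h1 : g ∈ Cx e)
    (h2 : ∀ q ∈ [1, 2, 4, 8, 16], W2.Rel φ g (o q) (o q)) : ∃ y ∈ Y, ∃ v, (v = 1 ∨ v = φ (o 1) ∨ v = e ∨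
      v = e * φ (o 1)) ∧ v * v = 1 ∧ v * y = y * v ∧ g = y * v := by
  obtain ⟨h, -, hr, y, hy, i, hi, hg⟩ := F.act h1 (mem_Cx'.2 (h2 1 (by simp)))
  have h3 := fC.1 h fun q hq => (hr _).uniq F.inj (h2 q (List.mem_cons_of_mem _ hq)) rfl
  have c1 := F.cφ (o 1) y hy
  have c2 := (mem_Cx.1 (F.eY hy)).symm
  rw [Nat.div_eq_of_lt (by omega), Nat.mod_eq_of_lt (by omega), pow_zero, mul_one] at hg
  obtain h4 | h4 : h.v = 0 ∨ h.v = 1 := by omega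
  all_goals obtain rfl | rfl : i = 0 ∨ i = 1 := by omega
  all_goals rw [h4] at hg
  · exact ⟨y, hy, 1, .inl rfl, by simp, by simp, by
      rw [hg, show (o 0 : HM) = 1 from rfl, map_one, pow_zero, mul_one, mul_one]⟩
  · exact ⟨y, hy, e, by simp, F.ee, c2, by
      rw [hg, show (o 0 : HM) = 1 from rfl, map_one, mul_one, pow_one]⟩
  · exact ⟨y, hy, _, by simp, F.zz, c1, by rw [hg, pow_zero, mul_one]⟩
  · refine ⟨y, hy, e * φ (o 1), by simp, ?_, ?_, by rw [hg, pow_one, mul_assoc, F.comm]⟩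
    · rw [mul_assoc, ← mul_assoc _ e, F.comm, mul_assoc, F.zz, mul_one, F.ee]
    · rw [mul_assoc, c1, ← mul_assoc, c2, mul_assoc]

/-- The square roots of `e z`. -/
theorem Fr0.root (F : Fr0 e φ σ Y L c b) (cc : c * c = e) {w : G} (hw : w * w = e * φ (o 1))
    (h2 : w ∈ Cx (φ (o 1))) : ∃ a : HM, a * cT (o 192) a * o 1 = 1 ∧
      ∀ p, W2.Rel φ w p (a * cT (o 192) p * a⁻¹) := by
  have h1 : w ∈ Cx e := by
    have : e * φ (o 1) ∈ Cx w := by rw [← hw, mem_Cx, mul_assoc]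
    exact Cx_comm.1 ((mul_mem_cancel_right (Cx_comm.1 h2)).1 this)
  have ei : ∀ i : ℕ, e ^ i * e ^ i = 1 := fun i => by rw [← (Commute.refl e).mul_pow, F.ee, one_pow]
  obtain ⟨y, hy, a, i, -, rfl | ⟨hb, rfl⟩⟩ := F.cent w h1 h2
  · have c1 : Commute (e ^ i) (y * φ a) := (Commute.pow_left (mem_Cx.1 (mul_mem (F.eY hy) (F.φe a))).symm i)
    refine absurd ?_ (F.ne_mul (mul_mem hy hy) ((F.rng _).1 ⟨a * a * o 1, rfl⟩).1)
    rw [mul_assoc, ← mul_assoc (e ^ i), c1, mul_assoc _ (e ^ i), ei, mul_one] at hw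
    calc e = e * φ (o 1) * φ (o 1) := by rw [mul_assoc, F.zz, mul_one]
      _ = y * (φ a * y) * φ a * φ (o 1) := by rw [← hw]; group
      _ = _ := by rw [F.cφ a y hy, map_mul, map_mul]; group
  · refine ⟨a, F.eq_one ?_, fun p => by
      simpa [mul_assoc] using (((F.relY hy _).comp (W2.Rel.conj φ a _)).comp (F.crel hb p)).comp (F.relE i p)⟩
    have c1 : Commute (e ^ i) (y * φ a * c) :=
      (Commute.pow_left (mem_Cx.1 (mul_mem (mul_mem (F.eY hy) (F.φe a)) F.ce)).symm i)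
    rw [mul_assoc, ← mul_assoc (e ^ i), c1, mul_assoc _ (e ^ i), ei, mul_one] at hw
    have y2 := conj_mem_of_mem_normalizer (F.nY F.ce) hy
    have h3 : y * (c * y * c⁻¹) * φ (a * cT (o 192) a * o 1) * e = e := by
      calc _ = y * (c * y * c⁻¹ * φ a) * (c * φ a * c⁻¹) * (φ (o 1) * e) := by
            rw [map_mul, map_mul, F.crel hb a]; group
        _ = y * φ a * c * (y * φ a * c) * φ (o 1) := by rw [← F.cφ a _ y2, F.comm, ← cc]; group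
        _ = e := by rw [hw, mul_assoc, F.zz, mul_one]
    rw [eq_inv_of_mul_eq_one_right (mul_eq_right.1 h3)]
    exact inv_mem (mul_mem hy y2)

theorem Fr0.nonsplit (F : Fr0 e φ σ Y L c b) (hb : b) (cc : c * c = e) (g1 : g * e * g⁻¹ = e * φ (o 1))
    (g2 : W2.Rel φ g (o 1) (o 1)) : False := by
  have cz : ∀ u ∈ Cx (φ (o 1)), g * u * g⁻¹ ∈ Cx (φ (o 1)) := fun u hu => by
    rw [← show g * φ (o 1) * g⁻¹ = φ (o 1) from g2, conj_mem_Cx]; exact hu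
  have c1 : c ∈ Cx (φ (o 1)) := mem_Cx'.2 ((F.crel hb _).of_eq rfl fC.2.2.2.2.2.2)
  have c2 : φ (o 128) ∈ Cx (φ (o 1)) := mem_Cx.2 (by rw [← map_mul, z_cen, map_mul])
  have c3 : c * φ (o 128) * c⁻¹ = (φ (o 128))⁻¹ := by
    rw [F.crel hb, ← map_inv, eq_inv_of_mul_eq_one_right fC.2.2.2.2.1]
  have c4 : φ (o 128) * φ (o 128) * φ (o 128) = 1 := by rw [← map_mul, ← map_mul, fC.2.2.2.2.2.1, map_one]
  obtain ⟨a, ha, r⟩ := F.root cc (w := g * c * g⁻¹) (by rw [conj_mul, cc, g1]) (cz _ c1)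
  obtain ⟨a', ha', r'⟩ := F.root cc (w := g * (φ (o 128) * c) * g⁻¹) (by
    rw [conj_mul, ← g1, ← cc, show φ (o 128) * c * (φ (o 128) * c) = φ (o 128) * (c * φ (o 128) * c⁻¹) * (c * c) by
      group, c3, mul_inv_cancel, one_mul]) (cz _ (mul_mem c2 c1))
  have h1 : (g * (φ (o 128) * c) * g⁻¹ * (g * c * g⁻¹))⁻¹ * (g * c * g⁻¹ * (g * (φ (o 128) * c) * g⁻¹)) =
      g * φ (o 128) * g⁻¹ := by
    calc _ = g * ((c * c)⁻¹ * ((φ (o 128))⁻¹ * (c * φ (o 128) * c⁻¹)) * (c * c)) * g⁻¹ := by group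
      _ = _ := by
        rw [c3, cc, ← mul_inv_rev, ← eq_inv_of_mul_eq_one_right c4, mul_assoc e⁻¹, F.comm, inv_mul_cancel_left]
  have h2 : g * φ (o 128) * g⁻¹ ∈ Cx e := by
    have : e * φ (o 1) ∈ Cx (g * φ (o 128) * g⁻¹) := by rw [← g1, conj_mem_Cx, Cx_comm]; exact F.φe _
    exact Cx_comm.1 ((mul_mem_cancel_right (Cx_comm.1 (cz _ c2))).1 this)
  obtain ⟨y, hy, v, -, v2, vy, hu⟩ := F.cenQ h2 fun q hq => h1 ▸ ((r' _).comp (r _)).symm.comp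
    (((r _).comp (r' _)).of_eq rfl (fC.2.2.1 a ha a' ha' q hq))
  have h3 : y ^ 3 * v = 1 := by
    rw [← pow_odd_eq (n := 3) (by decide) v2, ← Commute.mul_pow vy.symm, ← hu, conj_pow, pow_three', c4, mul_one,
      mul_inv_cancel]
  rw [eq_one_of_two F.odd (eq_inv_of_mul_eq_one_right h3 ▸ inv_mem (pow_mem hy 3)) (two_of_sq v2), mul_one] at hu
  exact absurd (F.eq_one ((mem_normalizer_iff.1 (F.normY g1 g2) _).2 (hu ▸ hy))) (by decide +kernel)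

theorem Fr0.exists_g [Finite G] (F : Fr0 e φ σ Y L c b) (cc : c * c = 1 ∨ (b ∧ c * c = e))
    (nc : ¬ IsConj e (φ (o 1))) (syl : ¬ 512 ∣ Nat.card (Cx e)) (hO : pResidual 2 G = ⊤) :
    c * c = 1 ∧ ∃ g, g * e * g⁻¹ = e * φ (o 1) ∧ W2.Rel φ g (o 1) (o 1) := by
  have pL : ∀ a, φ a ∈ L := fun a => ((F.rng _).1 ⟨a, rfl⟩).1
  have e1 : e ≠ 1 := fun h => F.eL (h ▸ L.one_mem)
  have z1 : φ (o 1) ≠ 1 := fun h => absurd (F.inj (h.trans φ.map_one.symm)) (by decide +kernel)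
  have c0 : Nat.card (SM.map φ) = 64 := by rw [card_map_of_injective F.inj, SM, card_subG]; decide +kernel
  have m0 : ∀ q ∈ [1, 2, 4, 8, 16], φ (o q) ∈ SM.map φ := fun q hq => mem_map_of_mem φ
    ((by decide +kernel : LA [1, 2, 4, 8, 16] fun q => (o q : HM).v < 64) q hq)
  have l0 : SM.map φ ≤ Cx e ⊓ Cx (φ (o 1)) := by
    rintro _ ⟨a, -, rfl⟩
    exact ⟨F.φe a, mem_Cx.2 (by rw [← map_mul, z_cen, map_mul])⟩
  have eP : e ∈ Cx e ⊓ Cx (φ (o 1)) := ⟨mem_Cx.2 rfl, mem_Cx.2 (F.comm _).symm⟩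
  have e0 : e ∉ SM.map φ := fun ⟨a, _, h⟩ => F.eL (h ▸ pL a)
  obtain ⟨M, mM, lM, eM, cM, uM⟩ := ext2 (x := e) (fun h hh => by
    rwa [← mem_Cx.1 (l0 hh).1, mul_inv_cancel_right]) (F.ee ▸ one_mem _) e0
  have st : ∀ {S : Subgroup G} {n : ℕ}, Nat.card S = 2 ^ n → ¬ 2 ^ (n + 1) ∣ Nat.card (Cx e) → M ≤ S →
      S ≤ Cx e ⊓ Cx (φ (o 1)) → IsPGroup 2 S ∧ (∀ g ∈ normalizer (S : Set G), g * e * g⁻¹ = e ∨
        g * e * g⁻¹ = e * φ (o 1)) ∧ (¬ 2 ∣ S.index ∨ ∃ g, g * e * g⁻¹ = e * φ (o 1) ∧ W2.Rel φ g (o 1) (o 1)) :=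
    fun {S n} h1 h2 h3 h4 => by
      have hp : IsPGroup 2 S := IsPGroup.of_card h1
      have h5 := h4.trans inf_le_left
      have := step ⟨h5, hp, fun ⟨k, hk⟩ => h2 ⟨k, by
        rw [← card_mul_relIndex' h5, h1, hk, pow_succ, mul_assoc]⟩⟩ (h3 eM) (h3 (lM (m0 1 (by simp))))
        (h4.trans inf_le_right) e1 z1 nc fun u hu hc => by
          obtain ⟨y, hy, v, hv, v2, vy, rfl⟩ := F.cenQ (h5 hu) fun q hq =>
            W2.Rel.of_comm (mem_Cx.1 (hc (h3 (lM (m0 q hq))))).symm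
          rwa [eq_one_of_mul F.odd hy vy (two_of_sq v2) (isPGroup_iff_mem.1 hp _ hu), one_mul]
      exact ⟨hp, this.1, this.2.imp_left fun h => relIndex_top_right S ▸ h.not_dvd⟩
  have fin : ∀ {S Q : Subgroup G} {n : ℕ}, Nat.card S = 2 ^ (n + 1) → ¬ 2 ^ (n + 2) ∣ Nat.card (Cx e) → M ≤ S →
      S ≤ Cx e ⊓ Cx (φ (o 1)) → Nat.card Q = 2 ^ n → SM.map φ ≤ Q → Q ≤ S → e ∉ Q →
      ∃ g, g * e * g⁻¹ = e * φ (o 1) ∧ W2.Rel φ g (o 1) (o 1) := fun {S Q n} h1 h2 h3 h4 h5 h6 h7 h8 => by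
    obtain ⟨hp, k1, k2⟩ := st h1 h2 h3 h4
    refine k2.resolve_left fun k3 => ?_
    have k4 := card_mul_relIndex' h7
    rw [h1, h5, pow_succ] at k4
    obtain ⟨t, k5, k6⟩ := thompson_ext k3 (Nat.eq_of_mul_eq_mul_left (by positivity) k4) F.ee
      (hO ▸ mem_top e) hp (h4.trans inf_le_left)
    rcases k1 t⁻¹ (mem_normalizer_of_forall (by simpa using k6)) with k | k <;> rw [inv_inv] at k <;> rw [k] at k5
    exacts [h8 k5, h8 ((mul_mem_cancel_right (h6 (m0 1 (by simp)))).1 k5)]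
  rw [c0] at cM
  by_cases hb : b
  swap
  · exact ⟨cc.resolve_right fun h => hb h.1, fin (n := 6) cM (F.syl_inner hb) le_rfl (uM _ l0 eP) c0 le_rfl lM e0⟩
  have cP : c ∈ Cx e ⊓ Cx (φ (o 1)) := ⟨F.ce, mem_Cx'.2 ((F.crel hb _).of_eq rfl fC.2.2.2.2.2.2)⟩
  have n0 : ∀ h ∈ SM.map φ, c * h * c⁻¹ ∈ SM.map φ := by
    rintro _ ⟨a, ha, rfl⟩
    exact ⟨_, (fC.2.1 a ha).1, Eq.symm (F.crel hb a)⟩
  have cM' : c ∉ M := fun h => by
    rcases (mM c).1 h with ⟨a, ha, h⟩ | ⟨a, ha, h⟩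
    · exact (fC.2.1 a ha).2.1 fun q _ => (W2.Rel.conj φ a _).uniq F.inj (h ▸ F.crel hb _) rfl
    · exact (fC.2.1 a ha).2.1 fun q _ => (W2.Rel.conj φ a _).uniq F.inj
        (h ▸ (F.crel hb _).comp (W2.Rel.of_comm (F.comm _).symm)) rfl
  obtain ⟨S, mS, lS, cS, kS, uS⟩ := ext2 (x := c) (H := M) (fun h hh => (mM _).2 (((mM h).1 hh).imp (n0 h) fun k => by
    have := n0 _ k
    rwa [← conj_mul, mem_Cx'.1 F.ce] at this)) (cc.elim (fun h => h ▸ one_mem _) fun h => h.2 ▸ eM) cM'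
  rw [cM] at kS
  have sP := uS _ (uM _ l0 eP) cP
  rcases cc with cc | ⟨-, cc⟩
  · obtain ⟨Q, mQ, lQ, -, kQ, uQ⟩ := ext2 n0 (cc ▸ one_mem _) fun h => cM' (lM h)
    exact ⟨cc, fin (n := 7) kS syl lS sP (by rw [kQ, c0]; rfl) lQ (uQ _ (lM.trans lS) cS) fun h => ((mQ e).1 h).elim e0
      fun k => cM' ((mul_mem_cancel_left eM).1 (lM k))⟩
  obtain ⟨-, -, k | ⟨g, g1, g2⟩⟩ := st (n := 8) kS syl lS sP
  swap
  · exact (F.nonsplit hb cc g1 g2).elim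
  have fm : ∀ m ∈ M, ∃ a : HM, a.v < 64 ∧ ∃ i : ℕ, m = φ a * e ^ i := fun m hm => by
    rcases (mM m).1 hm with ⟨a, ha, h⟩ | ⟨a, ha, h⟩
    exacts [⟨a, ha, 0, by rw [h, pow_zero, mul_one]⟩, ⟨a, ha, 1, by rw [h, pow_one, mul_assoc, F.ee, mul_one]⟩]
  have ei : ∀ (i : ℕ) (u : G), u ∈ Cx e → u * e ^ i * (u * e ^ i) = u * u := fun i u hu => by
    rw [← sq, (Commute.pow_right (mem_Cx.1 hu) i).mul_pow, sq, ← pow_mul, mul_comm, pow_mul, sq, F.ee, one_pow, mul_one]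
  have k4 := card_mul_relIndex' lS
  rw [cM, kS] at k4
  have := Fact.mk Nat.prime_two
  obtain ⟨N, -, hN, -⟩ | ⟨g, hg⟩ := Transfer.thompson_transfer_large_order (x := c) (n := 2) (Q := M) k (by omega)
    (orderOf_eq_prime_pow (n := 1) (by rwa [pow_one, sq, cc])
      (by rw [show 2 ^ (1 + 1) = 2 * 2 from rfl, pow_mul, sq c, cc, sq, F.ee]))
    fun y hy hy' => by
      obtain ⟨a, -, i, h⟩ := fm _ (((mS y).1 hy).resolve_left hy')
      have h1 : y = φ a * c⁻¹ * e ^ i := by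
        rw [mul_assoc, Commute.pow_right (mem_Cx.1 (inv_mem F.ce)) i, ← mul_assoc, ← h, mul_inv_cancel_right]
      by_contra! h2
      have h3 : y * y = 1 := by
        have := orderOf_pos y
        obtain h | h : orderOf y = 1 ∨ orderOf y = 2 := by omega
        exacts [by rw [orderOf_eq_one_iff.1 h, mul_one], sq_of_ord h]
      rw [h1, ei _ _ (mul_mem (F.φe a) (inv_mem F.ce))] at h3
      refine F.eL ?_
      rw [show e = φ (cT (o 192) a) * φ a by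
        calc e = c * (φ a * c⁻¹ * (φ a * c⁻¹)) * c := by rw [h3, mul_one, cc]
          _ = _ := by rw [← F.crel hb a]; group]
      exact mul_mem (pL _) (pL _)
  · exact absurd hN (Transfer.index_ne_two_of_pResidual_eq_top hO N)
  obtain ⟨a, ha, i, h⟩ := fm _ hg
  have h1 : g * e * g⁻¹ = φ (a * a) := by rw [← cc, ← conj_mul, h, ei _ _ (F.φe a), map_mul]
  have h2 := (fC.2.1 a ha).2.2 (F.inj (by rw [map_mul, ← h1, conj_mul, F.ee, map_one, mul_one, mul_inv_cancel]))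
  have h3 : IsConj e (φ (o (a * a).v)) := isConj_iff.2 ⟨g, by rw [o_v, h1]⟩
  have r1 := (F.rel (1, 2) (by simp)).isConj
  have r2 := (F.rel (2, 3) (by simp)).isConj
  generalize (a * a).v = k at h2 h3
  refine absurd ?_ nc
  interval_cases k
  exacts [absurd (isConj_one_left.1 (φ.map_one ▸ h3)) e1, h3, h3.trans r1.symm, h3.trans (r1.trans r2).symm]

end CfsgLib.SM12
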