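import Mathlib
import Cfsg.Agent.Lib.SM12.Fr
import Cfsg.Agent.Lib.Yos.A

/-! Package XO: the involution `x` when `Y = 1` (plans/SM12.md). -/

set_option autoImplicit false
set_option maxRecDepth 100000
set_option Elab.async false
set_option synthInstance.maxSize 4096

namespace CfsgLib.SM12

open Subgroup Cfsg CfsgLib.W2 CfsgLib.W2.TG CfsgLib.Tech CfsgLib.CosetEnum CfsgLib.Yos

variable {G : Type*} [Group G] {e σ c g x : G} {φ : HM →* G} {Y L : Subgroup G} {b : Prop} {k i : ℕ}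

open XAa in
theorem XO_x {M : Subgroup G} (C : Ctx0 e M φ σ) (g1 : g * e * g⁻¹ = e * φ (o 1))
    (g2 : W2.Rel φ g (o 1) (o 1)) : ∃ x, XD e φ x := by
  obtain ⟨ψ, inj, hψ, sur⟩ := C.exists_he
  have p1 : ∀ a, ψ (n a) = φ (o a) := fun a => (hψ _).trans (show φ (o a) * e ^ 0 = _ by simp)
  have p2 : ψ e0 = e := by rw [hψ]; exact (congrArg (· * _) φ.map_one).trans ((one_mul _).trans (pow_one e))
  have up : ∀ {y a b}, W2.Rel φ y (o a) (o b) ↔ W2.Rel ψ y (n a) (n b) := fun {y a b} => by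
    simp only [W2.Rel, p1]
  have ue : ∀ {y}, y * e * y⁻¹ = e * φ (o 1) ↔ W2.Rel ψ y e0 (e0 * n 1) := fun {y} => by
    rw [W2.Rel, map_mul, p1, p2]
  obtain ⟨q, hq⟩ : ∃ q, W2.Rel ψ g (n 64) q := by
    have h1 : g * φ (o 64) * g⁻¹ ∈ Cx (φ (o 1)) := by
      rw [← g2, conj_mem_Cx, mem_Cx, ← map_mul, hfM.zc, map_mul]
    have h2 : g * φ (o 64) * g⁻¹ ∈ Cx (e * φ (o 1)) := by
      rw [← g1, conj_mem_Cx, mem_Cx, C.comm_e]
    obtain ⟨q, hq⟩ := sur _ (Cx_comm.1 ((mul_mem_cancel_right (Cx_comm.1 h1)).1 (Cx_comm.1 h2))) h1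
    exact ⟨q, by rw [W2.Rel, p1, hq]⟩
  rw [up] at g2
  rw [ue] at g1
  obtain ⟨m, hm⟩ := (by decide +kernel : ∀ q : HE, q * q * q = 1 → q ≠ 1 → ∃ m : HM,
    (m, 1) * q * (m, 1)⁻¹ = n 64) q (((hq.mul hq).mul hq).uniq inj Rel.one (by decide +kernel))
      fun k => absurd (hq.uniq' inj Rel.one k) (by decide +kernel)
  have hc : ∀ m : HM, LA [n 1, e0 * n 1] fun p => (m, 1) * p * (m, 1)⁻¹ = p := by decide +kernel
  have a1 := ((Rel.conj ψ (m, 1) _).comp g1).of_eq rfl (hc m _ (by simp))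
  have a2 := ((Rel.conj ψ (m, 1) _).comp g2).of_eq rfl (hc m _ (by simp))
  have a3 := ((Rel.conj ψ (m, 1) _).comp hq).of_eq rfl hm
  generalize ψ (m, 1) * g = k at a1 a2 a3
  have a4 : W2.Rel ψ k (e0 * n 1) e0 := (a1.mul a2).of_eq rfl (by decide +kernel)
  obtain ⟨r, hr⟩ := sur (k * k) (mem_Cx'.2 (p2 ▸ a4.comp a1)) (mem_Cx'.2 (p1 1 ▸ a2.comp a2))
  have a5 : W2.Rel ψ k r r := by rw [W2.Rel, ← hr]; group
  have b1 := (a1.comp a4).comp a1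
  have b2 := (a2.comp a2).comp a2
  have b3 := (a3.comp a3).comp a3
  have b4 : k * k * k * (k * k * k) = ψ (r * r * r) := by rw [map_mul, map_mul, ← hr]; group
  have a6 := (a5.mul a5).mul a5
  generalize k * k * k = x at b1 b2 b3 b4
  rcases (by decide +kernel : ∀ r : HE, r * n 64 * r⁻¹ = n 64 → r * r * r = 1 ∨ r * r * r = n 1 ∨
    r * r * r = e0 ∨ r * r * r = e0 * n 1) r ((Rel.conj ψ r _).uniq inj (hr ▸ a3.comp a3) rfl) with h | h | h | h <;>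
    rw [h] at b4 a6
  · exact ⟨x, b4.trans (map_one ψ), ue.2 b1, up.2 b2, up.2 b3⟩
  · have c : ∀ p, W2.Rel ψ e p p := fun p => p2 ▸ (Rel.conj ψ e0 p).of_eq rfl
      ((by decide +kernel : ∀ p : HE, e0 * p * e0⁻¹ = p) p)
    refine ⟨x * e, ?_, ue.2 (b1.comp (c _)), up.2 (b2.comp (c _)), up.2 (b3.comp (c _))⟩
    calc x * e * (x * e) = x * ψ e0 * x⁻¹ * (x * x) * ψ e0 := by rw [p2]; group
      _ = 1 := by
        rw [b1, b4, ← map_mul, ← map_mul, (by decide +kernel : e0 * n 1 * n 1 * e0 = 1), map_one]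
  · exact absurd (a6.uniq inj a1 rfl) (by decide +kernel)
  · exact absurd (a6.uniq inj a4 rfl) (by decide +kernel)

theorem Fr.xi (F : Fr e φ σ ⊥ L c b) (hb : ¬ b) (g1 : g * e * g⁻¹ = e * φ (o 1))
    (g2 : W2.Rel φ g (o 1) (o 1)) : ∃ x k i, XA e φ σ x k i := by
  have C : Ctx0 e L φ σ := ⟨F.inj, F.ee, F.eL, fun g => ⟨fun h => by
      obtain ⟨y, hy, l, hl, h | h⟩ := F.inner hb g h <;> rw [mem_bot.1 hy, one_mul] at h
      · exact .inl (h ▸ hl)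
      · exact .inr (by rw [h, mul_assoc, F.ee, mul_one]; exact hl),
    fun h => h.elim (fun h => F.Le h) fun h => (mul_mem_cancel_right (mem_Cx.2 rfl)).1 (F.Le h)⟩,
    F.rng, F.sylL, F.sL, F.s3, F.rel, F.qinv⟩
  obtain ⟨x, X⟩ := XO_x C g1 g2
  exact ⟨x, C.xa X⟩

namespace XOa

/-- the model of `C(e, z)` -/
abbrev HP : Type := HT × TG ok2

noncomputable def n (a : ℕ) : HP := (o a, 1)
noncomputable def e0 : HP := (1, o 1)

noncomputable instance (priority := high) decP (P : HP → Prop) [DecidablePred P] : Decidable (∀ q, P q) :=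
  decidable_of_iff (∀ s a, P (a, s)) ⟨fun h q => h q.2 q.1, fun h s a => h (a, s)⟩

/-- the relations of `s` and `a` with `ρ` -/
abbrev PS (q : HP) : Prop := q * q = 1 ∧ q ≠ 1 ∧ q * (n 64 * q * (n 64)⁻¹) * (n 128 * q * (n 128)⁻¹) = 1

theorem f1 : ∀ q : HP, q * q * q = 1 → q ≠ 1 → ∃ m : HT, (m, 1) * q * (m, 1)⁻¹ = n 64 := by decide +kernel

theorem f2 : ∀ m : HT, LA [n 1, e0 * n 1] fun p => (m, 1) * p * (m, 1)⁻¹ = p := by decide +kernel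

theorem f3 : (∀ q : HP, q * q = n 1 → q * n 64 * q⁻¹ = n 64 →
    q = n 224 ∨ q = n 224 * n 1 ∨ q = n 224 * e0 ∨ q = n 224 * (e0 * n 1)) ∧
    ∀ r : HP, r * n 64 * r⁻¹ = n 64 → r * n 224 * r⁻¹ = n 224 := by decide +kernel

theorem f4 : ∀ s : HP, PS s → n 224 * s * (n 224)⁻¹ = s → ∀ a : HP, PS a → n 224 * a * (n 224)⁻¹ = a * s * n 1 →
    LE [0, 64, 128, 224, 288, 352] fun w => n w * s * (n w)⁻¹ = n 2 ∧ n w * a * (n w)⁻¹ = n 8 ∧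
      LA [n 1, e0 * n 1, n 64, n 224] fun p => n w * p * (n w)⁻¹ = p := by decide +kernel

theorem f5 : (∀ q : HP, q * q = 1 → q * n 64 * q⁻¹ = (n 64)⁻¹ → q * n 2 * q⁻¹ = n 2 →
    q * n 8 * q⁻¹ = n 8 * n 2 * n 1 → q = n 32 ∨ q = n 33 ∨ q = n 32 * e0 ∨ q = n 32 * (e0 * n 1)) ∧
    ∀ r : HP, r * n 64 * r⁻¹ = n 64 → r * n 2 * r⁻¹ = n 2 → r * n 8 * r⁻¹ = n 8 →
      r * n 32 * r⁻¹ = n 32 ∧ (r = 1 ∨ r = n 1 ∨ r = e0 ∨ r = e0 * n 1) := by decide +kernel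

theorem f6 : PS (n 2) ∧ PS (n 8) ∧ n 64 * n 64 = n 128 ∧ n 224 * n 2 * (n 224)⁻¹ = n 2 ∧
    n 224 * n 8 * (n 224)⁻¹ = n 8 * n 2 * n 1 ∧ n 32 * n 32 = 1 ∧ n 32 * n 64 * (n 32)⁻¹ = (n 64)⁻¹ ∧
    n 32 * n 2 * (n 32)⁻¹ = n 2 ∧ n 32 * n 8 * (n 32)⁻¹ = n 8 * n 2 * n 1 ∧ e0 * n 1 * n 1 = e0 ∧
    n 224 * n 224 = n 1 ∧ n 224 * n 64 * (n 224)⁻¹ = n 64 := by decide +kernel

open XAa (CV sg xg) in
theorem f7 : LA [0, 1] fun c => ∀ h : HT, cT h (o 2) = o 2 →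
    (LA [4, 8, 32] fun p => cT h (o p) = xg 8 c (sg (xg 8 c (sg (sg (sg (sg (xg 8 c (sg (o p)))))))))) →
    h.v / 192 = 0 ∧ CV (o (h.v % 192)) ∧ LA [0, 1] fun i =>
      sg (o (h.v % 192)) = xg 8 c (o (h.v % 192)) * o 1 ^ i → (o (h.v % 192) : HM) = o (8 * c + 2 * i) := by
  decide +kernel

end XOa

open XAa (CV sg xg f5) in
/-- The product of the three conjugates of `x`. -/
theorem Fr.XO_k (F : Fr e φ σ ⊥ L c b) (X : XD e φ x) (hk : k < 2) (x2 : W2.Rel φ x (o 2) (o 2))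
    (x8 : W2.Rel φ x (o 8) (o 8)) (xt : W2.Rel φ x (o 32) (o (32 + k))) : ∃ i, XA e φ σ x k i := by
  have xi : x⁻¹ = x := inv_eq_of_mul_eq_one_right X.xx
  have g6 : (o 64 : HM) * o 2 * (o 64)⁻¹ = o 4 := by decide +kernel
  have g8 : (o 64 : HM) * o 8 * (o 64)⁻¹ = o 16 := by decide +kernel
  have x4 : W2.Rel φ x (o 4) (o 4) := ((X.xr.mul x2).mul X.xr.inv).of_eq g6 g6
  have hc' : k ∈ [0, 1] := by interval_cases k <;> simp
  have rx : ∀ a, CV a → W2.Rel φ x a (xg 8 k a) := by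
    refine rel_of_gen (xg 8 k) CV [o 2, o 4, o 8, o 32] 4 ?_ ?_
    · interval_cases k <;> decide +kernel
    · simp only [List.forall_mem_cons]
      refine ⟨x2.of_eq rfl ?_, x4.of_eq rfl ?_, x8.of_eq rfl ?_, xt.of_eq rfl ?_, by simp⟩ <;>
        interval_cases k <;> decide +kernel
  have c1 : ∀ {a}, CV a → CV (sg a) := fun h => (f5.1 _ h).1
  have c2 : ∀ {a}, CV a → CV (xg 8 k a) := fun h => (f5.1 _ h).2.2 8 (by simp) k hc'
  have rs : ∀ a, CV a → W2.Rel φ σ a (sg a) := fun a ha => by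
    refine rel_of_gen sg CV [o 2, o 4, o 8, o 32] 4 (by decide +kernel) ?_ a ha
    have := F.rel
    simp only [List.forall_mem_cons] at this ⊢
    obtain ⟨-, h1, h2, h3, h4, -⟩ := this
    refine ⟨h1.of_eq rfl ?_, h2.of_eq rfl ?_, h3.of_eq rfl ?_, h4.of_eq rfl ?_, by simp⟩ <;> decide +kernel
  have ri : ∀ a, CV a → W2.Rel φ σ⁻¹ a (sg (sg a)) := fun a h => (rs a h).inv_of_cube F.s3 (rs _ (c1 h))
  have rk : ∀ a, CV a → W2.Rel φ (x * (σ * x * σ⁻¹) * (σ⁻¹ * x * σ)) a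
      (xg 8 k (sg (xg 8 k (sg (sg (sg (sg (xg 8 k (sg a))))))))) := fun a h =>
    ((rx _ (c1 (c2 (c1 (c1 (c1 (c1 (c2 (c1 h))))))))).comp (((rs _ (c2 (c1 (c1 (c1 (c1 (c2 (c1 h)))))))).comp
      (rx _ (c1 (c1 (c1 (c1 (c2 (c1 h)))))))).comp (ri _ (c1 (c1 (c2 (c1 h))))))).comp
      (((ri _ (c2 (c1 h))).comp (rx _ (c1 h))).comp (rs a h))
  have se : σ * e * σ⁻¹ = e := mem_Cx'.1 (F.Le F.sL)
  have se' : σ⁻¹ * e * σ = e := by rw [mul_assoc, ← mul_inv_eq_iff_eq_mul.1 se, inv_mul_cancel_left]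
  have cv : ∀ k ∈ [1, 2, 3], CV (o k) := by decide +kernel
  have ke : x * (σ * x * σ⁻¹) * (σ⁻¹ * x * σ) ∈ Cx e := by
    have h1 : σ⁻¹ * x * σ * e * (σ⁻¹ * x * σ)⁻¹ = e * φ (o 3) := by
      calc _ = σ⁻¹ * (x * (σ * e * σ⁻¹) * x⁻¹) * σ := by group
        _ = σ⁻¹ * e * σ * (σ⁻¹ * φ (o 1) * σ⁻¹⁻¹) := by rw [se, X.xe]; group
        _ = _ := by rw [se', ri _ (cv 1 (by simp)), (by decide +kernel : sg (sg (o 1)) = o 3)]
    have h2 : σ * x * σ⁻¹ * e * (σ * x * σ⁻¹)⁻¹ = e * φ (o 2) := by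
      calc _ = σ * (x * (σ⁻¹ * e * σ) * x⁻¹) * σ⁻¹ := by group
        _ = σ * e * σ⁻¹ * (σ * φ (o 1) * σ⁻¹) := by rw [se', X.xe]; group
        _ = _ := by rw [se, F.rel (1, 2) (by simp)]
    have h3 : W2.Rel φ (σ * x * σ⁻¹) (o 3) (o 3) :=
      ((F.rel (2, 3) (by simp)).comp x2).comp (F.rel (2, 3) (by simp)).symm
    refine mem_Cx'.2 ?_
    calc _ = x * (σ * x * σ⁻¹ * (σ⁻¹ * x * σ * e * (σ⁻¹ * x * σ)⁻¹) * (σ * x * σ⁻¹)⁻¹) * x⁻¹ := by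
          simp only [mul_assoc, mul_inv_rev]
      _ = x * e * x⁻¹ * (x * φ (o 2 * o 3) * x⁻¹) := by
        rw [h1, ← conj_mul (b := σ * x * σ⁻¹), h2, h3, map_mul]; group
      _ = e := by
        rw [(by decide +kernel : (o 2 * o 3 : HM) = o 1), X.xe, X.xz, mul_assoc, ← map_mul,
          (by decide +kernel : (o 1 * o 1 : HM) = 1), map_one, mul_one]
  have vx : ∀ j ∈ [1, 2], xg 8 k (sg (xg 8 k (sg (sg (sg (sg (xg 8 k (sg (o j))))))))) = o j := by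
    interval_cases k <;> decide +kernel
  obtain ⟨h, -, rh, y, hy, s, hs, hw⟩ := F.toFr0.act ke (mem_Cx'.2 ((rk _ (cv 1 (by simp))).of_eq rfl (vx 1 (by simp))))
  obtain ⟨h0, h1, h2⟩ := XOa.f7 k hc' h ((rh _).uniq F.inj ((rk _ (cv 2 (by simp))).of_eq rfl
    (vx 2 (by simp))) rfl) fun p hp => (rh _).uniq F.inj (rk _ (f5.2 p (List.mem_cons_of_mem _ hp))) rfl
  rw [mem_bot.1 hy, h0, pow_zero, mul_one, one_mul] at hw
  generalize (o (h.v % 192) : HM) = u at hw h1 h2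
  refine ⟨s, X, hk, hs, fun q hq => ?_, xt, hw.trans (congrArg (φ · * _)
    (h2 s (by interval_cases s <;> simp) (F.inj ?_)))⟩
  · refine rel_of_gen id (fun a => a.v < 32) [o 2, o 4, o 8, o 16] 4 (by decide +kernel) ?_ _
      (by rwa [v_o (by omega)])
    simp only [List.forall_mem_cons]
    exact ⟨x2, x4, x8, ((X.xr.mul x8).mul X.xr.inv).of_eq g8 g8, by simp⟩
  · have h3 : σ * (φ u * e ^ s) * σ⁻¹ = x * (φ u * e ^ s) * x⁻¹ := by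
      rw [← hw]
      calc _ = σ * x * σ⁻¹ * (σ * σ * x * (σ * σ)⁻¹) * x := by
            simp only [mul_assoc, mul_inv_rev, inv_mul_cancel_left, mul_inv_cancel, mul_one]
        _ = x * x * (σ * x * σ⁻¹ * (σ⁻¹ * x * σ)) * x⁻¹ := by
          rw [eq_inv_of_mul_eq_one_left F.s3, inv_inv, X.xx, xi, one_mul]
        _ = _ := by group
    rw [← conj_mul, ← conj_mul, ← conj_pow, ← conj_pow, se, X.xe, rs u h1, rx u h1,
      (F.toFr0.comm (o 1)).symm, Commute.mul_pow (F.toFr0.comm (o 1)), ← mul_assoc, mul_left_inj] at h3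
    rw [h3, map_mul, map_pow]

open XOa in
theorem Fr.XO_hp (F : Fr e φ σ ⊥ L c b) (hb : b) : ∃ Ψ : HP →* G, Function.Injective Ψ ∧
    (∀ a < 192, Ψ (n a) = φ (o a)) ∧ Ψ e0 = e ∧ Ψ (n 224) = φ (o 32) * c ∧
    (∀ g ∈ Cx e, g ∈ Cx (φ (o 1)) → ∃ a, g = Ψ a) ∧ ∀ a, Ψ a ∈ Cx e ∧ Ψ a ∈ Cx (φ (o 1)) := by
  obtain ⟨ψ, inj, hφ, hc⟩ := F.exists_ht hb
  have pv : ∀ h : HT, ψ h = φ (o (h.v % 192)) * c ^ (h.v / 192) := fun h => by
    rw [← hφ, ← hc, ← map_pow, ← map_mul, em_apply]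
    exact congrArg ψ ((by decide +kernel : ∀ h : HT, h = o (o (h.v % 192) : HM).v * o 192 ^ (h.v / 192)) h)
  have ce : ∀ h : HT, Commute (ψ h) e := fun h => by
    rw [pv]
    exact (show Commute (φ _) e from F.toFr0.comm _).mul_left ((show Commute c e from mem_Cx.1 F.ce).pow_left _)
  have p1 : ∀ a < 192, ψ (o a) = φ (o a) := fun a ha => by rw [← hφ, em_apply, v_o ha]
  let Ψ : HP →* G := ψ.noncommCoprod (hom2 e F.ee) fun a s => (ce a).pow_right s.v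
  have hΨ : ∀ a, Ψ a = ψ a.1 * e ^ a.2.v := fun _ => rfl
  have q1 : ∀ a, Ψ (n a) = ψ (o a) := fun a => (hΨ _).trans (show ψ (o a) * e ^ 0 = _ by simp)
  refine ⟨Ψ, ?_, fun a ha => (q1 a).trans (p1 a ha), ?_, ?_, fun g h1 h2 => ?_, fun a => ⟨?_, ?_⟩⟩
  · refine (injective_iff_map_eq_one _).2 fun a ha => ?_
    rw [hΨ] at ha
    rcases (by decide +kernel : ∀ s : TG ok2, s = 1 ∧ s.v = 0 ∨ s.v = 1) a.2 with k | k
    · rw [k.2, pow_zero, mul_one] at ha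
      exact Prod.ext (inj (ha.trans ψ.map_one.symm)) k.1
    · rw [k, pow_one] at ha
      have h1 : ψ a.1 = e := by rw [eq_inv_of_mul_eq_one_left ha, inv_eq_of_mul_eq_one_right F.ee]
      have h2 := (by decide +kernel : ∀ h : HT, (LA [2, 4, 8, 16] fun j => o j * h = h * o j) →
        h = o 0 ∨ h = o 1) a.1 fun j _ => inj (by rw [map_mul, map_mul, h1]; exact (ce _).eq)
      refine absurd ?_ F.eL
      rcases h2 with h2 | h2 <;> rw [← h1, h2, p1 _ (by omega)] <;> exact ((F.rng _).1 ⟨_, rfl⟩).1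
  · rw [hΨ]; exact (congrArg (· * _) ψ.map_one).trans ((one_mul _).trans (pow_one e))
  · rw [q1, ← p1 32 (by omega), ← hc, ← map_mul]
    exact congrArg ψ (by decide +kernel)
  · obtain ⟨h, -, -, y, hy, s, hs, hw⟩ := F.toFr0.act h1 h2
    exact ⟨(h, o s), by rw [hΨ, pv, v_o hs, hw, mem_bot.1 hy, one_mul]⟩
  · rw [hΨ]
    exact mem_Cx.2 ((ce _).mul_left ((Commute.refl e).pow_left _))
  · rw [hΨ, ← p1 1 (by omega)]
    refine mem_Cx.2 (Commute.mul_left ?_ ((ce _).symm.pow_left _))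
    exact (show Commute a.1 (o 1) from (by decide +kernel : ∀ h : HT, h * o 1 = o 1 * h) _).map ψ

open XOa in
theorem XO_ex {Ψ : HP →* G} {z : G} (p1 : Ψ (n 1) = z) (p2 : Ψ e0 = e)
    (sur : ∀ g ∈ Cx e, g ∈ Cx z → ∃ a, g = Ψ a) (cx : ∀ a, Ψ a ∈ Cx e ∧ Ψ a ∈ Cx z)
    (a1 : W2.Rel Ψ g e0 (e0 * n 1)) (a2 : W2.Rel Ψ g (n 1) (n 1)) (p : HP) : ∃ q, W2.Rel Ψ g p q := by
  rw [W2.Rel, map_mul, p1, p2] at a1
  rw [W2.Rel, p1] at a2
  have h1 : g * Ψ p * g⁻¹ ∈ Cx z := by rw [← a2, conj_mem_Cx]; exact (cx p).2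
  have h2 : g * Ψ p * g⁻¹ ∈ Cx (e * z) := by rw [← a1, conj_mem_Cx]; exact (cx p).1
  exact sur _ (Cx_comm.1 ((mul_mem_cancel_right (Cx_comm.1 h1)).1 (Cx_comm.1 h2))) h1

open XOa in
theorem Fr.XO_core (F : Fr e φ σ ⊥ L c b) (hb : b) (g1 : g * e * g⁻¹ = e * φ (o 1))
    (g2 : W2.Rel φ g (o 1) (o 1)) (g3 : W2.Rel φ g (o 64) (o 64))
    (g4 : g * (φ (o 32) * c) * g⁻¹ = φ (o 32) * c) :
    ∃ x k i, XA e φ σ x k i ∧ x * (φ (o 32) * c) = φ (o 32) * c * x := by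
  obtain ⟨Ψ, inj, p1, p2, p3, sur, cx⟩ := F.XO_hp hb
  have up : ∀ {y a b}, a < 192 → b < 192 → (W2.Rel φ y (o a) (o b) ↔ W2.Rel Ψ y (n a) (n b)) :=
    fun {y a b} ha hb => by simp only [W2.Rel, p1 a ha, p1 b hb]
  have ue : ∀ {y}, y * e * y⁻¹ = e * φ (o 1) ↔ W2.Rel Ψ y e0 (e0 * n 1) := fun {y} => by
    rw [W2.Rel, map_mul, p1 1 (by omega), p2]
  have ut : ∀ {y}, y * (φ (o 32) * c) * y⁻¹ = φ (o 32) * c ↔ W2.Rel Ψ y (n 224) (n 224) := fun {y} => by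
    rw [W2.Rel, p3]
  rw [up (by omega) (by omega)] at g2 g3
  rw [ue] at g1
  rw [ut] at g4
  have ex := fun {g : G} => XO_ex (g := g) (p1 1 (by omega)) p2 sur cx
  obtain ⟨k1, k2, k3, k4, k5, k6, k7, k8, k9, k10, -⟩ := f6
  have ps : ∀ {p q}, PS p → W2.Rel Ψ g p q → PS q := fun {p q} hp hq =>
    have g5 : W2.Rel Ψ g (n 128) (n 128) := (g3.mul g3).of_eq k3 k3
    ⟨(hq.mul hq).uniq inj Rel.one hp.1, fun k => hp.2.1 (hq.uniq' inj Rel.one k),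
      ((hq.mul ((g3.mul hq).mul g3.inv)).mul ((g5.mul hq).mul g5.inv)).uniq inj Rel.one hp.2.2⟩
  obtain ⟨s, hs⟩ := ex g1 g2 (n 2)
  obtain ⟨a, ha⟩ := ex g1 g2 (n 8)
  obtain ⟨w, -, w1, w2, w3⟩ := f4 s (ps k1 hs) (((g4.mul hs).mul g4.inv).uniq inj hs k4) a (ps k2 ha)
    (((g4.mul ha).mul g4.inv).uniq inj ((ha.mul hs).mul g2) k5)
  have a1 := ((Rel.conj Ψ (n w) _).comp g1).of_eq rfl (w3 _ (by simp))
  have a2 := ((Rel.conj Ψ (n w) _).comp g2).of_eq rfl (w3 _ (by simp))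
  have a3 := ((Rel.conj Ψ (n w) _).comp g3).of_eq rfl (w3 _ (by simp))
  have a4 := ((Rel.conj Ψ (n w) _).comp g4).of_eq rfl (w3 _ (by simp))
  have a5 := ((Rel.conj Ψ (n w) _).comp hs).of_eq rfl w1
  have a6 := ((Rel.conj Ψ (n w) _).comp ha).of_eq rfl w2
  generalize Ψ (n w) * g = y at a1 a2 a3 a4 a5 a6
  have a7 : W2.Rel Ψ y (e0 * n 1) e0 := (a1.mul a2).of_eq rfl k10
  obtain ⟨r, hr⟩ := sur (y * y) (mem_Cx'.2 (p2 ▸ a7.comp a1)) (mem_Cx'.2 (p1 1 (by omega) ▸ a2.comp a2))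
  have a8 : W2.Rel Ψ y r r := by rw [W2.Rel, ← hr]; group
  obtain ⟨r1, r2⟩ := f5.2 r ((Rel.conj Ψ r _).uniq inj (hr ▸ a3.comp a3) rfl)
    ((Rel.conj Ψ r _).uniq inj (hr ▸ a5.comp a5) rfl) ((Rel.conj Ψ r _).uniq inj (hr ▸ a6.comp a6) rfl)
  have a9 : W2.Rel Ψ (y * y) (n 32) (n 32) := hr ▸ (Rel.conj Ψ r _).of_eq rfl r1
  obtain ⟨j, hj, at'⟩ : ∃ j < 2, W2.Rel Ψ y (n 32) (n (32 + j)) := by
    obtain ⟨q, hq⟩ := ex a1 a2 (n 32)
    rcases f5.1 q ((hq.mul hq).uniq inj Rel.one k6) (((hq.mul a3).mul hq.inv).uniq inj a3.inv k7)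
      (((hq.mul a5).mul hq.inv).uniq inj a5 k8) (((hq.mul a6).mul hq.inv).uniq inj ((a6.mul a5).mul a2) k9)
      with rfl | rfl | rfl | rfl
    · exact ⟨0, by omega, hq⟩
    · exact ⟨1, by omega, hq⟩
    · exact absurd (((hq.mul a1).comp hq).uniq inj a9 rfl) (by decide +kernel)
    · exact absurd (((hq.mul a7).comp hq).uniq inj a9 rfl) (by decide +kernel)
  have fin : ∀ x : G, x * x = 1 → W2.Rel Ψ x e0 (e0 * n 1) → W2.Rel Ψ x (n 1) (n 1) →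
      W2.Rel Ψ x (n 64) (n 64) → W2.Rel Ψ x (n 224) (n 224) → W2.Rel Ψ x (n 2) (n 2) → W2.Rel Ψ x (n 8) (n 8) →
      W2.Rel Ψ x (n 32) (n (32 + j)) → ∃ x k i, XA e φ σ x k i ∧ x * (φ (o 32) * c) = φ (o 32) * c * x :=
    fun x b0 b1 b2 b3 b4 b5 b6 b7 => by
      obtain ⟨i, hi⟩ := F.XO_k ⟨b0, ue.2 b1, (up (by omega) (by omega)).2 b2, (up (by omega) (by omega)).2 b3⟩ hj
        ((up (by omega) (by omega)).2 b5) ((up (by omega) (by omega)).2 b6) ((up (by omega) (by omega)).2 b7)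
      exact ⟨x, j, i, hi, mul_inv_eq_iff_eq_mul.1 (ut.2 b4)⟩
  rcases r2 with rfl | rfl | rfl | rfl
  · exact fin y (hr.trans (map_one Ψ)) a1 a2 a3 a4 a5 a6 at'
  · have c : ∀ p, W2.Rel Ψ e p p := fun p => p2 ▸ (Rel.conj Ψ e0 p).of_eq rfl
      ((by decide +kernel : ∀ p : HP, e0 * p * e0⁻¹ = p) p)
    refine fin (y * e) ?_ (a1.comp (c _)) (a2.comp (c _)) (a3.comp (c _)) (a4.comp (c _)) (a5.comp (c _))
      (a6.comp (c _)) (at'.comp (c _))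
    calc y * e * (y * e) = y * Ψ e0 * y⁻¹ * (y * y) * Ψ e0 := by rw [p2]; group
      _ = 1 := by rw [a1, hr, ← map_mul, ← map_mul, (by decide +kernel : e0 * n 1 * n 1 * e0 = 1), map_one]
  · exact absurd (a8.uniq inj a1 rfl) (by decide +kernel)
  · exact absurd (a8.uniq inj a7 rfl) (by decide +kernel)

theorem Fr.xo (F : Fr e φ σ ⊥ L c b) (hb : b) (g1 : g * e * g⁻¹ = e * φ (o 1))
    (g2 : W2.Rel φ g (o 1) (o 1)) : ∃ x k i c', (c' = c ∨ c' = c * e) ∧ XA e φ σ x k i ∧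
      x * (φ (o 32) * c') = φ (o 32) * c' * x := by
  obtain ⟨Ψ, inj, p1, p2, p3, sur, cx⟩ := F.XO_hp hb
  have up : ∀ {y a b}, a < 192 → b < 192 → (W2.Rel φ y (o a) (o b) ↔ W2.Rel Ψ y (XOa.n a) (XOa.n b)) :=
    fun {y a b} ha hb => by simp only [W2.Rel, p1 a ha, p1 b hb]
  have ue : ∀ {y}, y * e * y⁻¹ = e * φ (o 1) ↔ W2.Rel Ψ y XOa.e0 (XOa.e0 * XOa.n 1) := fun {y} => by
    rw [W2.Rel, map_mul, p1 1 (by omega), p2]
  rw [up (by omega) (by omega)] at g2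
  rw [ue] at g1
  have ex := fun {g : G} => XO_ex (g := g) (p1 1 (by omega)) p2 sur cx
  obtain ⟨q, hq⟩ := ex g1 g2 (XOa.n 64)
  obtain ⟨m, hm⟩ := XOa.f1 q (((hq.mul hq).mul hq).uniq inj Rel.one (by decide +kernel))
    fun k => absurd (hq.uniq' inj Rel.one k) (by decide +kernel)
  have a1 := ((Rel.conj Ψ (m, 1) _).comp g1).of_eq rfl (XOa.f2 m _ (by simp))
  have a2 := ((Rel.conj Ψ (m, 1) _).comp g2).of_eq rfl (XOa.f2 m _ (by simp))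
  have a3 := ((Rel.conj Ψ (m, 1) _).comp hq).of_eq rfl hm
  generalize Ψ (m, 1) * g = y at a1 a2 a3
  obtain ⟨-, -, -, -, -, -, -, -, -, k10, k11, k12⟩ := XOa.f6
  have a7 : W2.Rel Ψ y (XOa.e0 * XOa.n 1) XOa.e0 := (a1.mul a2).of_eq rfl k10
  obtain ⟨r, hr⟩ := sur (y * y) (mem_Cx'.2 (p2 ▸ a7.comp a1)) (mem_Cx'.2 (p1 1 (by omega) ▸ a2.comp a2))
  have a9 : W2.Rel Ψ (y * y) (XOa.n 224) (XOa.n 224) := hr ▸ (Rel.conj Ψ r _).of_eq rfl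
    (XOa.f3.2 r ((Rel.conj Ψ r _).uniq inj (hr ▸ a3.comp a3) rfl))
  obtain ⟨u, hu⟩ := ex a1 a2 (XOa.n 224)
  rcases XOa.f3.1 u ((hu.mul hu).uniq inj a2 k11) (((hu.mul a3).mul hu.inv).uniq inj a3 k12)
    with rfl | rfl | rfl | rfl
  · obtain ⟨x, k, i, h⟩ := F.XO_core hb (ue.2 a1) ((up (by omega) (by omega)).2 a2)
      ((up (by omega) (by omega)).2 a3) (by rw [← p3]; exact hu)
    exact ⟨x, k, i, c, .inl rfl, h⟩
  · have h1 : W2.Rel Ψ y (XOa.n 224 * XOa.e0) (XOa.n 224 * XOa.e0) := (hu.mul a1).of_eq rfl (by decide +kernel)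
    obtain ⟨x, k, i, h⟩ := F.mul_e.XO_core hb (ue.2 a1) ((up (by omega) (by omega)).2 a2)
      ((up (by omega) (by omega)).2 a3) (by rw [← mul_assoc (φ (o 32)), ← p3, ← p2, ← map_mul]; exact h1)
    exact ⟨x, k, i, c * e, .inr rfl, h⟩
  · exact absurd (((hu.mul a1).comp hu).uniq inj a9 rfl) (by decide +kernel)
  · exact absurd (((hu.mul a7).comp hu).uniq inj a9 rfl) (by decide +kernel)

end CfsgLib.SM12
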