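import Mathlib
import Cfsg.Agent.Lib.SM12.XO
import Cfsg.Agent.Lib.SM12.Lift

/-! Package RED: the involution `x` centralises `Y` (plans/SM12.md). -/

set_option autoImplicit false
set_option maxRecDepth 100000
set_option synthInstance.maxSize 4096

namespace CfsgLib.SM12

open Subgroup Cfsg CfsgLib.W2 CfsgLib.W2.TG CfsgLib.Tech CfsgLib.CosetEnum CfsgLib.Yos

variable {G : Type*} [Group G] {e σ c g x : G} {φ : HM →* G} {Y L : Subgroup G} {b : Prop} {k i : ℕ}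

namespace Red

theorem two_o {q : ℕ} (hq : q < 64) : Two (φ (o q)) := by
  have h : ∀ q < 64, (o q * o q * (o q * o q) * (o q * o q * (o q * o q)) : HM) = 1 := by decide +kernel
  refine Two.map φ ⟨3, ?_⟩
  rw [← h q hq, show 2 ^ 3 = 2 * 2 * 2 from rfl, pow_mul, pow_mul, pow_two, pow_two, pow_two]

theorem two_part [Finite G] (x : G) : ∃ m : ℕ, Two (x ^ (2 * m + 1)) := by
  obtain ⟨k, m, ⟨j, rfl⟩, h⟩ := Nat.exists_eq_two_pow_mul_odd (orderOf_pos x).ne'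
  exact ⟨j, k, by rw [← pow_mul, mul_comm, ← h, pow_orderOf_eq_one]⟩

/-- the product of the three conjugates -/
theorem krel (F : Fr e φ σ Y L c b) (xx : x * x = 1) (xe : x * e * x⁻¹ = e * φ (o 1)) (hk : k < 2) (hi : i < 2)
    (xq : ∀ q < 32, W2.Rel φ x (o q) (o q)) (xY : ∀ y ∈ Y, x * y = y * x) {y : G} (hy : y ∈ Y)
    (h : x * (σ * x * σ⁻¹) * (σ⁻¹ * x * σ) = y * (φ (o (8 * k + 2 * i)) * e ^ i)) : y = 1 := by
  have se : σ * e = e * σ := mem_Cx.1 (F.Le F.sL)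
  have r2 : W2.Rel φ σ (o 2) (o 3) := F.rel (2, 3) (by simp)
  have r8 : W2.Rel φ σ (o 8) (o 8) := F.rel (8, 8) (by simp)
  obtain ⟨q, hq, r⟩ : ∃ q < 32, W2.Rel φ σ (o (8 * k + 2 * i)) (o q) := by
    interval_cases k <;> interval_cases i
    · exact ⟨0, by omega, W2.Rel.one.of_eq (by decide +kernel) (by decide +kernel)⟩
    · exact ⟨3, by omega, r2⟩
    · exact ⟨8, by omega, r8⟩
    · exact ⟨11, by omega, (r8.mul r2).of_eq (by decide +kernel) (by decide +kernel)⟩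
  have c1 : Commute (σ⁻¹ * x * σ) (φ (o (8 * k + 2 * i))) := ((r.symm.comp (xq q hq)).comp r).comm
  have x2 : σ⁻¹ * x * σ * (σ⁻¹ * x * σ) = 1 := by
    calc _ = σ⁻¹ * (x * x) * σ := by group
      _ = 1 := by rw [xx]; group
  have t1 : Two (e ^ i * (σ⁻¹ * x * σ)) := by
    interval_cases i
    · rw [pow_zero, one_mul]; exact two_of_sq x2
    · obtain ⟨n, hn⟩ := Two.conj σ⁻¹ (two_o (φ := φ) (q := 1) (by omega))
      refine ⟨n + 1, ?_⟩
      rw [pow_one, pow_succ', pow_mul, ← hn, pow_two]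
      congr 1
      calc _ = e * σ⁻¹ * x * (σ * e) * σ⁻¹ * (x * x) * x⁻¹ * σ := by group
        _ = e * σ⁻¹ * (x * e * x⁻¹) * σ := by rw [se, xx]; group
        _ = e * (σ⁻¹ * (e * σ)) * (σ⁻¹ * φ (o 1) * σ) := by rw [xe]; group
        _ = _ := by rw [← se, inv_mul_cancel_left, F.ee]; group
  obtain ⟨n, hn⟩ := Two.mul (Commute.mul_right (Commute.pow_right (F.comm _) i) c1.symm)
    (two_o (q := 8 * k + 2 * i) (by omega)) t1
  have cy : Commute y (φ (o (8 * k + 2 * i)) * (e ^ i * (σ⁻¹ * x * σ))) :=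
    have s : Commute y σ := (F.cY σ F.sL y hy).symm
    Commute.mul_right (F.cφ _ y hy).symm (Commute.mul_right (Commute.pow_right (mem_Cx.1 (F.eY hy)) i)
      ((s.inv_right.mul_right (xY y hy).symm).mul_right s))
  have e1 : x * (σ * x * σ⁻¹) = y * (φ (o (8 * k + 2 * i)) * (e ^ i * (σ⁻¹ * x * σ))) := by
    rw [← mul_assoc _ (e ^ i), ← mul_assoc y, ← h, mul_assoc (x * (σ * x * σ⁻¹)), x2, mul_one]
  have e2 : (x * (σ * x * σ⁻¹)) ^ 2 ^ n = y ^ 2 ^ n := by rw [e1, cy.mul_pow, hn, mul_one]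
  have e3 : x * (x * (σ * x * σ⁻¹)) * x⁻¹ = (x * (σ * x * σ⁻¹))⁻¹ := by
    rw [← mul_assoc, xx, one_mul]
    simp only [mul_inv_rev, inv_inv, inv_eq_of_mul_eq_one_right xx, mul_assoc]
  have e4 : y ^ 2 ^ n = (y ^ 2 ^ n)⁻¹ := by
    have := congrArg (· ^ 2 ^ n) e3
    simp only [conj_pow, inv_pow, e2] at this
    rwa [xY _ (pow_mem hy _), mul_inv_cancel_right] at this
  exact eq_one_of_two F.odd hy ⟨n + 1, by rw [pow_succ, pow_mul, pow_two, ← eq_inv_iff_mul_eq_one, ← e4]⟩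

end Red

open Red in
theorem Fr.exists_xa [Finite G] (F : Fr e φ σ Y L c b) (g1 : g * e * g⁻¹ = e * φ (o 1))
    (g2 : W2.Rel φ g (o 1) (o 1)) : ∃ x k i c', Fr e φ σ Y L c' b ∧ XA e φ σ x k i ∧
      (∀ y ∈ Y, x * y = y * x) ∧ (b → x * (φ (o 32) * c') = φ (o 32) * c' * x) := by
  let π := QuotientGroup.mk' (Y.subgroupOf (normalizer (Y : Set G)))
  have hk : ∀ g, π g = 1 ↔ g.1 ∈ Y := fun g => QuotientGroup.eq_one_iff g
  obtain ⟨φ', L', he, hσ, hc, F', hφ⟩ := F.desc π (QuotientGroup.mk'_surjective _) hk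
  have hC : centralizer (Y : Set G) ≤ normalizer (Y : Set G) := centralizer_le_normalizer _
  have mC : ∀ {u : G}, (∀ y ∈ Y, u * y = y * u) → u ∈ centralizer (Y : Set G) := fun h =>
    mem_centralizer_iff.2 fun y hy => (h y hy).symm
  have φC : ∀ a, φ a ∈ centralizer (Y : Set G) := fun a => mC (F.cφ a)
  have eC : e ∈ centralizer (Y : Set G) := mC fun y hy => (mem_Cx.1 (F.eY hy)).symm
  have σC : σ ∈ centralizer (Y : Set G) := mC (F.cY σ F.sL)
  let ψ : HM →* normalizer (Y : Set G) := φ.codRestrict _ fun a => hC (φC a)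
  have hψ : ∀ a, φ' a = π (ψ a) := fun a => hφ a _
  have hg := F.normY g1 g2
  have g1' : π ⟨g, hg⟩ * π ⟨e, he⟩ * (π ⟨g, hg⟩)⁻¹ = π ⟨e, he⟩ * φ' (o 1) := by
    rw [hψ, ← map_inv, ← map_mul, ← map_mul, ← map_mul]
    exact congrArg π (Subtype.ext g1)
  have g2' : W2.Rel φ' (π ⟨g, hg⟩) (o 1) (o 1) := by
    rw [W2.Rel, hψ, ← map_inv, ← map_mul, ← map_mul]
    exact congrArg π (Subtype.ext g2)
  obtain ⟨x', k, i, c', F1, X, hθ⟩ : ∃ x' k i, ∃ c' : normalizer (Y : Set G), Fr e φ σ Y L c' b ∧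
      XA (π ⟨e, he⟩) φ' (π ⟨σ, hσ⟩) x' k i ∧ (b → x' * (φ' (o 32) * π c') = φ' (o 32) * π c' * x') := by
    by_cases hb : b
    · obtain ⟨x', k, i, _, rfl | rfl, X, h⟩ := F'.xo hb g1' g2'
      · exact ⟨x', k, i, ⟨c, hc⟩, F, X, fun _ => h⟩
      · exact ⟨x', k, i, ⟨c, hc⟩ * ⟨e, he⟩, F.mul_e, X, fun _ => by rwa [map_mul]⟩
    · obtain ⟨x', k, i, X⟩ := F'.xi hb g1' g2'
      exact ⟨x', k, i, ⟨c, hc⟩, F, X, fun h => absurd h hb⟩
  have nC : ((centralizer (Y : Set G)).subgroupOf (normalizer (Y : Set G))).Normal :=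
    ⟨fun u hu n => mC fun y hy => by
      have := mem_centralizer_iff.1 hu _ (conj_mem_of_mem_normalizer' n.2 hy)
      show (n : G) * u * (n : G)⁻¹ * y = y * (n * u * (n : G)⁻¹)
      calc _ = n * (u * ((n : G)⁻¹ * y * n)) * (n : G)⁻¹ := by group
        _ = _ := by rw [← show (n : G)⁻¹ * y * n * u = u * ((n : G)⁻¹ * y * n) from this]; group⟩
  obtain ⟨x0, hx0, rfl⟩ : x' ∈ ((centralizer (Y : Set G)).subgroupOf (normalizer (Y : Set G))).map π := by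
    have := nC.map π (QuotientGroup.mk'_surjective _)
    let q := QuotientGroup.mk' (((centralizer (Y : Set G)).subgroupOf (normalizer (Y : Set G))).map π)
    have q1 : ∀ u : normalizer (Y : Set G), u.1 ∈ centralizer (Y : Set G) → q (π u) = 1 := fun u hu =>
      (QuotientGroup.eq_one_iff _).2 (mem_map_of_mem π hu)
    have h1 := congrArg q X.k
    have h2 := congrArg q X.xx
    simp only [map_mul, map_inv, map_pow, map_one, hψ, fun a => q1 (ψ a) (φC a), q1 ⟨e, he⟩ eC, q1 ⟨σ, hσ⟩ σC, one_mul, mul_one,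
      inv_one, one_pow] at h1 h2
    rw [h2, one_mul] at h1
    exact (QuotientGroup.eq_one_iff _).1 h1
  obtain ⟨m, x2⟩ := two_part x0
  have ex : π x0 = π (x0 ^ (2 * m + 1)) := by rw [map_pow, pow_succ, pow_mul, pow_two, X.xx, one_pow, one_mul]
  have xC : (x0 ^ (2 * m + 1)).1 ∈ centralizer (Y : Set G) := pow_mem hx0 _
  rw [ex] at X hθ
  generalize x0 ^ (2 * m + 1) = x at x2 xC X hθ
  have x2' : Two x.1 := Two.map (normalizer (Y : Set G)).subtype x2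
  have xY : ∀ y ∈ Y, x.1 * y = y * x.1 := fun y hy => (mem_centralizer_iff.1 xC y hy).symm
  have lf : ∀ u v : normalizer (Y : Set G), π u = π v → ∃ y ∈ Y, u.1 = y * v.1 := fun u v h =>
    ⟨u * (v : G)⁻¹, (hk (u * v⁻¹)).1 (by rw [map_mul, map_inv, h, mul_inv_cancel]), by group⟩
  have U : ∀ u v : normalizer (Y : Set G), π u = π v → Two u.1 → Two v.1 → v.1 ∈ centralizer (Y : Set G) →
      u.1 = v.1 := fun u v h h1 h2 h3 => by
    obtain ⟨y, hy, e⟩ := lf u v h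
    rw [e, eq_one_of_mul F.odd hy (mem_centralizer_iff.1 h3 y hy).symm h2 (e ▸ h1), one_mul]
  have R : ∀ p < 64, ∀ q < 64, W2.Rel φ' (π x) (o p) (o q) → W2.Rel φ x (o p) (o q) := fun p hp q hq h =>
    U (x * ψ (o p) * x⁻¹) (ψ (o q)) (by rwa [map_mul, map_mul, map_inv, ← hψ, ← hψ]) ((two_o hp).conj _) (two_o hq) (φC _)
  have xx : x.1 * x.1 = 1 := U (x * x) 1 (by rw [map_mul, X.xx, map_one]) (x2'.mul rfl x2') (two_of_sq (mul_one _)) (one_mem _)
  have xe : x.1 * e * x.1⁻¹ = e * φ (o 1) := U (x * ⟨e, he⟩ * x⁻¹) (⟨e, he⟩ * ψ (o 1))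
    (by rw [map_mul, map_mul, map_inv, X.xe, map_mul, hψ]) ((two_of_sq F.ee).conj _)
    ((two_of_sq F.ee).mul (F.comm _).symm (two_o (by omega))) (mul_mem eC (φC _))
  have xq : ∀ q < 32, W2.Rel φ x (o q) (o q) := fun q hq => R q (by omega) q (by omega) (X.xq q hq)
  refine ⟨x, k, i, c', F1, ⟨⟨xx, xe, xq 1 (by omega), ?_⟩, X.hc, X.hi, xq,
    R 32 (by omega) _ (by have := X.hc; omega) X.xt, ?_⟩, xY, fun hb => ?_⟩
  · obtain ⟨y, hy, h⟩ := lf (x * ψ (o 64) * x⁻¹) (ψ (o 64)) (by rw [map_mul, map_mul, map_inv, ← hψ]; exact X.xr)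
    have h' : x.1 * φ (o 64) * x.1⁻¹ = y * φ (o 64) := h
    have : y * y = 1 := by
      refine mul_right_cancel (b := φ (o 64)) ?_
      calc _ = y * (x.1 * φ (o 64) * x.1⁻¹) := by rw [h', mul_assoc]
        _ = x.1 * (y * φ (o 64)) * x.1⁻¹ := by rw [← mul_assoc, ← mul_assoc, ← xY y hy, mul_assoc x.1]
        _ = (x.1 * x.1) * φ (o 64) * (x.1 * x.1)⁻¹ := by rw [← h']; group
        _ = _ := by rw [xx]; group
    rwa [eq_one_of_two F.odd hy (two_of_sq this), one_mul] at h'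
  · obtain ⟨y, hy, h⟩ := lf (x * (⟨σ, hσ⟩ * x * ⟨σ, hσ⟩⁻¹) * (⟨σ, hσ⟩⁻¹ * x * ⟨σ, hσ⟩))
      (ψ (o (8 * k + 2 * i)) * ⟨e, he⟩ ^ i) (by simpa only [map_mul, map_inv, map_pow, ← hψ] using X.k)
    have h' : x.1 * (σ * x.1 * σ⁻¹) * (σ⁻¹ * x.1 * σ) = y * (φ (o (8 * k + 2 * i)) * e ^ i) := h
    rwa [krel F xx xe X.hc X.hi xq xY hy h', one_mul] at h'
  · exact (mul_inv_eq_iff_eq_mul.1 (U (ψ (o 32) * c' * x * (ψ (o 32) * c')⁻¹) x
      (by rw [map_mul, map_mul, map_inv, map_mul, ← hψ, ← hθ hb, mul_inv_cancel_right]) (x2'.conj _) x2' xC)).symm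

end CfsgLib.SM12
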