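import Mathlib
import Cfsg.Agent.Lib.SM12.Defs

/-! Package SUA: basic facts in the case of `Aut Suz` (plans/SM12.md). -/

set_option autoImplicit false
set_option maxRecDepth 100000
set_option synthInstance.maxSize 4096

namespace CfsgLib.SM12

open Subgroup Cfsg CfsgLib.W2 CfsgLib.W2.TG CfsgLib.Tech CfsgLib.CosetEnum CfsgLib.Yos

variable {G : Type*} [Group G] {σ τ τ' : G} {φ : NT →* G} {Y : Subgroup G} {δ ν : ℕ} {Φ : OG →* G}

theorem commS_iff (hφ : Function.Injective φ) {n a : NT} : φ n ∈ Cx (φ a) ↔ n * a = a * n := by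
  rw [mem_Cx, ← map_mul, ← map_mul, hφ.eq_iff]

theorem GS.relS (hδ : δ < 2) (C : GS φ σ Y δ) (a : NT) (ha : InJS a) : W2.Rel φ σ a (sgS δ a) := by
  refine rel_of_gen (sgS δ) InJS [o 2, o 4, o 8, o 32, o 512, o 64, o (3789 - δ), o 3072] 2
    ?_ ?_ a ha
  · interval_cases δ <;> decide +kernel
  · have := C.rel
    simp only [List.forall_mem_cons] at this ⊢
    obtain ⟨-, h1, h2, h3, h4, h5, h6, h7, -⟩ := this
    refine ⟨h1.of_eq rfl ?_, h2.of_eq rfl ?_, h3.of_eq rfl ?_, h4.of_eq rfl ?_, h5.of_eq rfl ?_,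
      h6.of_eq rfl ?_, h7.of_eq rfl ?_, C.sc.of_eq rfl ?_, by simp⟩ <;> interval_cases δ <;> decide +kernel

theorem GS.rel_mul (C : GS φ σ Y δ) {y : G} (hy : y ∈ Y) (n a : NT) : W2.Rel φ (y * φ n) a (n * a * n⁻¹) :=
  (Rel.of_comm (C.cY _ y hy).symm).comp (Rel.conj φ n a)

/-- The element of the model attached to `g = y φ n` acts as `g`. -/
theorem GS.act_eq (C : GS φ σ Y δ) {y : G} (hy : y ∈ Y) {n a b : NT} (h : W2.Rel φ (y * φ n) a b) :
    n * a * n⁻¹ = b := (C.rel_mul hy n a).uniq C.inj h rfl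

theorem GS.cent' (C : GS φ σ Y δ) {g : G} (h1 : W2.Rel φ g (o 32) (o 32)) (h2 : g ∈ Cx (φ (o 1))) :
    ∃ y ∈ Y, ∃ a : NT, a.v % 512 < 64 ∧ g = y * φ a :=
  (C.cent g (mem_Cx'.2 h1) h2).resolve_right id

theorem GS.normE (C : GS φ σ Y δ) {g : G} (hz : g ∈ Cx (φ (o 1)))
    (he : W2.Rel φ g (o 32) (o 32) ∨ W2.Rel φ g (o 32) (o 33)) :
    ∃ y ∈ Y, ∃ n : NT, n.v % 512 < 128 ∧ g = y * φ n := by
  have H : (o 64 : NT) * o 32 * (o 64)⁻¹ = o 33 ∧ (o 64 : NT) * o 1 = o 1 * o 64 ∧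
      ∀ n : NT, n.v % 512 < 64 → (o 64 * n).v % 512 < 128 := by decide +kernel
  rcases he with he | he
  · obtain ⟨y, hy, n, h1, h2⟩ := C.cent' he hz
    exact ⟨y, hy, n, by omega, h2⟩
  · obtain ⟨y, hy, n, h1, h2⟩ := C.cent' (((Rel.conj φ (o 64) (o 32)).of_eq rfl H.1).symm.comp he)
      (mul_mem (inv_mem ((commS_iff C.inj).2 H.2.1)) hz)
    exact ⟨y, hy, o 64 * n, H.2.2 n h1, by
      rw [map_mul, ← mul_assoc, ← C.cY _ y hy, mul_assoc, ← h2, mul_inv_cancel_left]⟩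

theorem GS.memJ (C : GS φ σ Y δ) {g : G} (h1 : g ∈ Cx (φ (o 1))) (h2 : g ∈ Cx (φ (o 2))) {v : NT}
    (hv : v.v < 4) (h3 : W2.Rel φ g (o 32) (o 32 * v)) : ∃ y ∈ Y, ∃ n, InJS n ∧ g = y * φ n := by
  have H : UT 4 fun v : NT => LE [0, 64, 3789, 3725] fun j => o j * o 32 * (o j)⁻¹ = o 32 * v ∧
    (o j : NT) * o 1 = o 1 * o j ∧ (o j : NT) * o 2 = o 2 * o j := by decide +kernel
  have H' : ∀ m : NT, m.v % 512 < 64 → m * o 2 * m⁻¹ = o 2 → LA [0, 64, 3789, 3725] fun j => InJS (o j * m) := by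
    decide +kernel
  obtain ⟨j, hj, e1, e2, e3⟩ := H v hv
  obtain ⟨y, hy, m, h4, h5⟩ := C.cent' (((Rel.conj φ (o j) (o 32)).of_eq rfl e1).symm.comp h3)
    (mul_mem (inv_mem ((commS_iff C.inj).2 e2)) h1)
  have h6 : W2.Rel φ (y * φ m) (o 2) (o 2) :=
    mem_Cx'.1 (h5 ▸ mul_mem (inv_mem ((commS_iff C.inj).2 e3)) h2)
  exact ⟨y, hy, _, H' m h4 (C.act_eq hy h6) j hj, by
    rw [map_mul, ← mul_assoc, ← C.cY _ y hy, mul_assoc, ← h5, mul_inv_cancel_left]⟩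

/-- The action on `J` of a word in `σ` (letter `0`) and elements of the model. -/
noncomputable def wa (δ : ℕ) (l : List ℕ) (a : NT) : NT :=
  l.foldr (fun k b => if k = 0 then sgS δ b else o k * b * (o k)⁻¹) a

theorem sgS_J : ∀ δ < 2, ∀ a : NT, InJS a → InJS (sgS δ a) := by decide +kernel

theorem cj_J : ∀ a : NT, InJS a → LA [16, 64, 256, 3789] fun k => InJS (o k * a * (o k)⁻¹) := by
  decide +kernel

theorem GS.exists_wa (hδ : δ < 2) (C : GS φ σ Y δ) (l : List ℕ) (hl : ∀ k ∈ l, k ∈ [0, 16, 64, 256, 3789]) :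
    ∃ g : G, ∀ a, InJS a → InJS (wa δ l a) ∧ W2.Rel φ g a (wa δ l a) := by
  induction l with
  | nil => exact ⟨1, fun a ha => ⟨ha, by simp [wa, W2.Rel]⟩⟩
  | cons k l ih =>
    obtain ⟨g, hg⟩ := ih fun j hj => hl j (List.mem_cons_of_mem _ hj)
    have e : ∀ a, wa δ (k :: l) a = if k = 0 then sgS δ (wa δ l a) else o k * wa δ l a * (o k)⁻¹ :=
      fun _ => rfl
    by_cases hk : k = 0
    · refine ⟨σ * g, fun a ha => ?_⟩
      rw [e, if_pos hk]
      exact ⟨sgS_J δ hδ _ (hg a ha).1, (C.relS hδ _ (hg a ha).1).comp (hg a ha).2⟩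
    · refine ⟨φ (o k) * g, fun a ha => ?_⟩
      rw [e, if_neg hk]
      exact ⟨cj_J _ (hg a ha).1 k ((List.mem_cons.1 (hl k List.mem_cons_self)).resolve_left hk),
        (Rel.conj φ _ _).comp (hg a ha).2⟩

/-- Conjugacy from a table of words. -/
theorem GS.isConj_of_tab (C : GS φ σ Y 0) {b : NT} (hb : InJS b) {L : List (ℕ × List ℕ)}
    (H : LA L fun p => LA p.2 (· ∈ [0, 16, 64, 256, 3789]) ∧ wa 0 p.2 b = o p.1) {a : NT}
    (ha : a.v ∈ L.map Prod.fst) : IsConj (φ b) (φ a) := by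
  obtain ⟨p, hp, e⟩ := List.mem_map.1 ha
  obtain ⟨g, hg⟩ := C.exists_wa (by norm_num) p.2 (H p hp).1
  exact ((hg b hb).2.of_eq rfl ((H p hp).2.trans (by rw [e, o_v]))).isConj

theorem GS.delta (C : GS φ σ Y 1) : False := by
  obtain ⟨g, hg⟩ := C.exists_wa (by norm_num) [256, 0, 256, 0, 0, 256, 0, 256, 0, 0, 256, 0, 256, 0, 0] (by decide)
  have H : LA [(1, 1), (2, 2), (32, 35), (4, 5), (8, 11), (3072, 3074)] fun p => InJS (o p.1 : NT) ∧
      wa 1 [256, 0, 256, 0, 0, 256, 0, 256, 0, 0, 256, 0, 256, 0, 0] (o p.1) = o p.2 := by decide +kernel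
  have r : ∀ p ∈ [(1, 1), (2, 2), (32, 35), (4, 5), (8, 11), (3072, 3074)], W2.Rel φ g (o p.1) (o p.2) :=
    fun p hp => (hg _ (H p hp).1).2.of_eq rfl (H p hp).2
  simp only [List.forall_mem_cons] at r
  obtain ⟨r1, r2, r3, r4, r5, r6, -⟩ := r
  obtain ⟨y, hy, n, hn, rfl⟩ := C.memJ (mem_Cx'.2 r1) (mem_Cx'.2 r2) (v := o 3) (by decide +kernel)
    (r3.of_eq rfl (by decide +kernel))
  exact (by decide +kernel : ∀ n : NT, InJS n → n * o 4 * n⁻¹ = o 5 → n * o 8 * n⁻¹ = o 11 →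
    n * o 3072 * n⁻¹ ≠ o 3074) n hn (C.act_eq hy r4) (C.act_eq hy r5) (C.act_eq hy r6)

/-- Words for the conjugates of `e` in `J`. -/
def tabD : List (ℕ × List ℕ) :=
    [(32, []), (33, [64]), (34, [3789]), (35, [3789, 64]), (36, [256, 64]), (37, [256]), (38, [256, 3789]),
    (39, [3789, 256]), (64, [256, 0, 256, 0, 256, 0, 0, 256, 64]), (65, [256, 0, 256, 0, 16, 256, 0, 256]),
    (66, [256, 0, 256, 0, 256, 0, 0, 256]), (67, [256, 0, 256, 0, 16, 256, 0, 256, 64]),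
    (68, [0, 256, 0, 16, 256, 0, 256]), (69, [0, 256, 0, 256, 0, 0, 256, 64]), (70, [0, 256, 0, 256, 0, 0, 256]),
    (71, [0, 256, 0, 16, 256, 0, 256, 64]), (544, [0, 0, 256, 64]), (545, [3789, 0, 0, 256]),
    (546, [64, 0, 0, 256]), (547, [0, 0, 256]), (556, [0, 256]), (557, [64, 0, 256]), (558, [0, 256, 64]),
    (559, [0, 3789, 256]), (576, [256, 16, 0, 256, 0, 256]), (577, [256, 16, 0, 256, 0, 256, 64]),
    (578, [16, 256, 0, 256, 0, 256]), (579, [16, 256, 0, 256, 0, 256, 64]), (588, [256, 0, 256, 0, 256, 64]),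
    (589, [256, 0, 256, 0, 256]), (590, [256, 0, 256, 64, 0, 256]), (591, [256, 0, 256, 0, 3789, 256]),
    (676, [16, 256, 0, 256]), (677, [256, 0, 0, 256, 64]), (678, [16, 256, 0, 256, 64]), (679, [256, 0, 0, 256]),
    (684, [0, 256, 64, 0, 256]), (685, [0, 256, 0, 3789, 256]), (686, [0, 256, 0, 256]),
    (687, [0, 256, 0, 256, 64]), (708, [16, 0, 256, 0, 256, 64]), (709, [16, 0, 256, 0, 256]),
    (710, [16, 0, 256, 64, 0, 256]), (711, [0, 0, 256, 0, 0, 256]), (716, [256, 0, 3789, 256]),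
    (717, [256, 0, 256, 64]), (718, [256, 0, 256]), (719, [256, 64, 0, 256]),
    (3104, [16, 256, 0, 256, 0, 256, 0, 256]), (3105, [16, 256, 0, 256, 0, 256, 64, 0, 256]),
    (3106, [256, 16, 0, 256, 0, 256, 0, 256]), (3107, [256, 16, 0, 256, 0, 256, 64, 0, 256]),
    (3112, [256, 0, 256, 0, 256, 0, 256]), (3113, [256, 0, 256, 0, 256, 64, 0, 256]),
    (3114, [256, 64, 0, 256, 0, 256, 0, 256]), (3115, [256, 0, 256, 0, 256, 0, 256, 64]),
    (3136, [0, 0, 256, 0, 256, 64]), (3137, [0, 0, 256, 64, 0, 256]), (3138, [0, 0, 256, 0, 256]),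
    (3139, [16, 0, 256, 0, 0, 256]), (3144, [0, 16, 256, 0, 256, 64]), (3145, [0, 256, 0, 0, 256, 64]),
    (3146, [0, 256, 0, 0, 256]), (3147, [0, 16, 256, 0, 256]), (3232, [16, 0, 256, 0, 256, 0, 256]),
    (3233, [16, 0, 256, 0, 256, 64, 0, 256]), (3234, [64, 16, 0, 256, 0, 256, 0, 256]),
    (3235, [16, 0, 256, 0, 256, 0, 256, 64]), (3244, [256, 0, 16, 256, 0, 256, 64]),
    (3245, [256, 0, 256, 0, 0, 256, 64]), (3246, [256, 0, 16, 256, 0, 256]), (3247, [256, 0, 256, 0, 0, 256]),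
    (3264, [256, 0, 0, 256, 0, 256]), (3265, [256, 16, 0, 256, 0, 0, 256]), (3266, [16, 256, 0, 256, 0, 0, 256]),
    (3267, [256, 0, 0, 256, 0, 256, 64]), (3276, [0, 256, 0, 256, 64, 0, 256]), (3277, [0, 256, 0, 256, 0, 256]),
    (3278, [64, 0, 256, 0, 256, 0, 256]), (3279, [0, 256, 0, 256, 0, 256, 64]),
    (3752, [3789, 0, 0, 256, 0, 256, 0, 256]), (3753, [0, 0, 256, 0, 256, 0, 256]),
    (3754, [0, 0, 256, 0, 256, 0, 256, 64]), (3755, [0, 0, 256, 0, 256, 64, 0, 256]),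
    (3756, [256, 0, 256, 16, 0, 256, 0, 256, 64]), (3757, [256, 0, 16, 256, 0, 256, 0, 256]),
    (3758, [256, 0, 16, 256, 0, 256, 0, 256, 64]), (3759, [256, 0, 256, 16, 0, 256, 0, 256]),
    (3784, [0, 16, 256, 0, 256, 0, 256, 64]), (3785, [0, 256, 16, 0, 256, 0, 256]),
    (3786, [0, 16, 256, 0, 256, 0, 256]), (3787, [0, 256, 16, 0, 256, 0, 256, 64]),
    (3788, [256, 0, 0, 256, 0, 256, 0, 256, 64]), (3789, [256, 0, 0, 256, 0, 256, 64, 0, 256]),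
    (3790, [256, 0, 0, 256, 0, 256, 0, 256]), (3791, [256, 3789, 0, 0, 256, 0, 256, 0, 256])]

theorem GS.labD (C : GS φ σ Y 0) (a : NT) (ha : InD a) : IsConj (φ (o 32)) (φ a) :=
  C.isConj_of_tab (by decide +kernel) (L := tabD) (by decide +kernel)
    ((by decide +kernel : ∀ a : NT, InD a → a.v ∈ tabD.map Prod.fst) a ha)

theorem card_SS (hφ : Function.Injective φ) : Nat.card (SS.map φ) = 256 := by
  rw [card_map_of_injective hφ, SS, card_subG]; decide +kernel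

theorem GS.sylS [Finite G] (C : GS φ σ Y δ) (U : Fu φ) : IsSylowIn 2 (SS.map φ) (Cx (φ (o 32))) := by
  have hc := card_SS C.inj
  have hle : SS.map φ ≤ Cx (φ (o 32)) := by
    rintro _ ⟨a, ha, rfl⟩
    exact (commS_iff C.inj).2 ((by decide +kernel : ∀ a : NT, a.v % 3072 < 1024 ∧ a.v % 512 < 64 →
      a * o 32 = o 32 * a) a ha)
  refine ⟨hle, IsPGroup.of_card (n := 8) hc, fun ⟨k, hk⟩ => U.syl ⟨k, ?_⟩⟩
  rw [← card_mul_relIndex' hle, hc, hk]; omega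

end CfsgLib.SM12
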