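import Mathlib
import Cfsg.Agent.Lib.SM12.SUa

/-! Package SUB: the elements `τ`, `τ'`; `e a` is not conjugate to `e` (plans/SM12.md). -/

set_option autoImplicit false
set_option maxRecDepth 100000
set_option synthInstance.maxSize 4096

namespace CfsgLib.SM12

open Subgroup Cfsg CfsgLib.W2 CfsgLib.W2.TG CfsgLib.Tech CfsgLib.CosetEnum CfsgLib.Yos

variable {G : Type*} [Group G] {σ τ τ' : G} {φ : NT →* G} {Y : Subgroup G} {δ ν : ℕ} {Φ : OG →* G}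

/-- The action of `g₂ σ` on `J`. -/
noncomputable def fS (a : NT) : NT := o 256 * sgS 0 a * (o 256)⁻¹

theorem sub_tab : ∀ a : NT, InJS a → InJS (fS a) ∧ fS (fS (fS (fS (fS (fS a))))) = tauS 1 a ∧
    InJS (tauS 1 a) ∧ InJS (tauS 2 a) ∧ tauS 1 (tauS 1 a) = a ∧ sgS 0 (sgS 0 (sgS 0 a)) = a ∧
    sgS 0 (tauS 1 (sgS 0 (sgS 0 a))) = tauS 2 a ∧
    tauS 1 (tauS 2 (sgS 0 (tauS 2 (sgS 0 (sgS 0 a))))) = a := by decide +kernel

theorem rel_pow_odd {M : Type*} [Group M] {ψ : M →* G} {g : G} {a b : M} (h1 : W2.Rel ψ g a b)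
    (h2 : ∀ j : ℕ, W2.Rel ψ ((g * g) ^ j) a a) {m : ℕ} (hm : Odd m) : W2.Rel ψ (g ^ m) a b := by
  obtain ⟨j, rfl⟩ := hm
  rw [pow_succ', pow_mul, pow_two]
  exact h1.comp (h2 j)

theorem rel_pow_fix {M : Type*} [Group M] {ψ : M →* G} {g : G} {a : M} (h : W2.Rel ψ g a a) (j : ℕ) :
    W2.Rel ψ (g ^ j) a a := mem_Cx'.1 (pow_mem (mem_Cx'.2 h) j)

/-- An element which centralises `J` lies in `Y V`. -/
theorem GS.cenJ (C : GS φ σ Y δ) {g : G} (h : ∀ a, InJS a → W2.Rel φ g a a) :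
    ∃ y ∈ Y, ∃ k < 4, g = y * φ (o k) := by
  have hJ : LA [1, 32, 4, 8, 3789] fun j => InJS (o j : NT) := by decide +kernel
  simp only [LA, List.forall_mem_cons] at hJ
  obtain ⟨j1, j2, j3, j4, j5, -⟩ := hJ
  obtain ⟨y, hy, n, h1, rfl⟩ := C.cent' (h _ j2) (mem_Cx'.2 (h _ j1))
  exact ⟨y, hy, n.v, (by decide +kernel : ∀ n : NT, n.v % 512 < 64 → n * o 4 * n⁻¹ = o 4 →
    n * o 8 * n⁻¹ = o 8 → n * o 3789 * n⁻¹ = o 3789 → n.v < 4) n h1 (C.act_eq hy (h _ j3))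
      (C.act_eq hy (h _ j4)) (C.act_eq hy (h _ j5)), by rw [o_v]⟩

variable [Finite G]

theorem GS.exists_tau1 (C : GS φ σ Y 0) : ∃ τ : G, ∃ ν < 2, (∀ a, InJS a → W2.Rel φ τ a (tauS 1 a)) ∧
    τ * τ = φ (o (2 * ν)) ∧ ∀ y ∈ Y, τ * y = y * τ := by
  obtain ⟨k, r1, kY⟩ : ∃ k : G, (∀ a, InJS a → W2.Rel φ k a (fS a)) ∧ ∀ y ∈ Y, Commute k y :=
    ⟨φ (o 256) * σ, fun a ha => (Rel.conj φ _ _).comp (C.relS two_pos a ha), fun y hy =>
      Commute.mul_left (C.cY _ y hy) (C.sY y hy)⟩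
  have j1 : ∀ a, InJS a → InJS (fS a) := fun a ha => (sub_tab a ha).1
  obtain ⟨u, r6, uY, uk⟩ : ∃ u : G, (∀ a, InJS a → W2.Rel φ u a (tauS 1 a)) ∧ (∀ y ∈ Y, Commute u y) ∧
      Commute k u := by
    refine ⟨k * (k * (k * (k * (k * k)))), fun a ha => ?_, fun y hy => ?_, ?_⟩
    · exact ((r1 _ (j1 _ (j1 _ (j1 _ (j1 _ (j1 _ ha)))))).comp ((r1 _ (j1 _ (j1 _ (j1 _ (j1 _ ha))))).comp
        ((r1 _ (j1 _ (j1 _ (j1 _ ha)))).comp ((r1 _ (j1 _ (j1 _ ha))).comp ((r1 _ (j1 _ ha)).comp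
          (r1 _ ha)))))).of_eq rfl (sub_tab a ha).2.1
    · have := kY y hy
      exact this.mul_left (this.mul_left (this.mul_left (this.mul_left (this.mul_left this))))
    · have := Commute.refl k
      exact this.mul_right (this.mul_right (this.mul_right (this.mul_right (this.mul_right this))))
  have r2 : ∀ a, InJS a → W2.Rel φ (u * u) a a := fun a ha =>
    ((r6 _ (sub_tab a ha).2.2.1).comp (r6 a ha)).of_eq rfl (sub_tab a ha).2.2.2.2.1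
  obtain ⟨y, hy, n, hn, e⟩ := C.cenJ r2
  have H : ∀ n < 4, InJS (o n : NT) ∧ (o n : NT) * o n = 1 ∧ (fS (o n) = o n → ∃ ν < 2, n = 2 * ν) := by
    decide +kernel
  obtain ⟨h1, h2, h3⟩ := H n hn
  have c1 : Commute k (φ (o n)) := by
    have : φ (o n) = y⁻¹ * (u * u) := by rw [e, inv_mul_cancel_left]
    rw [this]
    exact (kY y hy).inv_right.mul_right (uk.mul_right uk)
  obtain ⟨ν, hν, rfl⟩ := h3 ((r1 _ h1).uniq C.inj (Rel.of_comm c1) rfl)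
  refine ⟨u ^ Nat.card Y, ν, hν, fun a ha => rel_pow_odd (r6 a ha) (rel_pow_fix (r2 a ha)) C.odd, ?_,
    fun y hy => (uY y hy).pow_left _⟩
  obtain ⟨j, hj⟩ := C.odd
  have hy1 : y ^ Nat.card Y = 1 := congrArg Subtype.val (pow_card_eq_one' (G := Y) (x := ⟨y, hy⟩))
  rw [← (Commute.refl u).mul_pow, e, Commute.mul_pow (C.cY _ y hy).symm, hy1, one_mul, hj, pow_succ, pow_mul,
    pow_two, ← map_mul, h2, map_one, one_pow, one_mul]

theorem GS.exists_tau (C : GS φ σ Y 0) : ∃ τ τ' ν, Tau φ Y τ τ' ν := by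
  obtain ⟨τ, ν, hν, r1, s1, y1⟩ := C.exists_tau1
  have rs := C.relS two_pos
  have js := sgS_J 0 two_pos
  have key : ∀ (t : G) (f : NT → NT), (∀ a, InJS a → InJS (f a) ∧ W2.Rel φ t a (f a)) →
      ∀ a, InJS a → W2.Rel φ (σ * t * σ⁻¹) a (sgS 0 (f (sgS 0 (sgS 0 a)))) := fun t f h a ha =>
    ((rs _ (h _ (js _ (js _ ha))).1).comp (h _ (js _ (js _ ha))).2).comp
      ((rs _ (js _ (js _ ha))).of_eq rfl (sub_tab a ha).2.2.2.2.2.1).symm
  have H : ∀ ν < 2, InJS (o (2 * ν) : NT) ∧ InJS (o (3 * ν) : NT) ∧ InJS (o ν : NT) ∧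
      sgS 0 (o (2 * ν)) = o (3 * ν) ∧ sgS 0 (o (3 * ν)) = o ν ∧ tauS 1 (o ν) = o ν ∧ tauS 2 (o ν) = o ν ∧
      (o (2 * ν) : NT) * o (3 * ν) = o ν ∧ (o ν : NT) * o ν = 1 := by decide +kernel
  obtain ⟨a1, a2, a3, a4, a5, a6, a7, a8, a9⟩ := H ν hν
  have cy : ∀ t : G, (∀ y ∈ Y, t * y = y * t) → ∀ y ∈ Y, σ * t * σ⁻¹ * y = y * (σ * t * σ⁻¹) :=
    fun t h y hy => (Commute.mul_left (C.sY y hy) (h y hy)).mul_left (Commute.inv_left (C.sY y hy))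
  obtain ⟨τ', e1⟩ : ∃ τ', τ' = σ * τ * σ⁻¹ := ⟨_, rfl⟩
  obtain ⟨τ'', e2⟩ : ∃ τ'', τ'' = σ * τ' * σ⁻¹ := ⟨_, rfl⟩
  have e3 : σ * τ'' * σ⁻¹ = τ := by
    rw [e2, e1]
    calc _ = (σ * σ * σ) * τ * (σ * σ * σ)⁻¹ := by group
      _ = τ := by rw [C.s3]; group
  have r2 : ∀ a, InJS a → W2.Rel φ τ' a (tauS 2 a) := fun a ha =>
    e1 ▸ (key τ _ (fun a ha => ⟨(sub_tab a ha).2.2.1, r1 a ha⟩) a ha).of_eq rfl (sub_tab a ha).2.2.2.2.2.2.1
  have r3 : ∀ a, InJS a → W2.Rel φ τ'' a (sgS 0 (tauS 2 (sgS 0 (sgS 0 a)))) := fun a ha =>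
    e2 ▸ key τ' _ (fun a ha => ⟨(sub_tab a ha).2.2.2.1, r2 a ha⟩) a ha
  have s2 : τ' * τ' = φ (o (3 * ν)) := by rw [e1, conj_mul, s1, rs _ a1, a4]
  have s3 : τ'' * τ'' = φ (o ν) := by rw [e2, conj_mul, s2, rs _ a2, a5]
  have y2 : ∀ y ∈ Y, τ' * y = y * τ' := e1 ▸ cy τ y1
  have y3 : ∀ y ∈ Y, τ'' * y = y * τ'' := e2 ▸ cy τ' y2
  obtain ⟨y, hy, n, hn, e⟩ := C.cenJ (g := τ * (τ' * τ'')) fun a ha => by
    have j3 := js _ (sub_tab _ (js _ (js _ ha))).2.2.2.1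
    exact ((r1 _ (sub_tab _ j3).2.2.2.1).comp ((r2 _ j3).comp (r3 a ha))).of_eq rfl (sub_tab a ha).2.2.2.2.2.2.2
  have H2 : ∀ n < 4, InJS (o n : NT) ∧ tauS 1 (o n) = o n ∧ (sgS 0 (o n) = o n → n = 0) := by decide +kernel
  obtain ⟨b1, b2, b3⟩ := H2 n hn
  have cn : Commute τ (φ (o n)) := ((r1 _ b1).of_eq rfl b2).comm
  have cτ : Commute τ y := y1 y hy
  obtain rfl : n = 0 := by
    refine b3 ((rs _ b1).uniq C.inj ?_ rfl)
    have h1 : σ * (y * φ (o n)) * σ⁻¹ = τ⁻¹ * (y * φ (o n)) * τ := by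
      rw [← e]
      calc _ = (σ * τ * σ⁻¹) * (σ * τ' * σ⁻¹) * (σ * τ'' * σ⁻¹) := by group
        _ = _ := by rw [← e1, ← e2, e3]; group
    rw [mul_assoc τ⁻¹, ← (cτ.mul_right cn).eq, inv_mul_cancel_left, ← mul_assoc, C.sY y hy, mul_assoc,
      mul_assoc, mul_right_inj, ← mul_assoc] at h1
    exact h1
  rw [show φ (o 0) = 1 from map_one φ, mul_one] at e
  have c1 : Commute τ (φ (o ν)) := ((r1 _ a3).of_eq rfl a6).comm
  have c2 : Commute τ' (φ (o ν)) := ((r2 _ a3).of_eq rfl a7).comm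
  have vv : φ (o ν) * φ (o ν) = 1 := by rw [← map_mul, a9, map_one]
  have hv : τ * τ * (τ' * τ') = φ (o ν) := by rw [s1, s2, ← map_mul, a8]
  generalize φ (o ν) = v at s3 c1 c2 vv hv
  have u1 : τ * τ' = y * τ''⁻¹ := by rw [← e]; group
  have cy3 : Commute τ'' y := y3 y hy
  have u2 : τ * τ' * (τ * τ') = y * y * v⁻¹ := by
    rw [u1, ← s3]
    calc _ = y * (τ''⁻¹ * y) * τ''⁻¹ := by group
      _ = _ := by rw [cy3.inv_left.eq]; group
  have u3 : τ * (τ * τ') * τ⁻¹ = v * (τ * τ')⁻¹ := by rw [← hv]; group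
  have cu : Commute (τ * τ') v := c1.mul_left c2
  have u4 : y * y * v⁻¹ * (y * y * v⁻¹) = 1 := by
    have h1 : τ * (y * y * v⁻¹) * τ⁻¹ = y * y * v⁻¹ := by
      rw [((cτ.mul_right cτ).mul_right c1.inv_right).eq, mul_inv_cancel_right]
    have h2 : τ * (y * y * v⁻¹) * τ⁻¹ = (y * y * v⁻¹)⁻¹ := by
      rw [← u2, ← conj_mul, u3]
      calc _ = v * ((τ * τ')⁻¹ * v) * (τ * τ')⁻¹ := by group
        _ = v * v * ((τ * τ') * (τ * τ'))⁻¹ := by rw [cu.inv_left.eq]; group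
        _ = _ := by rw [vv, one_mul]
    rw [h1] at h2
    exact mul_eq_one_iff_eq_inv.2 h2
  have cv : Commute y v := by
    rw [← s3]; exact cy3.symm.mul_right cy3.symm
  obtain rfl : y = 1 := by
    refine eq_one_of_two C.odd hy ⟨2, ?_⟩
    calc y ^ 2 ^ 2 = y * y * (v⁻¹ * (y * y)) * v⁻¹ * (v * v) := by
          rw [((cv.mul_left cv).inv_right).symm.eq, show y ^ 2 ^ 2 = y * y * (y * y) by
            rw [show 2 ^ 2 = 2 + 2 from rfl, pow_add, pow_two]]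
          group
      _ = 1 := by rw [vv, mul_one, ← u4]; group
  refine ⟨τ, τ', ν, hν, r1, r2, s1, s2, ?_, y1, y2⟩
  rw [one_mul, one_mul, inv_eq_of_mul_eq_one_right vv, ← hv] at u2
  calc τ * τ' = τ⁻¹ * (τ * τ * (τ' * τ')) * τ'⁻¹ := by group
    _ = τ' * τ := by rw [← u2]; group

/-- The centraliser of `e a` in `J`. -/
noncomputable def FS : Subgroup NT := subG (fun a => InJS a ∧ a * o 40 = o 40 * a)
  [o 1, o 2, o 8, o 32, o 68, o 132, o 3072] 1 (by decide +kernel)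

/-- The action of `τ τ' g₂ q` on `J`. -/
noncomputable def hS (a : NT) : NT := tauS 1 (tauS 2 (o 256 * (o 16 * a * (o 16)⁻¹) * (o 256)⁻¹))

theorem GS.eaD0 (C : GS φ σ Y 0) (U : Fu φ) (T : Tau φ Y τ τ' ν) : ¬ IsConj (φ (o 40)) (φ (o 32)) := by
  intro hc
  obtain ⟨h, rh⟩ : ∃ h : G, ∀ a, InJS a → W2.Rel φ h a (hS a) := by
    refine ⟨τ * (τ' * (φ (o 256) * φ (o 16))), fun a ha => ?_⟩
    have j := cj_J _ (cj_J a ha 16 (by simp)) 256 (by simp)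
    exact (T.r1 _ (sub_tab _ j).2.2.2.1).comp ((T.r2 _ j).comp ((Rel.conj φ _ _).comp (Rel.conj φ _ _)))
  have H : LA [(1, 1), (2, 2), (40, 40), (32, 70), (33, 71), (70, 33), (71, 32)] fun p =>
      InJS (o p.1 : NT) ∧ hS (o p.1) = o p.2 := by decide +kernel
  have r : ∀ p ∈ [(1, 1), (2, 2), (40, 40), (32, 70), (33, 71), (70, 33), (71, 32)],
      W2.Rel φ h (o p.1) (o p.2) := fun p hp => (rh _ (H p hp).1).of_eq rfl (H p hp).2
  simp only [List.forall_mem_cons] at r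
  obtain ⟨r1, r2, r3, r4, r5, r6, r7, -⟩ := r
  have hF : ∀ a : NT, InJS a ∧ a * o 40 = o 40 * a → (InJS (hS a) ∧ hS a * o 40 = o 40 * hS a) ∧
      a * o 1 = o 1 * a ∧ a * o 2 = o 2 * a ∧ a * o 32 * a⁻¹ ≠ o 70 ∧ a * o 32 * a⁻¹ ≠ o 71 := by
    decide +kernel
  have hn : h ∈ normalizer (FS.map φ : Set G) := mem_normalizer_of_forall (by
    rintro _ ⟨a, ha, rfl⟩
    exact ⟨hS a, (hF a ha).1, Eq.symm (rh a ha.1)⟩)
  obtain ⟨k, m, hm, ho⟩ := Nat.exists_eq_two_pow_mul_odd (orderOf_pos h).ne'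
  have h2 : (h ^ m) ^ 2 ^ k = 1 := by rw [← pow_mul, mul_comm, ← ho, pow_orderOf_eq_one]
  have cF : Nat.card (FS.map φ) = 128 := by
    rw [card_map_of_injective C.inj, FS, card_subG]; decide +kernel
  have nm : h ^ m ∉ FS.map φ := by
    rintro ⟨a, ha, e⟩
    have h3 : ∀ j : ℕ, W2.Rel φ ((h * h) ^ j) (o 32) (o 32) ∨ W2.Rel φ ((h * h) ^ j) (o 32) (o 33) := by
      intro j
      induction j with
      | zero => left; simp [W2.Rel]
      | succ j ih =>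
        rw [pow_succ']
        exact ih.symm.imp (fun e => (r7.comp r5).comp e) fun e => (r6.comp r4).comp e
    obtain ⟨j, rfl⟩ := hm
    rw [pow_succ', pow_mul, pow_two] at e
    rcases h3 j with e1 | e1
    · exact (hF a ha).2.2.2.1 ((Rel.conj φ a _).uniq C.inj (e ▸ r4.comp e1) rfl)
    · exact (hF a ha).2.2.2.2 ((Rel.conj φ a _).uniq C.inj (e ▸ r5.comp e1) rfl)
  obtain ⟨R, pR, cR, le⟩ : ∃ R : Subgroup G, IsPGroup 2 R ∧ 256 ≤ Nat.card R ∧ FS.map φ ≤ R ∧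
      R ≤ Cx (φ (o 1)) ⊓ Cx (φ (o 2)) ⊓ Cx (φ (o 40)) := by
    have p1 : IsPGroup 2 (zpowers (h ^ m) ⊔ FS.map φ : Subgroup G) :=
      (isPGroup_zpowers_of_pow h2).to_sup_of_normal_right' (IsPGroup.of_card (n := 7) cF)
        (zpowers_le.2 (pow_mem hn m))
    refine ⟨_, p1, ?_, le_sup_right, sup_le (zpowers_le.2 (pow_mem ?_ m)) ?_⟩
    · have h3 := card_mul_relIndex' (le_sup_right : FS.map φ ≤ zpowers (h ^ m) ⊔ FS.map φ)
      have h4 : (FS.map φ).relIndex (zpowers (h ^ m) ⊔ FS.map φ) ≠ 1 := fun e =>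
        nm (relIndex_eq_one.1 e (mem_sup_left (mem_zpowers _)))
      have h5 : 0 < Nat.card (zpowers (h ^ m) ⊔ FS.map φ : Subgroup G) := Nat.card_pos
      rw [cF] at h3
      generalize (FS.map φ).relIndex (zpowers (h ^ m) ⊔ FS.map φ) = i at h3 h4
      omega
    · exact ⟨⟨mem_Cx'.2 r1, mem_Cx'.2 r2⟩, mem_Cx'.2 r3⟩
    · rintro _ ⟨a, ha, rfl⟩
      exact ⟨⟨(commS_iff C.inj).2 (hF a ha).2.1, (commS_iff C.inj).2 (hF a ha).2.2.1⟩,
        (commS_iff C.inj).2 ha.2⟩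
  obtain ⟨g, hg⟩ := isConj_iff.1 hc
  obtain ⟨t, -, ht⟩ := (C.sylS U).exists_cj_le (isPGroup_cj g pR)
    (by rw [← hg, ← cj_Cx]; exact cj_mono g (le.2.trans inf_le_right))
  rw [← cj_mul] at ht
  have e : cj (t * g) R = SS.map φ := eq_of_le_of_card_ge ht (by rw [card_SS C.inj, card_cj]; exact cR)
  have hz : ∀ a : NT, a ∈ FS → R ≤ Cx (φ a) → ∃ n ∈ [0, 1, 32, 33], W2.Rel φ (t * g) a (o n) := by
    intro a ha hR
    obtain ⟨n, hn, e1⟩ := e.le (conj_mem_cj.2 (le.1 ⟨a, ha, rfl⟩))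
    have c : ∀ b ∈ SS, b * n = n * b := fun b hb => by
      refine (commS_iff C.inj).1 ?_
      rw [e1, ← cj_Cx]
      exact cj_mono _ hR (e.ge ⟨b, hb, rfl⟩)
    refine ⟨n.v, (by decide +kernel : ∀ n : NT, n.v % 3072 < 1024 ∧ n.v % 512 < 64 →
      o 4 * n = n * o 4 → o 8 * n = n * o 8 → o 16 * n = n * o 16 → o 512 * n = n * o 512 →
        n.v ∈ [0, 1, 32, 33]) n hn (c _ ?_) (c _ ?_) (c _ ?_) (c _ ?_), by rw [o_v]; exact e1.symm⟩ <;>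
      exact mem_subG.2 (by decide +kernel)
  obtain ⟨n1, m1, q1⟩ := hz (o 1) (mem_subG.2 (by decide +kernel)) (le.2.trans (inf_le_left.trans inf_le_left))
  obtain ⟨n2, m2, q2⟩ := hz (o 2) (mem_subG.2 (by decide +kernel)) (le.2.trans (inf_le_left.trans inf_le_right))
  obtain ⟨n3, m3, q3⟩ := hz (o 40) (mem_subG.2 (by decide +kernel)) (le.2.trans inf_le_right)
  have H3 : LA [0, 1, 32, 33] fun a => LA [0, 1, 32, 33] fun b => LA [0, 1, 32, 33] fun c =>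
      (o a : NT) = 1 ∨ (o b : NT) = 1 ∨ (o a : NT) = o b ∨ (o c : NT) = 1 ∨ (o c : NT) = o a ∨
        (o c : NT) = o b ∨ (o c : NT) = o a * o b := by decide +kernel
  rcases H3 n1 m1 n2 m2 n3 m3 with k | k | k | k | k | k | k
  exacts [absurd (q1.uniq' C.inj Rel.one k) (by decide +kernel),
    absurd (q2.uniq' C.inj Rel.one k) (by decide +kernel),
    absurd (q1.uniq' C.inj q2 k) (by decide +kernel),
    absurd (q3.uniq' C.inj Rel.one k) (by decide +kernel),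
    absurd (q3.uniq' C.inj q1 k) (by decide +kernel),
    absurd (q3.uniq' C.inj q2 k) (by decide +kernel),
    absurd (q3.uniq' C.inj (q1.mul q2) k) (by decide +kernel)]

/-- Words for the conjugates of `e a`. -/
def tabE : List (ℕ × List ℕ) :=
  [(40, []), (41, [64]), (42, [3789]), (43, [3789, 64]), (72, [3789, 256, 64]), (73, [3789, 256]), (74, [256]),
    (75, [256, 64]), (3748, [16, 0, 256]), (3749, [64, 0, 0, 256]), (3750, [3789, 0, 0, 256]),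
    (3751, [0, 0, 256]), (3780, [64, 0, 256]), (3781, [0, 256, 64]), (3782, [0, 3789, 256]), (3783, [0, 256])]

theorem GS.eaD (C : GS φ σ Y 0) (U : Fu φ) (T : Tau φ Y τ τ' ν) (a : NT) (ha : a.v / 4 ∈ [10, 18, 937, 945]) :
    ¬ IsConj (φ (o 32)) (φ a) := fun h =>
  C.eaD0 U T ((C.isConj_of_tab (by decide +kernel) (L := tabE) (by decide +kernel)
    ((by decide +kernel : ∀ a : NT, a.v / 4 ∈ [10, 18, 937, 945] → a.v ∈ tabE.map Prod.fst) a ha)).trans h.symm)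

end CfsgLib.SM12
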