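import Mathlib
import Cfsg.Agent.Lib.SM12.Defs

/-! Package SUC: the group `O` (plans/SM12.md). -/

set_option autoImplicit false
set_option maxRecDepth 100000
set_option synthInstance.maxSize 4096

namespace CfsgLib.SM12

open Subgroup Cfsg CfsgLib.W2 CfsgLib.W2.TG CfsgLib.Tech CfsgLib.CosetEnum CfsgLib.Yos

variable {G : Type*} [Group G] {σ τ τ' : G} {φ : NT →* G} {Y : Subgroup G} {δ ν : ℕ} {Φ : OG →* G}

theorem tauS_J : ∀ a : NT, InJS a → InJS (tauS 1 a) ∧ InJS (tauS 2 a) ∧ tauS 0 a = a ∧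
    tauS 3 a = tauS 1 (tauS 2 a) := by decide +kernel

/-- The action of `τ ^ a τ' ^ b` on `J`. -/
theorem Tau.relW (T : Tau φ Y τ τ' ν) {s : ℕ} (hs : s < 4) (a : NT) (ha : InJS a) :
    W2.Rel φ (τ ^ (s % 2) * τ' ^ (s / 2)) a (tauS s a) := by
  obtain ⟨-, h2, h3, h4⟩ := tauS_J a ha
  interval_cases s
  · rw [h3]; simp [W2.Rel]
  · simpa using T.r1 a ha
  · simpa using T.r2 a ha
  · rw [h4]; simpa using (T.r1 _ h2).comp (T.r2 a ha)

theorem suc_pow {t : G} {k : ℕ} (h : t * t = φ (o k)) {a b : ℕ} (ha : a < 2) (hb : b < 2) :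
    t ^ a * t ^ b = φ (o (k * (a * b))) * t ^ ((a + b) % 2) := by
  have e : φ (o 0) = 1 := map_one φ
  interval_cases a <;> interval_cases b <;> simp [e, h]

theorem Tau.mulW (T : Tau φ Y τ τ' ν) {a b a' b' : ℕ} (ha : a < 2) (hb : b < 2) (ha' : a' < 2) (hb' : b' < 2) :
    τ ^ a * τ' ^ b * (τ ^ a' * τ' ^ b') =
      φ (o (Nat.xor (2 * ν * (a * a')) (3 * ν * (b * b')))) * (τ ^ ((a + a') % 2) * τ' ^ ((b + b') % 2)) := by
  have H : ∀ ν < 2, ∀ i < 2, ∀ j < 2, InJS (o (3 * ν * j) : NT) ∧ tauS 1 (o (3 * ν * j)) = o (3 * ν * j) ∧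
      (o (Nat.xor (2 * ν * i) (3 * ν * j)) : NT) = o (2 * ν * i) * o (3 * ν * j) := by decide +kernel
  obtain ⟨h1, h2, h3⟩ := H ν T.hν (a * a') (by interval_cases a <;> omega) (b * b') (by interval_cases b <;> omega)
  have c1 : Commute τ (φ (o (3 * ν * (b * b')))) := ((T.r1 _ h1).of_eq rfl h2).comm
  have c2 : Commute τ τ' := T.cm
  calc _ = τ ^ a * (τ' ^ b * τ ^ a') * τ' ^ b' := by group
    _ = (τ ^ a * τ ^ a') * (τ' ^ b * τ' ^ b') := by rw [← (c2.pow_pow a' b).eq]; group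
    _ = φ (o (2 * ν * (a * a'))) * (τ ^ ((a + a') % 2) * φ (o (3 * ν * (b * b')))) * τ' ^ ((b + b') % 2) := by
      rw [suc_pow T.s1 ha ha', suc_pow T.s2 hb hb']; group
    _ = _ := by rw [(c1.pow_left _).eq, h3, map_mul]; group

theorem suc_tab : ∀ ν < 2, ∀ u : OG, InO (jf ν u) ∧ sf ν u < 4 ∧
    (jf ν u * tauS (sf ν u) (o 32) * (jf ν u)⁻¹ = o 32 → sf ν u = 0 ∧ (jf ν u = 1 → u = 1)) ∧
    jf ν (eO ν u) = o 32 * jf ν u * tauS (sf ν u) (o 32)⁻¹ ∧ sf ν (eO ν u) = sf ν u := by decide +kernel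

theorem suc_hom : ∀ ν < 2, LA [4, 8, 16, 32, 64, 128, 256, 512] fun g => ∀ u : OG,
    jf ν (u * o g) = jf ν u * tauS (sf ν u) (jf ν (o g)) *
      o (Nat.xor (2 * ν * (sf ν u % 2 * (sf ν (o g) % 2))) (3 * ν * (sf ν u / 2 * (sf ν (o g) / 2)))) ∧
    sf ν (u * o g) % 2 = (sf ν u % 2 + sf ν (o g) % 2) % 2 ∧
    sf ν (u * o g) / 2 = (sf ν u / 2 + sf ν (o g) / 2) % 2 := by decide +kernel

theorem Tau.exists_OF (T : Tau φ Y τ τ' ν) (hφ : Function.Injective φ) : ∃ Φ, OF φ τ τ' ν Φ := by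
  have hν := T.hν
  have tb := suc_tab ν hν
  obtain ⟨Φ, hΦ⟩ : ∃ Φ : OG →* G, ∀ u, Φ u = φ (jf ν u) * (τ ^ (sf ν u % 2) * τ' ^ (sf ν u / 2)) := by
    refine ⟨homOf (gs := [4, 8, 16, 32, 64, 128, 256, 512].map o) (D := 2) (by decide +kernel)
      (fun u => φ (jf ν u) * (τ ^ (sf ν u % 2) * τ' ^ (sf ν u / 2))) ?_ ?_, fun _ => rfl⟩
    · obtain ⟨h1, h2⟩ := (by decide +kernel : ∀ ν < 2, jf ν 1 = 1 ∧ sf ν 1 = 0) ν hν
      simp [h1, h2]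
    · intro g hg u
      obtain ⟨k, hk, rfl⟩ := List.mem_map.1 hg
      obtain ⟨h1, h2, h3⟩ := suc_hom ν hν k hk u
      have h4 := T.relW (tb u).2.1 _ (tb (o k)).1.1
      have h5 := T.mulW (Nat.mod_lt (sf ν u) two_pos) (b := sf ν u / 2) (by have := (tb u).2.1; omega)
        (Nat.mod_lt (sf ν (o k)) two_pos) (b' := sf ν (o k) / 2) (by have := (tb (o k)).2.1; omega)
      rw [h1, h2, h3, map_mul, map_mul, mul_assoc, ← h5, ← h4]
      group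
  have h32 : InJS (o 32 : NT) ∧ InJS (o 32 : NT)⁻¹ := by decide +kernel
  have hk : ∀ (k : ℕ) (j : NT) (s : ℕ), jf ν (o k) = j → sf ν (o k) = s →
      φ j * (τ ^ (s % 2) * τ' ^ (s / 2)) ∈ Φ.range := by
    rintro k _ _ rfl rfl
    exact ⟨o k, hΦ _⟩
  refine ⟨Φ, (injective_iff_map_eq_one Φ).2 fun u hu => ?_, fun k hk => ?_, fun g => ⟨?_, ?_⟩, fun u => ?_⟩
  · have h1 := (Rel.conj φ (jf ν u) _).comp (T.relW (tb u).2.1 _ h32.1)
    rw [← hΦ, hu] at h1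
    obtain ⟨h2, h3⟩ := (tb u).2.2.1 (h1.uniq hφ (show W2.Rel φ 1 (o 32) (o 32) by simp [W2.Rel]) rfl)
    rw [hΦ, h2] at hu
    exact h3 (hφ (by simpa using hu))
  · obtain ⟨h1, h2⟩ := (by decide +kernel : ∀ ν < 2, ∀ k < 4, jf ν (o k) = o k ∧ sf ν (o k) = 0) ν hν k hk
    rw [hΦ, h1, h2]; simp
  · rintro ⟨u, rfl⟩
    exact ⟨_, (tb u).1, _, Nat.mod_lt (sf ν u) two_pos, sf ν u / 2, by have := (tb u).2.1; omega,
      by rw [hΦ, mul_assoc]⟩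
  · rintro ⟨j, hj, a, ha, b, hb, rfl⟩
    have H : ∀ ν < 2, LA [(1, 1, 1), (2, 2, 2), (4, 451, 4), (8, 16, 622), (96, 218, 273), (128, 742, 340),
        (512, 888, 680), (3072, 32, 951)] (fun p => jf ν (o (if ν = 0 then p.2.1 else p.2.2)) = o p.1 ∧
          sf ν (o (if ν = 0 then p.2.1 else p.2.2)) = 0) ∧
        jf ν (o (if ν = 0 then 4 else 975)) = 1 ∧ sf ν (o (if ν = 0 then 4 else 975)) = 1 ∧
        jf ν (o (if ν = 0 then 12 else 651)) = 1 ∧ sf ν (o (if ν = 0 then 12 else 651)) = 2 := by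
      decide +kernel
    obtain ⟨H1, H2, H3, H4, H5⟩ := H ν hν
    refine mul_mem (mul_mem ?_ (pow_mem (by simpa using hk _ _ _ H2 H3) _))
      (pow_mem (by simpa using hk _ _ _ H4 H5) _)
    refine map_mem_of_sp φ (gs := [(1, 1, 1), (2, 2, 2), (4, 451, 4), (8, 16, 622), (96, 218, 273), (128, 742, 340),
        (512, 888, 680), (3072, 32, 951)].map fun p => o p.1) (D := 1) (fun g hg => ?_)
      (bit_of_spB (P := InO) (by decide +kernel) hj)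
    obtain ⟨p, hp, rfl⟩ := List.mem_map.1 hg
    simpa using hk _ _ _ (H1 p hp).1 (H1 p hp).2
  · have h1 := T.relW (tb u).2.1 _ h32.2
    rw [W2.Rel] at h1 ⊢
    rw [hΦ, hΦ, (tb u).2.2.2.1, (tb u).2.2.2.2, map_mul, map_mul, ← h1, map_inv]
    group

theorem OF.card (O : OF φ τ τ' ν Φ) : Nat.card Φ.range = 1024 := by
  rw [← Nat.card_congr (MonoidHom.ofInjective O.inj).toEquiv, card_eq]

theorem OF.le (O : OF φ τ τ' ν Φ) : VS.map φ ≤ Φ.range := by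
  rintro _ ⟨a, ha, rfl⟩
  exact ⟨o a.v, by rw [O.v _ ha, o_v]⟩

theorem OF.sq (O : OF φ τ τ' ν Φ) : ∀ u ∈ Φ.range, u * u ∈ VS.map φ := by
  rintro _ ⟨w, rfl⟩
  have h := (by decide +kernel : ∀ w : OG, (w * w).v < 4) w
  refine ⟨o (w * w).v, ?_, by rw [← O.v _ h, o_v, map_mul]⟩
  change (o (w * w).v : NT).v < 4
  rwa [v_o (by omega)]

theorem OF.cen (O : OF φ τ τ' ν Φ) : Φ.range ≤ Cx (φ (o 1)) ⊓ Cx (φ (o 2)) := by
  rintro _ ⟨w, rfl⟩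
  obtain ⟨h1, h2⟩ := (by decide +kernel : ∀ w : OG, w * o 1 = o 1 * w ∧ w * o 2 = o 2 * w) w
  rw [← O.v 1 (by norm_num), ← O.v 2 (by norm_num)]
  exact ⟨mem_Cx.2 (by rw [← map_mul, h1, map_mul]), mem_Cx.2 (by rw [← map_mul, h2, map_mul])⟩

theorem OF.ne [Finite G] (O : OF φ τ τ' ν Φ) : φ (o 32) ∈ normalizer (Φ.range : Set G) :=
  mem_normalizer_fintype (by
    rintro _ ⟨w, rfl⟩
    exact ⟨_, Eq.symm (O.e w)⟩)

end CfsgLib.SM12
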