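import Mathlib
import Cfsg.Agent.Lib.SM12.Defs
import Cfsg.Agent.Lib.Yos.W2

/-! Package TOOL: groups which are elementary abelian over a central subgroup (plans/SM12.md). -/

set_option autoImplicit false
set_option maxRecDepth 100000
set_option synthInstance.maxSize 4096

namespace CfsgLib.SM12

open Subgroup Cfsg CfsgLib.W2 CfsgLib.W2.TG CfsgLib.Tech CfsgLib.CosetEnum CfsgLib.Yos

variable {G : Type*} [Group G] [Finite G] {X Z : Subgroup G} {e : G}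

omit [Finite G] in
theorem Tool.cm (sq : ∀ u ∈ X, u * u ∈ Z) {a b : G} (ha : a ∈ X) (hb : b ∈ X) : a * b * a⁻¹ * b⁻¹ ∈ Z := by
  have := mul_mem (mul_mem (sq a ha) (sq _ (mul_mem (inv_mem ha) hb))) (sq _ (inv_mem hb))
  convert this using 1
  group

theorem exists_KI (he : e * e = 1) (hZ : Z ≤ X) (cZ : ∀ u ∈ X, ∀ v ∈ Z, u * v = v * u)
    (sq : ∀ u ∈ X, u * u ∈ Z) (ne : e ∈ normalizer (X : Set G)) (nZ : e ∈ normalizer (Z : Set G)) :
    ∃ K I : Subgroup G, Z ≤ I ∧ I ≤ K ∧ Nat.card K * Nat.card I = Nat.card X * Nat.card Z ∧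
      (∀ u, u ∈ K ↔ u ∈ X ∧ u * e * u⁻¹ * e ∈ Z) ∧
      (∀ m, m ∈ I ↔ ∃ u ∈ X, ∃ v ∈ Z, m = u * e * u⁻¹ * e * v) ∧
      ((∀ v ∈ Z, e * v = v * e) → ∀ m ∈ I, ∀ k ∈ K, m * k = k * m) := by
  have ei : e⁻¹ = e := inv_eq_of_mul_eq_one_right he
  have fm : ∀ u ∈ X, u * e * u⁻¹ * e ∈ X := fun u hu => by
    have := X.mul_mem hu (conj_mem_of_mem_normalizer ne (X.inv_mem hu))
    rwa [ei, ← mul_assoc, ← mul_assoc] at this
  have hn : (Z.subgroupOf X).Normal := ⟨fun x hx g => by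
    show (g : G) * x * (g : G)⁻¹ ∈ Z
    rwa [cZ g g.2 x hx, mul_inv_cancel_right]⟩
  let f := QuotientGroup.mk' (Z.subgroupOf X)
  have cf : ∀ a b : X, f a * f b = f b * f a := fun a b => by
    rw [← commutatorElement_eq_one_iff_mul_comm, ← map_commutatorElement]
    exact (QuotientGroup.eq_one_iff _).2 (Tool.cm sq a.2 b.2)
  let ψ : X →* X ⧸ Z.subgroupOf X := MonoidHom.mk' (fun u => f ⟨u * e * (u : G)⁻¹ * e, fm u u.2⟩) fun u w => by
    have : (⟨(u * w : X) * e * ((u * w : X) : G)⁻¹ * e, fm _ (u * w).2⟩ : X) =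
        u * ⟨w * e * (w : G)⁻¹ * e, fm w w.2⟩ * u⁻¹ * ⟨u * e * (u : G)⁻¹ * e, fm u u.2⟩ := Subtype.ext (by
      simp only [coe_mul, coe_inv]
      calc _ = u * (w * e * (w : G)⁻¹ * (e * e)) * (u : G)⁻¹ * e := by rw [he]; group
        _ = _ := by group)
    rw [this, map_mul, map_mul, map_mul, cf u, map_inv, mul_inv_cancel_right, cf]
  have hK : ∀ u, u ∈ ψ.ker.map X.subtype ↔ u ∈ X ∧ u * e * u⁻¹ * e ∈ Z := fun u =>
    ⟨fun ⟨x, hx, h⟩ => h ▸ ⟨x.2, (QuotientGroup.eq_one_iff (N := Z.subgroupOf X) _).1 hx⟩,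
      fun ⟨h1, h2⟩ => ⟨⟨u, h1⟩, (QuotientGroup.eq_one_iff _).2 h2, rfl⟩⟩
  have hI : ∀ m, m ∈ (ψ.range.comap f).map X.subtype ↔ ∃ u ∈ X, ∃ v ∈ Z, m = u * e * u⁻¹ * e * v := fun m => by
    constructor
    · rintro ⟨x, ⟨u, hu⟩, rfl⟩
      exact ⟨u, u.2, (u * e * (u : G)⁻¹ * e)⁻¹ * x, (QuotientGroup.eq (s := Z.subgroupOf X)
        (a := ⟨_, fm u u.2⟩) (b := x)).1 hu, (mul_inv_cancel_left _ _).symm⟩
    · rintro ⟨u, hu, v, hv, rfl⟩
      exact ⟨⟨_, mul_mem (fm u hu) (hZ hv)⟩, ⟨⟨u, hu⟩, QuotientGroup.eq.2 (by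
        show (u * e * u⁻¹ * e)⁻¹ * (u * e * u⁻¹ * e * v) ∈ Z
        rwa [inv_mul_cancel_left])⟩, rfl⟩
  refine ⟨_, _, fun v hv => (hI v).2 ⟨1, one_mem _, v, hv, by simp [he]⟩, fun m hm => ?_, ?_, hK, hI,
    fun ce m hm k hk => ?_⟩
  · obtain ⟨u, hu, v, hv, rfl⟩ := (hI m).1 hm
    refine mul_mem ((hK _).2 ⟨fm u hu, ?_⟩) ((hK _).2 ⟨hZ hv, ?_⟩)
    · convert sq _ (fm u hu) using 1
      calc _ = u * e * u⁻¹ * (e * e) * e⁻¹ * u * e⁻¹ * u⁻¹ * e := by group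
        _ = u * e * u⁻¹ * e * u * e * u⁻¹ * e := by rw [he, ei, mul_one]
        _ = _ := by group
    · have := Z.mul_mem hv (conj_mem_of_mem_normalizer nZ (Z.inv_mem hv))
      rwa [ei, ← mul_assoc, ← mul_assoc] at this
  · rw [card_map_of_injective X.subtype_injective, card_map_of_injective X.subtype_injective,
      ← ψ.ker.card_mul_index, index_ker, mul_assoc, ← Nat.card_congr (subgroupOfEquivOfLe hZ).toEquiv, mul_comm (Nat.card ψ.range)]
    exact congrArg _ (QuotientGroup.card_preimage_mk (Z.subgroupOf X) (ψ.range : Set (X ⧸ Z.subgroupOf X)))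
  · obtain ⟨u, hu, v, hv, rfl⟩ := (hI m).1 hm
    obtain ⟨hk, hz⟩ := (hK k).1 hk
    have hu' : e * u * e ∈ X := by simpa only [ei] using conj_mem_of_mem_normalizer ne hu
    have h1 : e * k⁻¹ * e = k⁻¹ * (k * e * k⁻¹ * e) := by group
    have h2 : e * k * e = (k * e * k⁻¹ * e)⁻¹ * k := by
      rw [← inv_inj, mul_inv_rev, mul_inv_rev, ei, ← mul_assoc, h1, mul_inv_rev, inv_inv]
    generalize k * e * k⁻¹ * e = z at hz h1 h2
    have h3 : e * u * e * k * (e * u * e)⁻¹ = u * k * u⁻¹ := by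
      have c := ce _ (Tool.cm sq hu hk)
      have c' : e * u * e * (e * k * e) * (e * u * e)⁻¹ * (e * k⁻¹ * e) = u * k * u⁻¹ * k⁻¹ := by
        calc _ = e * (u * (e * e) * k * u⁻¹ * (e⁻¹ * e) * k⁻¹) * e := by group
          _ = _ := by rw [he, inv_mul_cancel, mul_one, mul_one, c, mul_assoc, he, mul_one]
      rw [h1, h2] at c'
      generalize e * u * e = w at hu' c' ⊢
      refine mul_right_cancel (b := k⁻¹) (Eq.trans ?_ c')
      calc _ = z⁻¹ * (z * (w * k * w⁻¹ * k⁻¹)) := by group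
        _ = z⁻¹ * w * (k * w⁻¹ * k⁻¹ * z) := by
          rw [← cZ _ (mul_mem (mul_mem (mul_mem hu' hk) (inv_mem hu')) (inv_mem hk)) _ hz]; group
        _ = _ := by rw [← cZ _ hu' _ (inv_mem hz)]; group
    have h4 : Commute ((e * u * e)⁻¹ * u) k := by
      calc _ = (e * u * e)⁻¹ * (u * k * u⁻¹) * u := by group
        _ = _ := by rw [← h3]; group
    have h5 : u * e * u⁻¹ * e = u * (e * u * e)⁻¹ * u⁻¹ * (e * u * e)⁻¹⁻¹ * ((e * u * e)⁻¹ * u) := by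
      rw [inv_inv, mul_assoc _ (e * u * e), mul_inv_cancel_left, inv_mul_cancel_right, mul_inv_rev, mul_inv_rev, ei]
      group
    rw [h5]
    exact (Commute.mul_left (Commute.mul_left (cZ k hk _ (Tool.cm sq hu (inv_mem hu'))).symm h4) (cZ k hk v hv).symm).eq

theorem noD (hX : Nat.card X = 1024) (hZ : Nat.card Z = 4) (cZ : ∀ u ∈ X, ∀ v ∈ Z, u * v = v * u)
    (sq : ∀ u ∈ X, u * u ∈ Z) (syl : ¬ 512 ∣ Nat.card (Cx e)) {S : Subgroup G} (hS : IsPGroup 2 S)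
    (hSe : S ≤ Cx e) {a b c : G} (ha : a ∈ S) (hb : b ∈ S) (hc : c ∈ S)
    (h3 : a * b * a⁻¹ * b⁻¹ * c ≠ c * (a * b * a⁻¹ * b⁻¹)) {d : G} (hd : IsConj e d) : d ∉ X := by
  intro hdX
  have := Fact.mk Nat.prime_two
  obtain ⟨g, rfl⟩ := isConj_iff.1 hd
  generalize hd : g * e * g⁻¹ = d at hdX
  let ψ : X →* Z := MonoidHom.mk' (fun u => ⟨u * d * (u : G)⁻¹ * d⁻¹, Tool.cm sq u.2 hdX⟩) fun u w => Subtype.ext (by
    show (u : G) * w * d * ((u : G) * w)⁻¹ * d⁻¹ = u * d * (u : G)⁻¹ * d⁻¹ * (w * d * (w : G)⁻¹ * d⁻¹)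
    calc _ = u * (w * d * (w : G)⁻¹ * d⁻¹) * (d * (u : G)⁻¹ * d⁻¹) := by group
      _ = _ := by
        rw [cZ u u.2 _ (Tool.cm sq w.2 hdX), cZ _ (mul_mem (mul_mem (mul_mem u.2 hdX) (inv_mem u.2)) (inv_mem hdX)) _
          (Tool.cm sq w.2 hdX)]; group)
  have c1 : 256 ≤ Nat.card ψ.ker := by
    have h1 := ψ.ker.card_mul_index
    have h2 : ψ.ker.index ≤ 4 := by rw [index_ker, ← hZ]; exact card_le_card_group _
    rw [hX] at h1
    nlinarith
  have pX : IsPGroup 2 X := IsPGroup.of_card (n := 10) hX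
  have hle : ψ.ker.map X.subtype ≤ Cx d := by
    rintro _ ⟨x, hx, rfl⟩
    exact mem_Cx'.2 (mul_inv_eq_one.1 (congrArg Subtype.val hx))
  obtain ⟨T, hT, hle'⟩ := exists_isSylowIn_ge (pX.to_le (map_subtype_le _)) hle
  obtain ⟨n, hn⟩ := IsPGroup.iff_card.1 hT.pgroup
  have c2 : Nat.card T ≤ 256 := by
    rw [hn]
    refine Nat.pow_le_pow_right two_pos (show n ≤ 8 from by_contra fun h => syl ?_)
    have := card_dvd_of_le hT.le
    rw [← hd, ← cj_Cx, card_cj, hn] at this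
    exact (pow_dvd_pow 2 (show 9 ≤ n by omega)).trans this
  have eT := eq_of_le_of_card_ge hle' (by rw [card_map_of_injective X.subtype_injective]; omega)
  obtain ⟨k, -, hk⟩ := hT.exists_cj_le (isPGroup_cj g hS) (by rw [← hd, ← cj_Cx]; exact cj_mono g hSe)
  rw [← cj_mul, ← eT] at hk
  have m : ∀ x ∈ S, k * g * x * (k * g)⁻¹ ∈ X := fun x hx => map_subtype_le _ (hk (conj_mem_cj.2 hx))
  have := cZ _ (m c hc) _ (Tool.cm sq (m a ha) (m b hb))
  apply h3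
  generalize k * g = y at this
  apply (MulAut.conj y).injective
  simp only [map_mul, map_inv, MulAut.conj_apply]
  exact this.symm

/-- A 2-group which normalises `Z` normalises a subgroup which is unique of its kind. -/
theorem le_norm_of_uniq {T : Subgroup G} (hT : IsPGroup 2 T) (hX : X ≤ T) (he : e ∈ T)
    (ne : e ∈ normalizer (X : Set G)) (h : ∀ g ∈ T, e ∈ normalizer (cj g X : Set G) → cj g X = X) :
    T ≤ normalizer (X : Set G) := by
  have := Fact.mk Nat.prime_two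
  by_contra hh
  obtain ⟨g, hg, h1, h2⟩ := exists_mem_normalizer_of_lt hT (Q := T ⊓ normalizer (X : Set G))
    (lt_of_le_of_ne inf_le_left fun e => hh (inf_eq_left.1 e))
  refine h1 ⟨hg, mem_normalizer_iff_cj.2 (h g hg ?_)⟩
  rw [← cj_normalizer, mem_cj]
  exact (conj_mem_of_mem_normalizer' h2 ⟨he, ne⟩).2

end CfsgLib.SM12
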