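import Mathlib
import Cfsg.Agent.Lib.SM12.SUb
import Cfsg.Agent.Lib.SM12.SUc
import Cfsg.Agent.Lib.SM12.Tool

/-! Package SUD: uniqueness of `O` (plans/SM12.md). -/

set_option autoImplicit false
set_option maxRecDepth 100000
set_option synthInstance.maxSize 4096

namespace CfsgLib.SM12

open Subgroup Cfsg CfsgLib.W2 CfsgLib.W2.TG CfsgLib.Tech CfsgLib.CosetEnum CfsgLib.Yos

namespace SUd

/-- The group `J`. -/
noncomputable def JS : Subgroup NT := subG InJS [o 4, o 8, o 32, o 64, o 128, o 512, o 3072] 3 (by decide +kernel)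

/-- The cosets of `V` whose elements `m` have `m e` conjugate to `e`. -/
def XL : List ℕ := [0, 1, 24, 25, 128, 131, 152, 155, 161, 163, 185, 187, 768, 770, 792, 794, 800, 803, 824, 827,
  930, 931, 954, 955]

/-- The cosets of `V` in `O₀`. -/
def OL : List ℕ := [0, 1, 2, 3, 24, 25, 26, 27, 32, 33, 34, 35, 56, 57, 58, 59, 128, 129, 130, 131, 152, 153, 154,
  155, 160, 161, 162, 163, 184, 185, 186, 187, 768, 769, 770, 771, 792, 793, 794, 795, 800, 801, 802, 803, 824, 825,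
  826, 827, 896, 897, 898, 899, 920, 921, 922, 923, 928, 929, 930, 931, 952, 953, 954, 955]

/-- The number of cosets from `l` which commute with `m`. -/
noncomputable def nc (l : List ℕ) (m : NT) : ℕ := (l.filter fun i => o (4 * i) * m = m * o (4 * i)).length

theorem fJ : ∀ a : NT, InJS a → a = o (4 * (a.v / 4)) * o (a.v % 4) ∧ (∀ k < 4, o k * a = a * o k) ∧
    (a * a).v < 4 ∧ (InO a ∨ InO (o 32 * a)) ∧ (InO a → a.v / 4 ∈ OL) ∧
    (a * a = 1 → InO a ∨ InD a ∨ a.v / 4 ∈ [10, 18, 937, 945]) ∧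
    (InD a → UT 4 fun w => (a * o 32 * w).v / 4 ∈ XL) ∧ InJS (tauS 2 a) ∧ tauS 1 (tauS 2 a) = tauS 3 a ∧
    LA [1, 2, 3] fun k => InJS (a * tauS k a) ∧ ((a * tauS k a).v < 4 → InO a) := by decide +kernel

theorem fX : ∀ a : NT, InJS a → (¬ InO a → nc XL a ≤ 6) ∧ (a.v / 4 ∈ XL → a.v < 4 ∨ (nc XL a ≤ 12 ∧ nc OL a ≤ 16) ∨
    LE [1, 2, 3] fun k => LE [0, 1, 2, 3] fun w => InJS (o 32 * o w) ∧ tauS k (o 32 * o w) = a * o 32) := by
  decide +kernel

theorem fO : spB InO (o 1 :: o 2 :: [37, 556, 547, 718, 679, 3146].map fun d => o 32 * o d) 3 = true ∧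
    (LA [37, 556, 547, 718, 679, 3146] fun d => InJS (o d) ∧ InD (o d)) ∧ InD (o 32) ∧ InJS (o 32) ∧
    cnt InJS = 512 ∧ cnt (fun a : NT => a.v < 4) = 4 ∧ (o 32 : NT) * o 32 = 1 ∧ InO 1 ∧
    (UT 4 fun w : NT => InJS w ∧ w * w = 1 ∧ w * o 32 = o 32 * w) ∧
    (LA [4, 512, 16] fun k => (o k : NT).v % 3072 < 1024 ∧ (o k : NT).v % 512 < 64) ∧
    (o 4 : NT) * o 512 * (o 4)⁻¹ * (o 512)⁻¹ * o 16 ≠ o 16 * (o 4 * o 512 * (o 4)⁻¹ * (o 512)⁻¹) := by decide +kernel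

theorem card_le_nc {F : Subgroup NT} {l : List ℕ} {m : NT} (hm : InJS m)
    (h : ∀ x ∈ F, InJS x ∧ x.v / 4 ∈ l ∧ x * m = m * x) : Nat.card F ≤ nc l m * 4 := by
  classical
  let s := (l.filter fun i => o (4 * i) * m = m * o (4 * i)).toFinset ×ˢ Finset.range 4
  refine (Nat.card_le_card_of_injective (β := s) (fun x => ⟨(x.1.v / 4, x.1.v % 4), ?_⟩) fun x y e => ?_).trans ?_
  · obtain ⟨h1, h2, h3⟩ := h _ x.2
    refine Finset.mem_product.2 ⟨List.mem_toFinset.2 (List.mem_filter.2 ⟨h2, decide_eq_true ?_⟩),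
      Finset.mem_range.2 (Nat.mod_lt _ (by decide))⟩
    rw [(fJ _ h1).1, mul_assoc, (fJ _ hm).2.1 _ (Nat.mod_lt _ (by decide)), ← mul_assoc, ← mul_assoc] at h3
    exact mul_right_cancel h3
  · have := Prod.ext_iff.1 (congrArg Subtype.val e)
    exact Subtype.ext (ext' (by dsimp only at this; omega))
  · rw [Nat.card_eq_finsetCard, Finset.card_product, Finset.card_range]
    exact Nat.mul_le_mul_right _ (List.toFinset_card_le _)

end SUd

open SUd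

variable {G : Type*} [Group G] {σ τ τ' : G} {φ : NT →* G} {Y : Subgroup G} {δ ν : ℕ} {Φ : OG →* G}

theorem cenVS {X : Subgroup G} (h1 : X ≤ Cx (φ (o 1))) (h2 : X ≤ Cx (φ (o 2))) :
    ∀ u ∈ X, ∀ a ∈ VS.map φ, u * a = a * u := by
  rintro u hu _ ⟨a, ha, rfl⟩
  exact (mem_Cx.1 (subG_le (S := (Cx u).comap φ) (by
    simp only [List.forall_mem_cons]; exact ⟨Cx_comm.1 (h1 hu), Cx_comm.1 (h2 hu), by simp⟩) ha)).symm

theorem two_of_sqV {u : G} (h : u * u ∈ VS.map φ) : Two u := by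
  obtain ⟨v, hv, e⟩ := h
  exact ⟨2, by rw [show 2 ^ 2 = 2 * 2 from rfl, pow_mul, sq u, ← e, sq, ← map_mul,
    (fO.2.2.2.2.2.2.2.2.1 v hv).2.1, map_one]⟩

/-- A group like `O` contains no conjugate of `e`. -/
theorem GS.noD [Finite G] (C : GS φ σ Y δ) (U : Fu φ) {X : Subgroup G} (hc : Nat.card X = 1024)
    (h1 : X ≤ Cx (φ (o 1))) (h2 : X ≤ Cx (φ (o 2))) (sq : ∀ u ∈ X, u * u ∈ VS.map φ) {d : G}
    (hd : IsConj (φ (o 32)) d) : d ∉ X := by
  obtain ⟨-, -, -, -, -, c4, -, -, -, k1, k2⟩ := fO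
  refine SM12.noD hc (by rw [card_map_of_injective C.inj, VS, card_subG, c4]) (cenVS h1 h2) sq U.syl
    (C.sylS U).pgroup (C.sylS U).le (mem_map_of_mem φ (k1 4 (by simp))) (mem_map_of_mem φ (k1 512 (by simp)))
    (mem_map_of_mem φ (k1 16 (by simp))) (fun h => k2 (C.inj ?_)) hd
  simpa only [map_mul, map_inv] using h

theorem OF.exists_t (T : Tau φ Y τ τ' ν) (O : OF φ τ τ' ν Φ) : ∀ k ∈ [1, 2, 3], ∃ t ∈ Φ.range,
    (∀ a, InJS a → W2.Rel φ t a (tauS k a)) ∧ ∀ y ∈ Y, t * y = y * t := by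
  have t1 : τ ∈ Φ.range := (O.mem _).2 ⟨1, fO.2.2.2.2.2.2.2.1, 1, by decide, 0, by decide, by simp⟩
  have t2 : τ' ∈ Φ.range := (O.mem _).2 ⟨1, fO.2.2.2.2.2.2.2.1, 0, by decide, 1, by decide, by simp⟩
  simp only [List.forall_mem_cons]
  refine ⟨⟨τ, t1, T.r1, T.y1⟩, ⟨τ', t2, T.r2, T.y2⟩, ⟨τ * τ', mul_mem t1 t2, fun a ha => ?_, fun y hy => ?_⟩, by simp⟩
  · obtain ⟨-, -, -, -, -, -, -, k1, k2, -⟩ := fJ a ha
    exact ((T.r1 _ k1).comp (T.r2 a ha)).of_eq rfl k2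
  · rw [mul_assoc, T.y2 y hy, ← mul_assoc, T.y1 y hy, mul_assoc]

theorem GS.uniqO [Finite G] (C : GS φ σ Y 0) (U : Fu φ) (T : Tau φ Y τ τ' ν) (O : OF φ τ τ' ν Φ)
    {X : Subgroup G} (hc : Nat.card X = 1024) (hV : VS.map φ ≤ X) (h1 : X ≤ Cx (φ (o 1)))
    (h2 : X ≤ Cx (φ (o 2))) (sq : ∀ u ∈ X, u * u ∈ VS.map φ) (he : φ (o 32) ∈ normalizer (X : Set G)) :
    X = Φ.range := by
  obtain ⟨g0, g1, d32, j32, cJ, c4, e2, -, fV, -⟩ := fO
  have ee : φ (o 32) * φ (o 32) = 1 := by rw [← map_mul, e2, map_one]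
  have eV : ∀ v ∈ VS.map φ, φ (o 32) * v = v * φ (o 32) := by
    rintro _ ⟨v, hv, rfl⟩
    rw [← map_mul, ← (fV v hv).2.2, map_mul]
  obtain ⟨K, I, vI, IK, cK, mK, mI, cI⟩ := exists_KI ee hV (cenVS h1 h2) sq he (mem_normalizer_of_forall
    fun v hv => by rwa [eV v hv, mul_inv_cancel_right])
  replace cI := cI eV
  rw [hc, card_map_of_injective C.inj, VS, card_subG, c4] at cK
  have oO : ∀ j, InO j → φ j ∈ Φ.range := fun j hj => (O.mem _).2 ⟨j, hj, 0, by decide, 0, by decide, by simp⟩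
  have tJ : ∀ j, InJS j → Two (φ j) := fun j hj => two_of_sqV (φ := φ) ⟨_, (fJ j hj).2.2.1, map_mul φ j j⟩
  have re : ∀ {u : G} {a : NT}, u * φ (o 32) * u⁻¹ * φ (o 32) = φ a → W2.Rel φ u (o 32) (a * o 32) :=
    fun h => by rw [W2.Rel, map_mul, ← h, mul_assoc _ (φ (o 32)) (φ (o 32)), ee, mul_one]
  have kJ : ∀ u ∈ K, ∃ j, InJS j ∧ φ j = u := fun u hu => by
    obtain ⟨hX, v, hv, e⟩ := (mK u).1 hu
    obtain ⟨y, hy, j, hj, rfl⟩ := C.memJ (h1 hX) (h2 hX) hv ((re e.symm).of_eq rfl (fV v hv).2.2)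
    exact ⟨j, hj, by rw [eq_one_of_mul C.odd hy (C.cY j y hy) (tJ j hj) (two_of_sqV (sq _ hX)), one_mul]⟩
  have kJ' : ∀ a, φ a ∈ K → InJS a := fun a ha => by
    obtain ⟨j, hj, e⟩ := kJ _ ha
    exact C.inj e ▸ hj
  have kD : ∀ a, InD a → φ a ∉ K := fun a ha h => C.noD U hc h1 h2 sq (C.labD a ha) ((mK _).1 h).1
  have cc : ∀ F ≤ K, Nat.card (F.comap φ) = Nat.card F := fun F hF => by
    rw [← card_map_of_injective C.inj, map_comap_eq_self fun u hu => (kJ u (hF hu)).imp fun _ => And.right]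
  have iX : ∀ a, φ a ∈ I → a.v / 4 ∈ XL := fun a ha => by
    obtain ⟨u, -, _, ⟨w, hw, rfl⟩, e⟩ := (mI _).1 ha
    have h3 : a * w⁻¹ * o 32 ∈ JS := mul_mem (mul_mem (kJ' a (IK ha)) (JS.inv_mem (fV w hw).1)) j32
    have h4 : W2.Rel φ u (o 32) (a * w⁻¹ * o 32) := re (by rw [map_mul, e, map_inv, mul_inv_cancel_right])
    obtain ⟨-, -, -, -, -, k1, k2, -⟩ := fJ _ h3
    have := k2 (((k1 ((h4.mul h4).uniq C.inj Rel.one e2)).resolve_left fun k => C.noD U O.card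
      (O.cen.trans inf_le_left) (O.cen.trans inf_le_right) O.sq h4.isConj (oO _ k)).resolve_right
        fun k => C.eaD U T _ k h4.isConj) w hw
    rwa [mul_assoc _ (o 32), e2, mul_one, inv_mul_cancel_right] at this
  have cX : ∀ a, φ a ∈ K → Nat.card I ≤ nc XL a * 4 := fun a ha => cc I IK ▸ card_le_nc (kJ' a ha) fun x hx =>
    ⟨kJ' x (IK hx), iX x hx, C.inj (by rw [map_mul, map_mul, cI _ hx _ ha])⟩
  have kO : ∀ a, φ a ∈ K → InO a := fun a ha => by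
    by_contra hn
    have h3 := (cX a ha).trans (Nat.mul_le_mul_right 4 ((fX a (kJ' a ha)).1 hn))
    have h4 := card_mul_relIndex' (H := K.comap φ) (K := JS) kJ'
    rw [cc K le_rfl, JS, card_subG, cJ, ← JS] at h4
    have h5 : (K.comap φ).relIndex JS ≠ 1 := fun h => kD _ d32 (relIndex_eq_one.1 h j32)
    have h6 : (K.comap φ).relIndex JS = 2 := by
      generalize (K.comap φ).relIndex JS = r at h4 h5
      have : 170 < Nat.card K := by nlinarith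
      have : r < 4 := by nlinarith
      interval_cases r <;> omega
    have h7 : ∀ j, InO j → φ j ∈ K := fun j hj => map_mem_of_sp φ (by
      rw [List.forall_mem_cons, List.forall_mem_cons, List.forall_mem_map]
      refine ⟨IK (vI (mem_map_of_mem φ ?_)), IK (vI (mem_map_of_mem φ ?_)), fun d hd => ?_⟩
      · exact (by decide +kernel : (o 1 : NT).v < 4)
      · exact (by decide +kernel : (o 2 : NT).v < 4)
      · exact (mul_mem_iff_of_index_two h6 (a := ⟨o 32, j32⟩) (b := ⟨o d, (g1 d hd).1⟩)).2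
          (iff_of_false (kD _ d32) (kD _ (g1 d hd).2))) (bit_of_spB g0 hj)
    have := h7 _ ((fJ a (kJ' a ha)).2.2.2.1.resolve_left hn)
    rw [map_mul] at this
    exact kD _ d32 ((mul_mem_cancel_right ha).1 this)
  refine eq_of_le_of_card_ge (fun u hu => ?_) (by rw [hc, O.card])
  obtain ⟨a, ha, e⟩ := kJ _ (IK ((mI _).2 ⟨u, hu, 1, one_mem _, (mul_one _).symm⟩))
  have aI : φ a ∈ I := (mI _).2 ⟨u, hu, 1, one_mem _, e.trans (mul_one _).symm⟩
  rcases (fX a ha).2 (iX a aI) with h | ⟨h3, h4⟩ | ⟨k, hk, w, hw, h3, h4⟩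
  · have h3 := (mK u).2 ⟨hu, a, h, e⟩
    obtain ⟨j, -, rfl⟩ := kJ u h3
    exact oO j (kO j h3)
  · have h5 := (cX a (IK aI)).trans (Nat.mul_le_mul_right 4 h3)
    have h6 : Nat.card K ≤ nc OL a * 4 := cc K le_rfl ▸ card_le_nc ha fun x hx =>
      ⟨kJ' x hx, (fJ x (kJ' x hx)).2.2.2.2.1 (kO x hx), C.inj (by rw [map_mul, map_mul, cI _ aI _ hx])⟩
    have := Nat.mul_le_mul (h6.trans (Nat.mul_le_mul_right 4 h4)) h5
    omega
  obtain ⟨t, ht, rt, ty⟩ := O.exists_t T k hk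
  have tc := O.cen ht
  obtain ⟨y, hy, j, hj, h5⟩ := C.memJ (mul_mem (inv_mem tc.1) (h1 hu)) (mul_mem (inv_mem tc.2) (h2 hu))
    ((by decide +kernel : LA [0, 1, 2, 3] fun w => (o w : NT).v < 4) w hw)
    (((rt _ h3).of_eq rfl h4).symm.comp (re e.symm))
  have h6 : t⁻¹ * u * t = y * (φ j * t) := by rw [h5, mul_assoc]
  have h7 : φ j * t * (φ j * t) = φ (j * tauS k j) * (t * t) := by rw [map_mul, ← rt j hj]; group
  obtain ⟨tj, tO⟩ := (fJ j hj).2.2.2.2.2.2.2.2.2 k hk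
  obtain ⟨v, hv, h8⟩ := O.sq t ht
  have h9 : y = 1 := eq_one_of_mul C.odd hy (by rw [mul_assoc, ty y hy, ← mul_assoc, C.cY j y hy, mul_assoc])
    (u := φ j * t) (by
      obtain ⟨n, hn⟩ := tJ _ (JS.mul_mem tj (fV v hv).1)
      exact ⟨n + 1, by rw [pow_succ', pow_mul, pow_two, h7, ← h8, ← map_mul, hn]⟩)
    (h6 ▸ by simpa using (two_of_sqV (sq u hu)).conj t⁻¹)
  rw [h9, one_mul] at h5 h6
  have h10 : φ (j * tauS k j) ∈ VS.map φ := by
    have h := sq u hu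
    rw [← mul_mem_cancel_right (O.sq t ht), ← h7, ← h6, show t⁻¹ * u * t * (t⁻¹ * u * t) = t⁻¹ * (u * u) * t by group,
      mul_assoc, ← cenVS (O.cen.trans inf_le_left) (O.cen.trans inf_le_right) t ht _ h, inv_mul_cancel_left]
    exact h
  rw [← mul_mem_cancel_left (inv_mem ht), h5]
  exact oO j (tO ((mem_map_iff_mem C.inj).1 h10))

end CfsgLib.SM12
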