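import Mathlib
import Cfsg.Agent.Lib.SM12.Defs

/-! Package SUE: a subgroup of index two in `N(O)` (plans/SM12.md). -/

set_option autoImplicit false
set_option maxRecDepth 100000
set_option synthInstance.maxSize 4096

namespace CfsgLib.SM12

open Subgroup Cfsg CfsgLib.W2 CfsgLib.W2.TG CfsgLib.Tech CfsgLib.CosetEnum CfsgLib.Yos

namespace SUe

/-- Generators of the ten subgroups. -/
def gE (i : ℕ) : List ℕ := [[1, 2, 4, 8, 16, 32], [1, 2, 64, 128, 256, 512], [1, 2, 80, 160, 260, 520],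
  [1, 2, 96, 176, 264, 524], [1, 2, 112, 144, 268, 516], [1, 2, 4, 8, 256, 512], [1, 2, 16, 32, 64, 128],
  [1, 2, 20, 40, 320, 640], [1, 2, 24, 44, 448, 576], [1, 2, 28, 36, 384, 704]].getD i []

theorem eB_ok : ∀ i < 10, (spB (fun u : OG => eB i u = true) ((gE i).map o) 2 = true ∧ eB i 1 = true ∧
    ∀ a : OG, eB i a = true → LA ((gE i).map o) fun g => eB i (a * g) = true) ∧
    cnt (fun u : OG => eB i u = true) = 64 ∧ ∀ a : OG, eB i a = true → a * a = 1 := by decide +kernel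

theorem eB_cnt : ∀ i < 10, ∀ j < 10,
    (cnt (fun u : OG => eB i u = true ∧ eB j u = true) = 16 ↔ ¬ (i < 5 ↔ j < 5)) := by decide +kernel

theorem eB_red : ∀ x : OG, (x * o (x.v % 4)).v % 4 = 0 ∧ ((x * o (x.v % 4)).v = 0 → x.v < 4) ∧
    ∀ i < 10, eB i (x * o (x.v % 4)) = eB i x := by decide +kernel

theorem cenV : ∀ k < 4, (o k : OG) * o k = 1 ∧ ∀ x : OG, o k * x = x * o k := by decide +kernel

theorem eB_cov : ∀ u : OG, u.v % 4 = 0 → u * u = 1 → u.v = 0 ∨ ∃ a < 10, eB a u = true ∧ ∃ b < 10, a < b ∧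
    eB b u = true ∧ ∀ x : OG, x.v % 4 = 0 → x * x = 1 → x * u = u * x → eB a x = true ∨ eB b x = true := by
  decide +kernel

theorem eB_e : ∀ ν < 2, ∃ j < 10, 5 ≤ j ∧ ∀ u, eB j (eO ν u) = eB 0 u := by decide +kernel

/-- The elementary abelian subgroups of order 64. -/
noncomputable def EB (i : ℕ) (hi : i < 10) : Subgroup OG := subG _ _ _ (eB_ok i hi).1

theorem mem_EB {i : ℕ} {hi : i < 10} {u : OG} : u ∈ EB i hi ↔ eB i u = true := Iff.rfl

theorem card_EB {i : ℕ} (hi : i < 10) : Nat.card (EB i hi) = 64 := card_subG.trans (eB_ok i hi).2.1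

theorem eq_EB {F : Subgroup OG} (hc : Nat.card F = 64) (sq : ∀ u ∈ F, u * u = 1) : ∃ j, ∃ hj, F = EB j hj := by
  obtain ⟨u, hu, h4⟩ : ∃ u ∈ F, ¬ u.v < 4 := by
    by_contra! h
    have := card_le_cnt F (fun u => u.v < 4) h
    rw [hc] at this
    revert this; decide +kernel
  have r1 : ∀ x y : OG, x * o (x.v % 4) * (y * o (y.v % 4)) = x * y * (o (x.v % 4) * o (y.v % 4)) := fun x y => by
    rw [mul_assoc, ← mul_assoc (o _), (cenV _ (Nat.mod_lt _ (by decide))).2]; group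
  have r2 : ∀ x ∈ F, x * o (x.v % 4) * (x * o (x.v % 4)) = 1 := fun x hx => by
    rw [r1, sq x hx, (cenV _ (Nat.mod_lt _ (by decide))).1, one_mul]
  obtain ⟨a, ha, -, b, hb, -, -, h⟩ := (eB_cov _ (eB_red u).1 (r2 u hu)).resolve_left
    fun e => h4 ((eB_red u).2.1 e)
  have h' : ∀ x ∈ F, x ∈ EB a ha ∨ x ∈ EB b hb := fun x hx => by
    rw [mem_EB, mem_EB, ← (eB_red x).2.2 a ha, ← (eB_red x).2.2 b hb]
    exact h _ (eB_red x).1 (r2 x hx) (by
      rw [r1, r1, comm_of_sqW sq hx hu, (cenV _ (Nat.mod_lt _ (by decide))).2])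
  by_cases h1 : F ≤ EB a ha
  · exact ⟨a, ha, eq_of_le_of_card_ge h1 (by rw [hc, card_EB])⟩
  obtain ⟨x, hx, hxa⟩ := SetLike.not_le_iff_exists.1 h1
  refine ⟨b, hb, eq_of_le_of_card_ge (fun y hy => (h' y hy).elim (fun hya => ?_) id) (by rw [hc, card_EB])⟩
  exact (mul_mem_cancel_left ((h' x hx).resolve_left hxa)).1
    ((h' _ (mul_mem hx hy)).resolve_left fun k => hxa ((mul_mem_cancel_right hya).1 k))

/-- `α` maps `E_i` to `E_j`. -/
def PE (α : MulAut OG) (i j : ℕ) : Prop := j < 10 ∧ ∀ u, eB j (α u) = eB i u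

theorem exists_PE (α : MulAut OG) {i : ℕ} (hi : i < 10) : ∃ j, PE α i j := by
  obtain ⟨j, hj, h⟩ := eq_EB (F := (EB i hi).map α.toMonoidHom)
    (by rw [card_map_of_injective α.injective, card_EB]) (by
      rintro _ ⟨u, hu, rfl⟩
      rw [← map_mul, (eB_ok i hi).2.2 u hu, map_one])
  refine ⟨j, hj, fun u => Bool.eq_iff_iff.2 ?_⟩
  rw [← mem_EB (hi := hj), ← h, ← mem_EB (hi := hi)]
  exact mem_map_iff_mem (f := α.toMonoidHom) α.injective

theorem PE.fam {α : MulAut OG} {i j k l : ℕ} (hi : i < 10) (hk : k < 10) (h : PE α i j) (h' : PE α k l) :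
    (i < 5 ↔ k < 5) ↔ (j < 5 ↔ l < 5) := by
  have h1 := eB_cnt i hi k hk
  have h2 := eB_cnt j h.1 l h'.1
  rw [← card_subtype] at h1 h2
  rw [← Nat.card_congr (α.toEquiv.subtypeEquiv (p := fun u => eB i u = true ∧ eB k u = true) fun u => by
    rw [← h.2, ← h'.2]; rfl)] at h2
  tauto

theorem PE.mul {α β : MulAut OG} {i j k : ℕ} (h : PE α j k) (h' : PE β i j) : PE (α * β) i k :=
  ⟨h.1, fun u => (h.2 _).trans (h'.2 u)⟩

theorem fam_mul {α β : MulAut OG} {j k l : ℕ} (h : PE α 0 j) (h' : PE β 0 k) (h2 : PE (α * β) 0 l) :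
    l < 5 ↔ (j < 5 ↔ k < 5) := by
  obtain ⟨m, hm⟩ := exists_PE α h'.1
  have h3 := PE.fam (by decide) h'.1 h hm
  have h4 := PE.fam (by decide) (by decide) h2 (hm.mul h')
  omega

/-- The automorphisms which fix the two families. -/
def A0 : Subgroup (MulAut OG) where
  carrier := {α | ∀ j, PE α 0 j → j < 5}
  one_mem' j h := by
    have := PE.fam (by decide) (by decide) h (⟨by decide, fun _ => rfl⟩ : PE 1 0 0)
    omega
  mul_mem' {α β} ha hb l h := by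
    obtain ⟨j, hj⟩ := exists_PE α (i := 0) (by decide)
    obtain ⟨k, hk⟩ := exists_PE β (i := 0) (by decide)
    exact (fam_mul hj hk h).2 (iff_of_true (ha j hj) (hb k hk))
  inv_mem' {α} ha k hk := by
    obtain ⟨j, hj⟩ := exists_PE α (i := 0) (by decide)
    exact ((fam_mul hj hk (l := 0) ⟨by decide, fun u => by rw [mul_inv_cancel]; rfl⟩).1 (by decide)).1 (ha j hj)

end SUe

open SUe

variable {G : Type*} [Group G] {σ τ τ' : G} {φ : NT →* G} {Y : Subgroup G} {δ ν : ℕ} {Φ : OG →* G}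

theorem exists_half [Finite G] (hΦ : Function.Injective Φ) (hν : ν < 2) {e : G}
    (he : ∀ u, W2.Rel Φ e u (eO ν u)) : ∃ H : Subgroup G, H ≤ normalizer (Φ.range : Set G) ∧ e ∉ H ∧
      ∀ g ∈ normalizer (Φ.range : Set G), g ∈ H ∨ g * e ∈ H := by
  obtain ⟨ρ, hρ⟩ : ∃ ρ : normalizer (Φ.range : Set G) →* MulAut OG, ∀ g u, W2.Rel Φ g.1 u (ρ g u) :=
    ⟨(MulAut.congr (MonoidHom.ofInjective hΦ)).symm.toMonoidHom.comp Φ.range.normalizerMonoidHom, fun g u =>
      (congrArg Subtype.val ((MonoidHom.ofInjective hΦ).apply_symm_apply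
        (Φ.range.normalizerMonoidHom g (MonoidHom.ofInjective hΦ u)))).symm⟩
  have hN : e ∈ normalizer (Φ.range : Set G) := mem_normalizer_of_forall (by
    rintro _ ⟨u, rfl⟩
    exact ⟨_, Eq.symm (he u)⟩)
  obtain ⟨j, hj, h5, h⟩ := eB_e ν hν
  have h1 : PE (ρ ⟨e, hN⟩) 0 j := ⟨hj, fun u => by rw [(hρ ⟨e, hN⟩ u).uniq hΦ (he u) rfl, h]⟩
  refine ⟨(A0.comap ρ).map (Subgroup.subtype _), map_subtype_le _, ?_, fun g hg => ?_⟩
  · rintro ⟨x, hx, rfl⟩
    exact absurd (hx j h1) (by omega)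
  · obtain ⟨k, hk⟩ := exists_PE (ρ ⟨g, hg⟩) (i := 0) (by decide)
    by_cases h2 : k < 5
    · exact .inl ⟨⟨g, hg⟩, fun l hl => by have := PE.fam (by decide) (by decide) hk hl; omega, rfl⟩
    · exact .inr ⟨⟨g, hg⟩ * ⟨e, hN⟩, fun l hl => by
        have := fam_mul hk h1 (map_mul ρ _ _ ▸ hl); omega, rfl⟩

end CfsgLib.SM12
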