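import Mathlib
import Cfsg.Agent.Lib.SM12.SUd
import Cfsg.Agent.Lib.SM12.SUe

/-! Package SUF: the case of `Aut Suz` is impossible (plans/SM12.md). -/

set_option autoImplicit false
set_option maxRecDepth 100000
set_option synthInstance.maxSize 4096

namespace CfsgLib.SM12

open Subgroup Cfsg CfsgLib.W2 CfsgLib.W2.TG CfsgLib.Tech CfsgLib.CosetEnum CfsgLib.Yos

variable {G : Type*} [Group G] {σ τ τ' : G} {φ : NT →* G} {Y : Subgroup G} {δ ν : ℕ} {Φ : OG →* G}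

namespace SUF

noncomputable def Z0 : Subgroup NT := subG (fun a => a.v < 2) [o 1] 1 (by decide +kernel)

theorem ee : φ (o 32) * φ (o 32) = 1 := by
  rw [← map_mul, (by decide +kernel : (o 32 : NT) * o 32 = 1), map_one]

theorem zz : φ (o 1) * φ (o 1) = 1 := by
  rw [← map_mul, (by decide +kernel : (o 1 : NT) * o 1 = 1), map_one]

theorem mS (j : ℕ) (hj : j ∈ [1, 4, 8, 16, 32, 512, 3072]) : (o j : NT) ∈ SS :=
  (by decide +kernel : LA [1, 4, 8, 16, 32, 512, 3072] fun j =>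
    (o j : NT).v % 3072 < 1024 ∧ (o j : NT).v % 512 < 64) j hj

/-- The 2-elements which centralise `SS` modulo `z`. -/
theorem second (C : GS φ σ Y 0) {w : G} (hz : w ∈ Cx (φ (o 1))) (h2 : Two w)
    (h : ∀ a ∈ SS, φ a * w * (φ a)⁻¹ = w ∨ φ a * w * (φ a)⁻¹ = w * φ (o 1)) :
    ∃ n : NT, n.v < 128 ∧ n.v % 32 < 4 ∧ w = φ n := by
  obtain ⟨y, hy, n, hn, rfl⟩ := C.normE hz ((h _ (mS 32 (by simp))).imp
    (fun e => Rel.of_comm (mul_inv_eq_iff_eq_mul.1 e).symm) fun e => by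
      rw [W2.Rel, ← (by decide +kernel : (o 1 : NT) * o 32 = o 33), map_mul, mul_inv_eq_iff_eq_mul, mul_assoc,
        mul_inv_eq_iff_eq_mul.1 e, ← mul_assoc, ← mul_assoc, ← mem_Cx.1 hz, mul_assoc w, zz, mul_one])
  have H : ∀ n : NT, n.v % 512 < 128 → LA [4, 8, 16, 512, 3072] (fun j => o j * n * (o j)⁻¹ = n ∨
      o j * n * (o j)⁻¹ = n * o 1) → n.v < 128 ∧ n.v % 32 < 4 ∧ n * n * (n * n) = 1 := by decide +kernel
  have e : ∀ a, φ a * (y * φ n) * (φ a)⁻¹ = y * φ (a * n * a⁻¹) := fun a => by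
    rw [← mul_assoc, C.cY a y hy, map_mul, map_mul, map_inv]
    group
  obtain ⟨h3, h4, h5⟩ := H n hn fun j hj => (h _ (mS j (by simp only [List.mem_cons] at hj ⊢; tauto))).imp
    (fun h => C.inj (mul_left_cancel ((e _).symm.trans h)))
    fun h => C.inj (mul_left_cancel (((e _).symm.trans h).trans (by rw [map_mul, mul_assoc])))
  refine ⟨n, h3, h4, ?_⟩
  rw [eq_one_of_mul C.odd hy (C.cY n y hy) ⟨2, by
    rw [show 2 ^ 2 = 2 * 2 from rfl, pow_mul, sq, sq, ← map_mul, ← map_mul, h5, map_one]⟩ h2, one_mul]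

/-- The 2-elements which centralise `SS`. -/
theorem first (C : GS φ σ Y 0) {w : G} (h2 : Two w) (h : ∀ a ∈ SS, φ a * w * (φ a)⁻¹ = w) :
    w = 1 ∨ w = φ (o 1) ∨ w = φ (o 32) ∨ w = φ (o 33) := by
  obtain ⟨n, h3, h4, rfl⟩ := second C (Cx_comm.1 (mem_Cx'.2 (h _ (mS 1 (by simp))))) h2 fun a ha => Or.inl (h a ha)
  have H : UT 128 fun n : NT => n.v % 32 < 4 → LA [16, 32] (fun j => o j * n * (o j)⁻¹ = n) →
      n = 1 ∨ n = o 1 ∨ n = o 32 ∨ n = o 33 := by decide +kernel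
  rcases H n h3 h4 fun j hj => C.inj (by
    rw [map_mul, map_mul, map_inv, h _ (mS j (by simp only [List.mem_cons] at hj ⊢; tauto))]) with e | e | e | e <;>
    simp [e]

variable [Finite G]

theorem nV {g : G} (hz : W2.Rel φ g (o 1) (o 1)) {n m : NT} (hn : n = o 2 ∨ n = o 3) (hm : m.v < 4)
    (h : W2.Rel φ g n m) : g ∈ normalizer (VS.map φ : Set G) := by
  refine mem_normalizer_of_forall ?_
  rintro _ ⟨a, ha, rfl⟩
  have H : UT 4 fun a : NT => (a * o 1).v < 4 ∧ LA [2, 3] fun j => a = 1 ∨ a = o 1 ∨ a = o j ∨ a = o j * o 1 := by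
    decide +kernel
  have : a = 1 ∨ a = o 1 ∨ a = n ∨ a = n * o 1 := by
    rcases hn with rfl | rfl
    exacts [(H a ha).2 2 (by simp), (H a ha).2 3 (by simp)]
  rcases this with rfl | rfl | rfl | rfl
  exacts [by simp, ⟨_, ha, Eq.symm hz⟩, ⟨m, hm, Eq.symm h⟩, ⟨_, (H m hm).1, Eq.symm (h.mul hz)⟩]

omit [Finite G] in
theorem actV (hφ : Function.Injective φ) {g : G} (hz : g ∈ Cx (φ (o 1))) (hV : g ∈ normalizer (VS.map φ : Set G)) :
    W2.Rel φ g (o 2) (o 2) ∨ W2.Rel φ g (o 2) (o 2 * o 1) := by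
  obtain ⟨a, ha, e⟩ := conj_mem_of_mem_normalizer hV (mem_map_of_mem φ (by decide +kernel : (o 2 : NT).v < 4))
  have e' : W2.Rel φ g (o 2) a := e.symm
  rcases (by decide +kernel : UT 4 fun a : NT => a = 1 ∨ a = o 1 ∨ a = o 2 ∨ a = o 2 * o 1) a ha with
    rfl | rfl | rfl | rfl
  exacts [absurd (e'.uniq' hφ Rel.one rfl) (by decide +kernel),
    absurd (e'.uniq' hφ (mem_Cx'.1 hz) rfl) (by decide +kernel), Or.inl e', Or.inr e']

theorem uq (C : GS φ σ Y 0) (U : Fu φ) (T : Tau φ Y τ τ' ν) (O : OF φ τ τ' ν Φ) {g : G}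
    (hV : g ∈ normalizer (VS.map φ : Set G)) (he : φ (o 32) ∈ normalizer (cj g Φ.range : Set G)) :
    cj g Φ.range = Φ.range := by
  have cV : ∀ u ∈ Φ.range, ∀ v ∈ VS.map φ, u ∈ Cx v := by
    rintro u hu _ ⟨a, ha, rfl⟩
    exact Cx_comm.1 (subG_le (S := (Cx u).comap φ) (by
      simp only [List.forall_mem_cons]
      exact ⟨Cx_comm.1 (O.cen hu).1, Cx_comm.1 (O.cen hu).2, by simp⟩) ha)
  have c : ∀ a : NT, a.v < 4 → cj g Φ.range ≤ Cx (φ a) := fun a ha => cj_le_iff.2 fun u hu => by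
    have := conj_mem_Cx (g := g).2 (cV u hu _ (conj_mem_of_mem_normalizer' hV (mem_map_of_mem φ (show a ∈ VS from ha))))
    rwa [show g * (g⁻¹ * φ a * g) * g⁻¹ = φ a by group] at this
  refine C.uniqO U T O (by rw [card_cj, O.card])
    (le_cj_iff.2 fun x hx => O.le (conj_mem_of_mem_normalizer' hV hx)) (c _ (by decide +kernel))
    (c _ (by decide +kernel)) (fun u hu => ?_) he
  have := conj_mem_of_mem_normalizer hV (O.sq _ (mem_cj.1 hu))
  rwa [show g * (g⁻¹ * u * g * (g⁻¹ * u * g)) * g⁻¹ = u * u by group] at this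

/-- A Sylow 2-subgroup which normalises `V` and `O`. -/
theorem exists_syl (C : GS φ σ Y 0) (U : Fu φ) (T0 : Tau φ Y τ τ' ν) (O : OF φ τ τ' ν Φ) :
    ∃ T, IsSylowIn 2 T ⊤ ∧ φ (o 32) ∈ T ∧ T ≤ Cx (φ (o 1)) ∧ T ≤ normalizer (VS.map φ : Set G) ∧
      T ≤ normalizer (Φ.range : Set G) := by
  have hS := C.sylS U
  have sN : SS.map φ ≤ normalizer (Φ.range : Set G) := by
    rintro _ ⟨a, ha, rfl⟩
    have H : ∀ a : NT, a.v % 3072 < 1024 ∧ a.v % 512 < 64 → a * o 1 * a⁻¹ = o 1 ∧ (a * o 2 * a⁻¹).v < 4 := by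
      decide +kernel
    refine mem_normalizer_iff_cj.2 (uq C U T0 O (nV ((Rel.conj φ a _).of_eq rfl (H a ha).1) (Or.inl rfl) (H a ha).2
      (Rel.conj φ a _)) ?_)
    rw [← cj_normalizer, mem_cj, mul_assoc, ← mem_Cx.1 (hS.le (mem_map_of_mem φ ha)), inv_mul_cancel_left]
    exact O.ne
  obtain ⟨T, hT, h1⟩ := exists_isSylowIn_ge (H := ⊤) (IsPGroup.to_sup_of_normal_left'
    (IsPGroup.of_card (n := 10) O.card) hS.pgroup sN) le_top
  have hX : Φ.range ≤ T := le_sup_left.trans h1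
  have hs : ∀ a ∈ SS, φ a ∈ T := fun a ha => h1 (mem_sup_right (mem_map_of_mem φ ha))
  have he : φ (o 32) ∈ T := hs _ (mS 32 (by simp))
  have two : ∀ x ∈ T, Two x := isPGroup_iff_mem.1 hT.pgroup
  have mO : ∀ j, InO j → φ j ∈ T := fun j hj => hX ((O.mem _).2 ⟨j, hj, 0, by omega, 0, by omega, by simp⟩)
  have hz : T ≤ Cx (φ (o 1)) := by
    obtain ⟨u, hu, h2, h3⟩ := cenMod (N := ⊥) hT.pgroup le_normalizer_of_normal fun h =>
      absurd (C.inj ((mem_bot.1 (h he)).trans (map_one φ).symm)) (by decide +kernel)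
    have h4 : ∀ g ∈ T, g ∈ Cx u := fun g hg => Cx_comm.1 (mem_Cx'.2 (mul_inv_eq_one.1 (mem_bot.1 (h3 g hg))))
    have h5 := mem_Cx.1 (h4 _ (mO (o 128) (by decide +kernel)))
    rcases first C (two u hu) fun a ha => mem_Cx'.1 (h4 _ (hs a ha)) with rfl | rfl | rfl | rfl
    · exact absurd (one_mem _) h2
    · exact h4
    all_goals
      rw [← map_mul, ← map_mul] at h5
      exact absurd (C.inj h5) (by decide +kernel)
  have hV : T ≤ normalizer (VS.map φ : Set G) := by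
    have H0 : UT 2 fun a : NT => a = 1 ∨ a = o 1 := by decide +kernel
    obtain ⟨k, hk, h2, h3⟩ := cenMod (N := Z0.map φ) hT.pgroup (fun g hg => mem_normalizer_of_forall (by
      rintro _ ⟨a, ha, rfl⟩
      refine ⟨a, ha, ?_⟩
      rcases H0 a ha with rfl | rfl
      exacts [by simp, (mem_Cx'.1 (hz hg)).symm])) fun h =>
        absurd ((mem_map_iff_mem C.inj).1 (h he)) (by decide +kernel : ¬ (o 32 : NT).v < 2)
    have h8 : ∀ g ∈ T, g * k * g⁻¹ = k ∨ g * k * g⁻¹ = k * φ (o 1) := fun g hg => by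
      obtain ⟨a, ha, e⟩ := h3 g hg
      have e' : g * k * g⁻¹ = (φ a)⁻¹ * k := by rw [e]; group
      rcases H0 a ha with rfl | rfl
      · exact Or.inl (by simpa using e')
      · exact Or.inr (by rw [e', inv_eq_of_mul_eq_one_right zz, mem_Cx.1 (hz hk)])
    obtain ⟨n, h4, h5, rfl⟩ := second C (hz hk) (two k hk) fun a ha => h8 _ (hs a ha)
    have h9 : ∀ g ∈ T, W2.Rel φ g n n ∨ W2.Rel φ g n (n * o 1) := fun g hg =>
      (h8 g hg).imp id fun e => e.trans (map_mul φ _ _).symm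
    have H : UT 128 fun n : NT => n.v % 32 < 4 → InJS n ∧ (¬ n.v < 2 →
        (o 128 * n * (o 128)⁻¹ = n ∨ o 128 * n * (o 128)⁻¹ = n * o 1) → (tauS 1 n = n ∨ tauS 1 n = n * o 1) →
        (n = o 2 ∨ n = o 3) ∧ n.v < 4 ∧ (n * o 1).v < 4) := by decide +kernel
    have hτ : τ ∈ T := hX ((O.mem _).2 ⟨1, by decide +kernel, 1, by omega, 0, by omega, by simp⟩)
    obtain ⟨h6, h7, h10⟩ := (H n h4 h5).2 (fun h => h2 (mem_map_of_mem φ (show n ∈ Z0 from h)))
      ((h9 _ (mO (o 128) (by decide +kernel))).imp (fun e => (Rel.conj φ _ n).uniq C.inj e rfl)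
        fun e => (Rel.conj φ _ n).uniq C.inj e rfl)
      ((h9 τ hτ).imp (fun e => (T0.r1 n (H n h4 h5).1).uniq C.inj e rfl)
        fun e => (T0.r1 n (H n h4 h5).1).uniq C.inj e rfl)
    exact fun g hg => (h9 g hg).elim (nV (mem_Cx'.1 (hz hg)) h6 h7) (nV (mem_Cx'.1 (hz hg)) h6 h10)
  exact ⟨T, hT, he, hz, hV, le_norm_of_uniq hT.pgroup hX he O.ne fun g hg => uq C U T0 O (hV hg)⟩

end SUF

open SUF in
theorem GS.false [Finite G] (hδ : δ < 2) (C : GS φ σ Y δ) (U : Fu φ) (hO : φ (o 32) ∈ pResidual 2 G) :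
    False := by
  obtain rfl | rfl : δ = 0 ∨ δ = 1 := by omega
  swap
  · exact C.delta
  obtain ⟨τ, τ', ν, T0⟩ := C.exists_tau
  obtain ⟨Φ, O⟩ := T0.exists_OF C.inj
  obtain ⟨T, hT, he, hz, hV, hN⟩ := exists_syl C U T0 O
  obtain ⟨H, -, h1, h2⟩ := exists_half O.inj T0.hν O.e
  have hS := C.sylS U
  obtain ⟨t, h3, h4⟩ := thompson_ext (H := T) (Q := H) (by rw [← relIndex_top_right]; exact hT.not_dvd)
    (index_eq_two_iff.2 ⟨⟨_, he⟩, fun b => (h2 b (hN b.2)).elim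
      (fun h => Or.inr ⟨h, fun h' => h1 ((mul_mem_cancel_left h).1 h')⟩)
      fun h => Or.inl ⟨h, fun h' => h1 ((mul_mem_cancel_left (H := H) h').1 h)⟩⟩) ee hO hS.pgroup hS.le
  have h5 : ∀ a ∈ SS, t⁻¹ * φ a * t ∈ T := fun a ha => h4 _ (mem_map_of_mem φ ha)
  have tr : ∀ a x : G, a * (t * x * t⁻¹) * a⁻¹ = t * (t⁻¹ * a * t * x * (t⁻¹ * a * t)⁻¹) * t⁻¹ := fun a x => by group
  have nD : ∀ n : NT, InD n → ¬ IsConj (φ (o 1)) (φ n) := fun n hn h => U.nc ((C.labD n hn).trans h.symm)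
  have r1 : W2.Rel φ t (o 1) (o 1) := by
    have c : IsConj (φ (o 1)) (t * φ (o 1) * t⁻¹) := isConj_iff.2 ⟨t, rfl⟩
    rcases first C ((two_of_sq zz).conj t) fun a ha => by rw [tr, mem_Cx'.1 (hz (h5 a ha))] with e | e | e | e
    · exact absurd ((show W2.Rel φ t (o 1) 1 from e.trans (map_one φ).symm).uniq' C.inj Rel.one rfl)
        (by decide +kernel)
    · exact e
    · exact absurd (e ▸ c) (nD _ (by decide +kernel))
    · exact absurd (e ▸ c) (nD _ (by decide +kernel))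
  have ss : φ (o 2) * φ (o 2) = 1 := by rw [← map_mul, (by decide +kernel : (o 2 : NT) * o 2 = 1), map_one]
  obtain ⟨n, h6, h7, r2⟩ := second C (w := t * φ (o 2) * t⁻¹) (by
      have : φ (o 2) ∈ Cx (φ (o 1)) := by
        rw [mem_Cx, ← map_mul, ← map_mul, (by decide +kernel : (o 2 : NT) * o 1 = o 1 * o 2)]
      have := conj_mem_Cx (g := t).2 this
      rwa [show t * φ (o 1) * t⁻¹ = φ (o 1) from r1] at this) ((two_of_sq ss).conj t) fun a ha =>
    (actV C.inj (hz (h5 a ha)) (hV (h5 a ha))).imp (fun e => by rw [tr, e]) fun e => by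
      rw [tr, e, map_mul, show t * (φ (o 2) * φ (o 1)) * t⁻¹ = t * φ (o 2) * t⁻¹ * (t * φ (o 1) * t⁻¹) by group,
        show t * φ (o 1) * t⁻¹ = φ (o 1) from r1]
  replace r2 : W2.Rel φ t (o 2) n := r2
  have H2 : UT 128 fun n : NT => n.v % 32 < 4 → n * n = 1 → ¬ InD n → n.v < 4 := by decide +kernel
  have tV := nV r1 (Or.inl rfl) (H2 n h6 h7 ((r2.mul r2).uniq C.inj Rel.one (by decide +kernel))
    fun h => nD n h ((C.rel (1, 2) (by simp)).isConj.trans r2.isConj)) r2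
  have tN := mem_normalizer_iff_cj.2 (uq C U T0 O tV (by
    rw [← cj_normalizer, mem_cj]; exact hN (h5 _ (mS 32 (by simp)))))
  have key : t⁻¹ ∈ H → False := fun h => h1 (by simpa [mul_assoc] using mul_mem (mul_mem (inv_mem h) h3) h)
  exact (h2 _ (inv_mem tN)).elim key fun h => key (inv_mem ((mul_mem_cancel_left h).1 h3))

end CfsgLib.SM12
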