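import Mathlib
import Cfsg.Agent.Lib.SM12.Defs
import Cfsg.Agent.Lib.Yos.W3

/-! Package WB: basic facts in the wreathed case (plans/SM12.md). -/

set_option autoImplicit false
set_option maxRecDepth 100000
set_option synthInstance.maxSize 4096

namespace CfsgLib.SM12

open Subgroup Cfsg CfsgLib.W2 CfsgLib.W2.TG CfsgLib.Tech CfsgLib.CosetEnum CfsgLib.Yos

variable {G : Type*} [Group G] {σ : G} {φ : NW →* G} {Y Q : Subgroup G} {δ : ℕ}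

theorem GW.relW (hδ : δ < 2) (C : GW φ σ Y δ) (a : NW) (ha : InJ a) : W2.Rel φ σ a (o (sgW δ a.v)) := by
  refine rel_of_gen (fun a => o (sgW δ a.v)) InJ [o 2, o 4, o 8, o 32, o 512, o 64, o (128 + δ)] 4
    ?_ ?_ a ha
  · interval_cases δ <;> decide +kernel
  · have := C.rel
    simp only [List.forall_mem_cons] at this ⊢
    obtain ⟨-, h1, h2, h3, h4, h5, h6, h7, -⟩ := this
    refine ⟨h1.of_eq rfl ?_, h2.of_eq rfl ?_, h3.of_eq rfl ?_, h4.of_eq rfl ?_, h5.of_eq rfl ?_,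
      h6.of_eq rfl ?_, h7.of_eq rfl ?_, by simp⟩ <;> interval_cases δ <;> decide +kernel

/-- `g` acts as `n θ`. -/
abbrev OutBy (φ : NW →* G) (g : G) (n : NW) : Prop := ∀ a, W2.Rel φ g a (n * thW a * n⁻¹)

/-- An element of `C(z)` which acts on `e` as `φ j`. -/
theorem GW.tr (C : GW φ σ Y δ) (j : NW) {g : G} (h1 : g ∈ Cx (φ (o 1))) (hj : j * o 1 = o 1 * j)
    (he : W2.Rel φ g (o 32) (j * o 32 * j⁻¹)) : ∃ m : NW, m.v % 512 < 64 ∧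
      ((∃ y ∈ Y, g = y * φ (j * m)) ∨ OutBy φ g (j * m)) := by
  rcases C.cent ((φ j)⁻¹ * g) (mem_Cx'.2 ((Rel.conj φ j _).symm.comp he))
    (mul_mem (inv_mem ((commW_iff C.inj).2 hj)) h1) with ⟨y, hy, m, h2, h3⟩ | ⟨m, h2, h3⟩
  · exact ⟨m, h2, Or.inl ⟨y, hy, by rw [map_mul, ← mul_assoc, ← C.cY j y hy, mul_assoc, ← h3, mul_inv_cancel_left]⟩⟩
  · refine ⟨m, h2, Or.inr fun a => ?_⟩
    have := (Rel.conj φ j _).comp (h3 a)
    rw [mul_inv_cancel_left] at this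
    exact this.of_eq rfl (by group)

theorem GW.normE (C : GW φ σ Y δ) {g : G} (hz : g ∈ Cx (φ (o 1)))
    (he : W2.Rel φ g (o 32) (o 32) ∨ W2.Rel φ g (o 32) (o 33)) :
    (∃ y ∈ Y, ∃ n : NW, n.v % 512 < 128 ∧ g = y * φ n) ∨
      ∃ n : NW, n.v % 512 < 128 ∧ ∀ a, W2.Rel φ g a (n * thW a * n⁻¹) := by
  obtain ⟨n, h1, h2⟩ : ∃ n : NW, n.v % 512 < 128 ∧ ((∃ y ∈ Y, g = y * φ n) ∨ OutBy φ g n) := by
    rcases he with he | he
    · obtain ⟨m, h1, h2⟩ := C.tr 1 hz (by simp) (he.of_eq rfl (by simp))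
      exact ⟨m, by omega, by simpa only [one_mul] using h2⟩
    · obtain ⟨m, h1, h2⟩ := C.tr (o 64) hz normE_W.2.1 (he.of_eq rfl normE_W.1.symm)
      exact ⟨_, normE_W.2.2 m h1, h2⟩
  exact h2.imp (fun ⟨y, hy, e⟩ => ⟨y, hy, n, h1, e⟩) fun e => ⟨n, h1, e⟩

theorem GW.rel_mul (C : GW φ σ Y δ) {y : G} (hy : y ∈ Y) (n a : NW) : W2.Rel φ (y * φ n) a (n * a * n⁻¹) :=
  (Rel.of_comm (C.cY _ y hy).symm).comp (Rel.conj φ n a)

theorem GW.memJ (C : GW φ σ Y δ) {g : G} (h1 : g ∈ Cx (φ (o 1))) (h2 : g ∈ Cx (φ (o 2))) {v : NW}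
    (hv : v.v < 4) (h3 : W2.Rel φ g (o 32) (o 32 * v)) :
    (∃ y ∈ Y, ∃ n, InJ n ∧ g = y * φ n) ∨ ∃ n, InJ n ∧ ∀ a, W2.Rel φ g a (n * thW a * n⁻¹) := by
  have H : thW (o 2) = o 2 ∧ UT 4 fun v : NW => LE [0, 64, 128, 192] fun j => o 32 * v = o j * o 32 * (o j)⁻¹ ∧
    (o j : NW) * o 1 = o 1 * o j ∧
      ∀ m : NW, m.v % 512 < 64 → o j * m * o 2 * (o j * m)⁻¹ = o 2 → InJ (o j * m) := by decide +kernel
  obtain ⟨j, -, e1, e2, e3⟩ := H.2 v hv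
  obtain ⟨m, h4, ⟨y, hy, rfl⟩ | h5⟩ := C.tr (o j) h1 e2 (h3.of_eq rfl e1)
  · exact Or.inl ⟨y, hy, _, e3 m h4 ((C.rel_mul hy _ _).uniq C.inj (mem_Cx'.1 h2) rfl), rfl⟩
  · exact Or.inr ⟨_, e3 m h4 (H.1 ▸ (h5 _).uniq C.inj (mem_Cx'.1 h2) rfl), h5⟩

/-- The product of two outer elements is not outer. -/
theorem GW.out_mul (C : GW φ σ Y δ) {g h : G} {n m : NW} (hg : ∀ a, W2.Rel φ g a (n * thW a * n⁻¹))
    (hh : ∀ a, W2.Rel φ h a (m * thW a * m⁻¹)) (l : NW) : ¬ ∀ a, W2.Rel φ (g * h) a (l * thW a * l⁻¹) := by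
  intro hl
  have H : (∀ c : NW, thW (thW c) = c) ∧ ∀ k : NW, ¬ LA [2, 4, 8, 16] fun j => k * o j * k⁻¹ = thW (o j) := by
    decide +kernel
  refine H.2 (n⁻¹ * l * m⁻¹) fun j _ => ?_
  have := (hl (thW (m⁻¹ * o j * m))).uniq C.inj ((hg _).comp (hh _)) rfl
  rw [H.1, show m * (m⁻¹ * o j * m) * m⁻¹ = o j by group] at this
  calc _ = n⁻¹ * (l * (m⁻¹ * o j * m) * l⁻¹) * n := by group
    _ = _ := by rw [this]; group

/-- An element of `C(z)` which maps `e` into `e A` normalises `⟨e, z⟩`. -/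
theorem GW.normA (C : GW φ σ Y δ) {g : G} (h1 : g ∈ Cx (φ (o 1))) {a : NW} (ha : a ∈ A0)
    (h : W2.Rel φ g (o 32) (a * o 32)) : (∃ y ∈ Y, ∃ n : NW, n.v % 512 < 128 ∧ g = y * φ n) ∨
      ∃ n : NW, n.v % 512 < 128 ∧ OutBy φ g n := by
  have H : UT 128 fun a : NW => InA a → a * o 32 * (a * o 32) = 1 → a * o 32 = o 32 ∨ a * o 32 = o 33 := by
    decide +kernel
  exact C.normE h1 ((H a ha.2 ha (((h.mul h).uniq C.inj Rel.one eeW))).imp (h.of_eq rfl) (h.of_eq rfl))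

theorem GW.psi_ker (C : GW φ σ Y δ) {g : G} (hg : g ∈ QW φ) (h : psi φ g = 1) :
    ∃ y ∈ Y, ∃ r ∈ R0, g = y * φ r := by
  obtain ⟨g1, g2, r, hr, g3⟩ := hg
  rw [psi_eq C.inj g3, piE_one hr] at h
  have HA : InA (o 1) ∧ InA (o 64) ∧ LA [2, 4, 8, 16] fun j => InR0 (o j) := by decide +kernel
  have H : ∀ n : NW, n.v % 512 < 128 → (n * o 64 * n⁻¹ = o 64 →
    LA [2, 4, 8, 16] (fun j => InA ((o j)⁻¹ * (n * o j * n⁻¹))) → InR0 n) ∧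
      ¬ LA [2, 4, 8, 16] fun j => InA ((o j)⁻¹ * (n * thW (o j) * n⁻¹)) := by decide +kernel
  have k : ∀ j ∈ [2, 4, 8, 16], ∀ b, W2.Rel φ g (o j) b → InA ((o j)⁻¹ * b) := fun j hj b hb => by
    obtain ⟨a, ha, e⟩ := g2 _ (HA.2.2 j hj)
    rw [hb.uniq C.inj e rfl, inv_mul_cancel_left]
    exact ha
  rcases C.normA (mem_Cx'.2 (g1 _ HA.1)) h g3 with ⟨y, hy, n, h1, rfl⟩ | ⟨n, h1, h2⟩
  · exact ⟨y, hy, n, (H n h1).1 ((C.rel_mul hy _ _).uniq C.inj (g1 _ HA.2.1) rfl)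
      fun j hj => k j hj _ (C.rel_mul hy _ _), rfl⟩
  · exact absurd (fun j hj => k j hj _ (h2 _)) (H n h1).2

/-- A 2-element of `Y × φ(N)` lies in `φ(N)`. -/
theorem GW.inner_two (C : GW φ σ Y δ) {y : G} (hy : y ∈ Y) {n : NW} (h : Two (y * φ n)) : y = 1 := by
  refine eq_one_of_mul C.odd hy (C.cY n y hy) ?_ h
  obtain ⟨k, hk⟩ := h
  have H : ∀ w : NW, LA [4, 16, 32, 64, 128, 512] (fun j => w * o j * w⁻¹ = o j) → w * w = 1 := by decide +kernel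
  rw [Commute.mul_pow (C.cY n y hy).symm, ← map_pow] at hk
  refine ⟨k + 1, ?_⟩
  rw [pow_succ, pow_mul, ← map_pow, sq, ← map_mul, H _ fun j _ => ((C.rel_mul (Y.pow_mem hy _) _ _).uniq C.inj
    (show W2.Rel φ _ _ (o j) by rw [hk]; simp [W2.Rel]) rfl), map_one]

end CfsgLib.SM12
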