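import Mathlib
import Cfsg.Agent.Lib.SM12.WB
import Cfsg.Agent.Lib.SM12.Tool

/-! Package WGA: a Sylow 2-subgroup normalises `Q` (plans/SM12.md). -/

set_option autoImplicit false
set_option maxRecDepth 100000
set_option synthInstance.maxSize 4096

namespace CfsgLib.SM12

open Subgroup Cfsg CfsgLib.W2 CfsgLib.W2.TG CfsgLib.Tech CfsgLib.CosetEnum CfsgLib.Yos

variable {G : Type*} [Group G] {σ : G} {φ : NW →* G} {Y Q : Subgroup G} {δ : ℕ}

/-- Counting along a list of numbers. -/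
theorem card_le_countP (K : Subgroup G) (L : List ℕ) (P : NW → Prop) [DecidablePred P]
    (H : ∀ u ∈ K, ∃ r : NW, (r.v ∈ L ∧ P r) ∧ u = φ r) : Nat.card K ≤ L.countP fun j => decide (P (o j)) := by
  choose f hf using H
  rw [List.countP_eq_length_filter]
  refine le_trans ?_ (List.toFinset_card_le _)
  rw [← Nat.card_eq_finsetCard]
  exact Nat.card_le_card_of_injective (fun u => ⟨(f u.1 u.2).v, by
    simpa [o_v] using (hf u.1 u.2).1⟩) fun u w e => Subtype.ext (by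
      rw [(hf u.1 u.2).2, (hf w.1 w.2).2, ext' (congrArg Subtype.val e :)])

/-- The elements of `N(⟨e, z⟩) ∩ C(x)` with square in `A`. -/
def LX : List ℕ := List.range 32 ++ (List.range 32).map (· + 64) ++ [512, 513, 514, 515, 524, 525, 526, 527, 576, 577,
  578, 579, 588, 589, 590, 591, 1536, 1537, 1542, 1543, 1562, 1563, 1564, 1565, 1600, 1601, 1606, 1607, 1626, 1627,
  1628, 1629, 2560, 2561, 2564, 2565, 2578, 2579, 2582, 2583, 2624, 2625, 2628, 2629, 2642, 2643, 2646, 2647]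

theorem LX1 : ∀ n : NW, n * o 64 = o 64 * n → InA (n * o 32 * n⁻¹ * o 32) → InA (n * n) → n.v ∈ LX := by
  decide +kernel

theorem LX2 : LA LX fun v => ¬ InR0 (o v) → v / 512 ∈ [1, 3, 5] ∧
    (LX.countP fun u => decide (InA (o v * o u * (o v)⁻¹ * (o u)⁻¹))) < 64 ∧
    LA LX fun u => InA (o v * o u * (o v)⁻¹ * (o u)⁻¹) → u / 512 = 0 ∨ u / 512 = v / 512 := by
  decide +kernel

theorem LX3 : ∀ n : NW, n.v % 512 < 128 → n * thW (o 64) * n⁻¹ = o 64 →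
    LA [2, 4, 8, 16] (fun j => n * thW (n * thW (o j) * n⁻¹) * n⁻¹ = o j) → LA [1, 3, 5] fun k =>
      (LX.countP fun u => decide (((o u : NW).v / 512 = 0 ∨ (o u : NW).v / 512 = k) ∧
        InA (n * thW (o u) * n⁻¹ * (o u)⁻¹))) < 32 := by
  decide +kernel

variable [Finite G]

theorem GW.memQ (C : GW φ σ Y δ) (F : QF φ Q) (hQ : ∀ g ∈ Q, ∀ y ∈ Y, g * y = y * g) {g : G}
    (hg : g ∈ QW φ) (h2 : Two g) : g ∈ Q := by
  obtain ⟨r, hr, g3⟩ := hg.2.2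
  obtain ⟨u, hu, h1⟩ := F.surj r hr
  obtain ⟨s, hs, e2⟩ := F.ce u hu
  rw [← e2, ← map_mul, mem_map_iff_mem C.inj, ← piE_one (mul_mem hs hr), piE_mul hs hr] at h1
  obtain ⟨y, hy, t, ht, e⟩ := C.psi_ker (mul_mem (F.le_QW hu) hg) (by
    rw [psi_mul C.inj (F.le_QW hu) hg, psi_eq C.inj g3, psi_eq C.inj (rel_e.2 e2.symm), h1])
  have hw := mul_mem (inv_mem hu) (F.ge (mem_map_of_mem φ ht))
  have e' : g = y * (u⁻¹ * φ t) := by rw [← mul_assoc, ← hQ _ (inv_mem hu) y hy, mul_assoc, ← e, inv_mul_cancel_left]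
  rw [e', eq_one_of_mul C.odd hy (hQ _ hw y hy) (isPGroup_iff_mem.1 (IsPGroup.of_card (n := 10) F.card) _ hw)
    (e' ▸ h2), one_mul]
  exact hw

theorem GW.uniqQ (C : GW φ σ Y δ) (F : QF φ Q) (hQ : ∀ g ∈ Q, ∀ y ∈ Y, g * y = y * g) {X : Subgroup G}
    (hc : Nat.card X = 1024) (hA : A0.map φ ≤ X) (h1 : X ≤ Cx (φ (o 1))) (h2 : X ≤ Cx (φ (o 64)))
    (sq : ∀ u ∈ X, u * u ∈ A0.map φ) (he : φ (o 32) ∈ normalizer (X : Set G)) : X = Q := by
  have cZ : ∀ u ∈ X, ∀ v ∈ A0.map φ, u * v = v * u := by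
    rintro u hu _ ⟨a, ha, rfl⟩
    exact (rel_A (h1 hu) (h2 hu) ha).comm
  have pX : ∀ u ∈ X, Two u := isPGroup_iff_mem.1 (IsPGroup.of_card (n := 10) hc)
  obtain ⟨K, I, -, hIK, hKI, hK, hI, -⟩ := exists_KI ee_map hA cZ sq he
    (mem_normalizer_of_forall fun a ha => conj_A (by simp) ha)
  have c64 : 64 ≤ Nat.card K := by
    have := card_le_of_le hIK
    rw [hc, card_map_of_injective C.inj, A0, card_subG, (by decide +kernel : cnt InA = 4)] at hKI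
    nlinarith
  have KX : K ≤ X := fun u hu => ((hK u).1 hu).1
  have mA : ∀ {a}, φ a ∈ A0.map φ → InA a := (mem_map_iff_mem (K := A0) C.inj).1
  have mL : ∀ n, φ n ∈ K → n.v ∈ LX := fun n hn => LX1 n ((commW_iff C.inj).1 (h2 (KX hn)))
    (mA (by simpa only [map_mul, map_inv] using ((hK _).1 hn).2)) (mA (by rw [map_mul]; exact sq _ (KX hn)))
  have io : ∀ k ∈ K, k ∈ φ.range ∨ ∃ n : NW, n.v % 512 < 128 ∧ OutBy φ k n := fun k hk => by
    obtain ⟨a, ha, e⟩ := ((hK k).1 hk).2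
    refine (C.normA (h1 (KX hk)) ha (rel_e.2 e.symm)).imp_left ?_
    rintro ⟨y, hy, n, -, rfl⟩
    exact ⟨n, by rw [C.inner_two hy (pX _ (KX hk)), one_mul]⟩
  have cm : ∀ a b, φ a ∈ K → φ b ∈ K → InA (a * b * a⁻¹ * b⁻¹) := fun a b ha hb =>
    mA (by simpa only [map_mul, map_inv] using Tool.cm sq (KX ha) (KX hb))
  have hR : K ≤ R0.map φ := by
    by_cases hO : K ≤ φ.range
    · intro u hu
      obtain ⟨v, rfl⟩ := hO hu
      by_contra hv
      have := card_le_countP (φ := φ) K LX (fun u => InA (v * u * v⁻¹ * u⁻¹)) fun w hw => by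
        obtain ⟨n, rfl⟩ := hO hw
        exact ⟨n, ⟨mL n hw, cm v n hu hw⟩, rfl⟩
      have h3 := (LX2 _ (mL v hu) (by rw [o_v]; exact fun h => hv (mem_map_of_mem φ h))).2.1
      rw [o_v] at h3
      omega
    obtain ⟨g, hg, gO⟩ := SetLike.not_le_iff_exists.1 hO
    obtain ⟨n, n1, n2⟩ := (io g hg).resolve_left gO
    obtain ⟨k, k1, k2⟩ : ∃ k ∈ [1, 3, 5], ∀ u, φ u ∈ K → u.v / 512 = 0 ∨ u.v / 512 = k := by
      by_cases h : ∀ v, φ v ∈ K → InR0 v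
      · exact ⟨1, by simp, fun u hu => Or.inl (by have := (h u hu).2; omega)⟩
      push Not at h
      obtain ⟨v, hv, h⟩ := h
      obtain ⟨h3, -, h4⟩ := LX2 _ (mL v hv) (by rwa [o_v])
      exact ⟨_, h3, fun u hu => h4 _ (mL u hu) (by rw [o_v, o_v]; exact cm v u hv hu)⟩
    have c1 := card_twoW (S := K) (T := φ.range) fun a ha b hb na nb => by
      obtain ⟨m, -, m2⟩ := (io a ha).resolve_left na
      obtain ⟨l, -, l2⟩ := (io b hb).resolve_left nb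
      exact (io _ (mul_mem ha hb)).resolve_right fun ⟨t, _, t2⟩ => C.out_mul m2 l2 t t2
    have c2 := card_le_countP (φ := φ) (K ⊓ φ.range) LX (fun u => (u.v / 512 = 0 ∨ u.v / 512 = k) ∧
        InA (n * thW u * n⁻¹ * u⁻¹)) (by
      rintro _ ⟨hu, u, rfl⟩
      exact ⟨u, ⟨mL u hu, k2 u hu, mA (by rw [map_mul, map_inv, ← n2 u]; exact Tool.cm sq (KX hg) (KX hu))⟩, rfl⟩)
    obtain ⟨a, ha, e⟩ := sq g (KX hg)
    have HR : LA [2, 4, 8, 16] fun j => InR0 (o j) := by decide +kernel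
    have c3 := LX3 n n1 ((n2 _).uniq C.inj (mem_Cx'.1 (h2 (KX hg))) rfl) (fun j hj => ((n2 _).comp (n2 _)).uniq C.inj
      (Rel.of_comm (by rw [← e, ← map_mul, ← map_mul, RA_comm (HR j hj) ha])) rfl) k k1
    omega
  have eK : K = R0.map φ := eq_of_le_of_card_ge hR (by
    rwa [card_map_of_injective C.inj, R0, card_subG, (by decide +kernel : cnt InR0 = 64)])
  refine eq_of_le_of_card_ge (fun g hg => C.memQ F hQ ⟨fun a => rel_A (h1 hg) (h2 hg), fun r hr => ?_, ?_⟩ (pX g hg))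
    (by rw [hc, F.card])
  · obtain ⟨a, ha, e⟩ := Tool.cm sq hg (KX (eK.ge (mem_map_of_mem φ hr)))
    exact ⟨a, ha, by rw [W2.Rel, RA_comm hr ha, map_mul, e, inv_mul_cancel_right]⟩
  · obtain ⟨r, hr, e⟩ := hR (hIK ((hI _).2 ⟨g, hg, 1, one_mem _, (mul_one _).symm⟩))
    exact ⟨r, hr, rel_e.2 e.symm⟩

theorem GW.exists_syl (C : GW φ σ Y δ) (F : QF φ Q) (hQ : ∀ g ∈ Q, ∀ y ∈ Y, g * y = y * g) :
    ∃ T, IsSylowIn 2 T ⊤ ∧ Q ≤ T ∧ φ (o 32) ∈ T ∧ T ≤ Cx (φ (o 1)) ∧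
      T ≤ normalizer (A0.map φ : Set G) ∧ T ≤ normalizer (Q : Set G) := by
  obtain ⟨T, hT, h1⟩ := exists_isSylowIn_ge (H := ⊤) (IsPGroup.to_sup_of_normal_left'
    (IsPGroup.of_card (n := 10) F.card) (isPGroup_zpowers_of_pow (k := 1) (by rw [pow_one, sq, ee_map]))
    (zpowers_le_of_mem F.ne)) le_top
  have hQT : Q ≤ T := le_sup_left.trans h1
  have he : φ (o 32) ∈ T := h1 (mem_sup_right (mem_zpowers _))
  have pT : ∀ u ∈ T, Two u := isPGroup_iff_mem.1 hT.pgroup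
  have HR : LA [1, 2, 4, 8, 16, 64] fun j => InR0 (o j) := by decide +kernel
  have hR : ∀ j ∈ [1, 2, 4, 8, 16, 64], φ (o j) ∈ T := fun j hj => hQT (F.ge (mem_map_of_mem φ (HR j hj)))
  have hz : T ≤ Cx (φ (o 1)) := by
    obtain ⟨u, hu, h2, h3⟩ := cenMod (N := ⊥) hT.pgroup le_normalizer_of_normal fun h =>
      absurd (C.inj ((mem_bot.1 (h he)).trans (map_one φ).symm)) (by decide +kernel)
    have h4 : ∀ g ∈ T, u ∈ Cx g := fun g hg => mem_Cx'.2 (mul_inv_eq_one.1 (mem_bot.1 (h3 g hg)))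
    have H : ∀ n : NW, n.v % 512 < 64 → (LA [1, 2, 4, 8, 16, 64] (fun j => n * o j = o j * n) → n = 1 ∨ n = o 1) ∧
        ¬ LA [1, 2, 4, 8, 16, 64] fun j => n * thW (o j) * n⁻¹ = o j := by decide +kernel
    rcases C.cent u (h4 _ he) (h4 _ (hR 1 (by simp))) with ⟨y, hy, n, h5, rfl⟩ | ⟨n, h5, h6⟩
    · obtain rfl := C.inner_two hy (pT _ hu)
      rw [one_mul] at h2 h4
      rcases (H n h5).1 fun j hj => (commW_iff C.inj).1 (h4 _ (hR j hj)) with rfl | rfl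
      · exact absurd (by simp) h2
      · exact fun g hg => Cx_comm.1 (h4 g hg)
    · exact absurd (fun j hj => (h6 _).uniq C.inj (mem_Cx'.1 (h4 _ (hR j hj))) rfl) (H n h5).2
  have hA : T ≤ normalizer (A0.map φ : Set G) := by
    have H0 : UT 2 fun a : NW => (a = 1 ∨ a = o 1) ∧ InA a := by decide +kernel
    obtain ⟨k, hk, h2, h3⟩ := cenMod (N := Z0.map φ) hT.pgroup (fun g hg => mem_normalizer_of_forall (by
      rintro _ ⟨a, ha, rfl⟩
      refine ⟨a, ha, ?_⟩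
      rcases (H0 a ha).1 with rfl | rfl
      exacts [by simp, (mem_Cx'.1 (hz hg)).symm])) fun h =>
        absurd ((mem_map_iff_mem C.inj).1 (h he)) (by decide +kernel : ¬ (o 32 : NW).v < 2)
    have H : ∀ n : NW, n.v % 512 < 128 → (LA [1, 2, 4, 8, 16, 64] (fun j => (n * o j * n⁻¹ * (o j)⁻¹).v < 2) →
      n.v < 128 ∧ (UT 2 fun a : NW => a⁻¹ * n = n ∨ a⁻¹ * n = n * o 1) ∧
        (InA n → ¬ n.v < 2 → o 64 = n ∨ o 64 = n * o 1)) ∧
        ¬ LA [1, 2, 4, 8, 16, 64] fun j => (n * thW (o j) * n⁻¹ * (o j)⁻¹).v < 2 := by decide +kernel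
    obtain ⟨n, h4, rfl⟩ : ∃ n : NW, n.v % 512 < 128 ∧ k = φ n := by
      obtain ⟨a, ha, e⟩ := h3 _ he
      rcases C.normA (hz hk) (H0 a ha).2 (by rw [W2.Rel, map_mul, e, inv_mul_cancel_right]) with
        ⟨y, hy, n, h4, rfl⟩ | ⟨n, h4, h5⟩
      · exact ⟨n, h4, by rw [C.inner_two hy (pT _ hk), one_mul]⟩
      · exact absurd (fun j hj => (mem_map_iff_mem (K := Z0) C.inj).1 (by
          rw [map_mul, map_inv, ← h5 _]; exact h3 _ (hR j hj))) (H n h4).2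
    obtain ⟨h5, h6, h7⟩ := (H n h4).1 fun j hj => (mem_map_iff_mem (K := Z0) C.inj).1 (by simpa using h3 _ (hR j hj))
    have h8 : ∀ g ∈ T, W2.Rel φ g n n ∨ W2.Rel φ g n (n * o 1) := fun g hg => by
      obtain ⟨a, ha, e⟩ := h3 g hg
      have : W2.Rel φ g n (a⁻¹ * n) := by rw [W2.Rel, map_mul, map_inv, e]; group
      exact (h6 a ha).imp (this.of_eq rfl) (this.of_eq rfl)
    have h9 : n ∈ A0 := F.cen n h5 fun g hg => h8 g (hQT hg)
    have hz' : o 1 ∈ A0 := (by decide +kernel : InA (o 1))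
    refine fun g hg => mem_normalizer_of_forall ?_
    rintro _ ⟨a, ha, rfl⟩
    rw [← inv_inv g, inv_inv g⁻¹, ← mem_cj]
    have m : ∀ a, ∀ b ∈ A0, W2.Rel φ g a b → a ∈ (cj g⁻¹ (A0.map φ)).comap φ := fun a b hb e =>
      mem_cj.2 ⟨b, hb, by rw [inv_inv]; exact Eq.symm e⟩
    have m1 := m _ _ hz' (mem_Cx'.1 (hz hg))
    have m2 : n ∈ _ := (h8 g hg).elim (m _ _ h9) (m _ _ (mul_mem h9 hz'))
    refine subG_le (S := (cj g⁻¹ (A0.map φ)).comap φ) ?_ ha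
    simp only [List.forall_mem_cons]
    refine ⟨m1, ?_, by simp⟩
    rcases h7 h9 fun h => h2 (mem_map_of_mem φ h) with e | e <;> rw [e]
    exacts [m2, mul_mem m2 m1]
  refine ⟨T, hT, hQT, he, hz, hA, le_norm_of_uniq hT.pgroup hQT he F.ne fun g hg hn => ?_⟩
  have cA : ∀ a, InA a → cj g Q ≤ Cx (φ a) := fun a ha u hu => by
    have := F.cA _ (mem_cj.1 hu) _ (conj_mem_of_mem_normalizer' (hA hg) (mem_map_of_mem φ ha))
    rwa [show g⁻¹ * u * g * (g⁻¹ * φ a * g) = g⁻¹ * (u * φ a) * g by group,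
      show g⁻¹ * φ a * g * (g⁻¹ * u * g) = g⁻¹ * (φ a * u) * g by group, mul_left_inj, mul_right_inj, ← mem_Cx] at this
  refine C.uniqQ F hQ (by rw [card_cj, F.card]) (le_cj_iff.2 fun a ha => (map_mono A_le).trans F.ge
    (conj_mem_of_mem_normalizer' (hA hg) ha)) (cA _ (by decide +kernel)) (cA _ (by decide +kernel)) (fun u hu => ?_) hn
  have := conj_mem_of_mem_normalizer (hA hg) (F.sq _ (mem_cj.1 hu))
  rwa [show g * (g⁻¹ * u * g * (g⁻¹ * u * g)) * g⁻¹ = u * u by group] at this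

end CfsgLib.SM12
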