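import Mathlib
import Cfsg.Agent.Lib.SM12.WGa

/-! Package WGB: no big subgroup over `V` (plans/SM12.md). -/

set_option autoImplicit false
set_option maxRecDepth 100000
set_option synthInstance.maxSize 4096

namespace CfsgLib.SM12

open Subgroup Cfsg CfsgLib.W2 CfsgLib.W2.TG CfsgLib.Tech CfsgLib.CosetEnum CfsgLib.Yos

variable {G : Type*} [Group G] {σ : G} {φ : NW →* G} {Y Q : Subgroup G} {δ : ℕ}

theorem GW.not_out (C : GW φ σ Y δ) (n m : NW) : ¬ OutBy φ (φ n) m := fun h =>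
  C.out_mul h h (n * m) fun a => ((Rel.conj φ n _).comp (h a)).of_eq rfl (by group)

theorem GW.pS (C : GW φ σ Y δ) : IsPGroup 2 (S0.map φ) ∧ S0.map φ ≤ Cx (φ (o 32)) := by
  refine ⟨IsPGroup.of_card (n := 7) (by rw [card_map_of_injective C.inj, S0, card_subG]; decide +kernel), ?_⟩
  rintro _ ⟨a, ha, rfl⟩
  exact (commW_iff C.inj).2 ((by decide +kernel : UT 1024 fun a : NW => InS a → a * o 32 = o 32 * a) a ha.1 ha)

/-- The commutators of `e` which lie in `J`. -/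
def LC : List ℕ := [0, 1, 2, 3, 4, 5, 6, 7, 8, 9, 10, 11, 76, 77, 78, 79, 512, 513, 514, 515, 524, 525, 526, 527,
  644, 645, 646, 647, 712, 713, 714, 715]

theorem LC1 : UT 1024 fun a : NW => InJ a → a.v % 32 < 16 ∧
    (LC.countP fun u => decide (a * thW (o u) * a⁻¹ = o u)) ≤ 8 ∧ UT 4 fun w : NW => InJ (a * w⁻¹ * o 32) ∧
      ((a * w⁻¹ * o 32).v / 4 ∈ [8, 9, 10, 27, 136, 139, 169, 186] → a.v ∈ LC) := by decide +kernel

theorem LC2 : LA LC fun a => ¬ a < 4 → (LC.countP fun u => decide ((o a : NW) * o u = o u * o a)) ≤ 16 ∧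
    ((List.range 1024).countP fun u => decide ((o u : NW).v % 512 < 256 ∧ (o u : NW).v % 32 < 16 ∧
      (o u : NW) ≠ o 32 ∧ (o u : NW) ≠ o 36 ∧ (o a : NW) * o u = o u * o a)) < 128 := by decide +kernel

variable [Finite G]

theorem GW.noD (C : GW φ σ Y δ) (U : Fu φ) {X Z : Subgroup G} (hX : Nat.card X = 1024) (hZ : Nat.card Z = 4)
    (cZ : ∀ u ∈ X, ∀ v ∈ Z, u * v = v * u) (sq : ∀ u ∈ X, u * u ∈ Z) {d : G} (hd : IsConj (φ (o 32)) d) :
    d ∉ X := by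
  have H : LA [4, 512, 16] (fun j => InS (o j)) ∧ (o 4 : NW) * o 512 * (o 4)⁻¹ * (o 512)⁻¹ * o 16 ≠
    o 16 * (o 4 * o 512 * (o 4)⁻¹ * (o 512)⁻¹) := by decide +kernel
  exact SM12.noD hX hZ cZ sq U.syl C.pS.1 C.pS.2 (mem_map_of_mem φ (H.1 4 (by simp)))
    (mem_map_of_mem φ (H.1 512 (by simp))) (mem_map_of_mem φ (H.1 16 (by simp)))
    (fun h => H.2 (C.inj (by simpa only [map_mul, map_inv] using h))) hd

theorem GW.labW (hδ : δ < 2) (C : GW φ σ Y δ) (U : Fu φ) (F : QF φ Q)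
    (hQ : ∀ g ∈ Q, ∀ y ∈ Y, g * y = y * g) (a : NW) (ha : InJ a) (h : IsConj (φ (o 32)) (φ a)) :
    a.v / 4 ∈ [8, 9, 10, 27, 136, 139, 169, 186] := by
  have sq : ∀ {d}, IsConj (φ (o 32)) d → d * d = 1 := fun h => by
    obtain ⟨g, rfl⟩ := isConj_iff.1 h
    rw [conj_mul, ee_map, mul_one, mul_inv_cancel]
  have k : ∀ b, IsConj (φ (o 32)) (φ b) → ¬ InQ b := fun b hb h => C.noD U F.card (by
    rw [card_map_of_injective C.inj, A0, card_subG]; decide +kernel) F.cA F.sq hb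
      (C.memQ F hQ (map_mem_QW h) (two_of_sq (sq hb)))
  have H : ∀ δ < 2, UT 1024 fun a : NW => InJ a → a * a = 1 → a.v / 4 ∈ [8, 9, 10, 27, 136, 139, 169, 186] ∨ InQ a ∨
    InQ (o (sgW δ a.v)) ∨ (InJ (o (sgW δ a.v) : NW) ∧ InQ (o (sgW δ (o (sgW δ a.v) : NW).v))) := by decide +kernel
  have h1 := h.trans (C.relW hδ a ha).isConj
  rcases H δ hδ a ha.1 ha (C.inj (by rw [map_mul, sq h, map_one])) with e | e | e | e
  exacts [e, absurd e (k _ h), absurd e (k _ h1), absurd e.2 (k _ (h1.trans (C.relW hδ _ e.1).isConj))]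

theorem GW.no_big (hδ : δ < 2) (C : GW φ σ Y δ) (U : Fu φ) (F : QF φ Q)
    (hQ : ∀ g ∈ Q, ∀ y ∈ Y, g * y = y * g) {X : Subgroup G} (hc : Nat.card X = 1024) (hV : V0W.map φ ≤ X)
    (h1 : X ≤ Cx (φ (o 1))) (h2 : X ≤ Cx (φ (o 2))) (sq : ∀ u ∈ X, u * u ∈ V0W.map φ)
    (he : φ (o 32) ∈ normalizer (X : Set G)) : False := by
  have cZ : ∀ u ∈ X, ∀ a ∈ V0W.map φ, u * a = a * u := by
    rintro u hu _ ⟨a, ha, rfl⟩
    exact (mem_Cx.1 (subG_le (S := (Cx u).comap φ) (by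
      simp only [List.forall_mem_cons]; exact ⟨Cx_comm.1 (h1 hu), Cx_comm.1 (h2 hu), by simp⟩) ha)).symm
  have HV : UT 4 fun v : NW => v * o 32 = o 32 * v := by decide +kernel
  have eV : ∀ v ∈ V0W.map φ, φ (o 32) * v = v * φ (o 32) := by
    rintro _ ⟨a, ha, rfl⟩
    rw [← map_mul, ← map_mul, HV a ha]
  have cV : Nat.card (V0W.map φ) = 4 := by rw [card_map_of_injective C.inj, V0W, card_subG]; decide +kernel
  have pX : ∀ u ∈ X, Two u := isPGroup_iff_mem.1 (IsPGroup.of_card (n := 10) hc)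
  obtain ⟨K, I, -, hIK, hKI, hK, hI, cI⟩ := exists_KI ee_map hV cZ sq he
    (mem_normalizer_of_forall fun v hv => by rwa [eV v hv, mul_inv_cancel_right])
  replace cI := cI eV
  rw [hc, cV] at hKI
  have KX : K ≤ X := fun u hu => ((hK u).1 hu).1
  have io : ∀ k ∈ K, ∃ n, InJ n ∧ (k = φ n ∨ OutBy φ k n) := fun k hk => by
    obtain ⟨v, hv, e⟩ := ((hK k).1 hk).2
    rcases C.memJ (h1 (KX hk)) (h2 (KX hk)) hv ((rel_e.2 e.symm).of_eq rfl (HV v hv)) with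
      ⟨y, hy, n, h3, rfl⟩ | ⟨n, h3, h4⟩
    exacts [⟨n, h3, Or.inl (by rw [C.inner_two hy (pX _ (KX hk)), one_mul])⟩, ⟨n, h3, Or.inr h4⟩]
  have mJ : ∀ n, φ n ∈ K → InJ n := fun n hn => by
    obtain ⟨m, h3, h4⟩ := io _ hn
    exact C.inj (h4.resolve_right (C.not_out n m)) ▸ h3
  have ou : ∀ k ∈ K, k ∉ φ.range → ∃ n, InJ n ∧ OutBy φ k n := fun k hk h =>
    (io k hk).imp fun n hn => ⟨hn.1, hn.2.resolve_left fun e => h ⟨n, e.symm⟩⟩
  have two : ∀ S ≤ K, Nat.card S ≤ 2 * Nat.card (S ⊓ φ.range : Subgroup G) := fun S hS =>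
    card_twoW fun a ha b hb na nb => by
      obtain ⟨m, -, m2⟩ := ou a (hS ha) na
      obtain ⟨l, -, l2⟩ := ou b (hS hb) nb
      by_contra h
      obtain ⟨t, -, t2⟩ := ou _ (hS (mul_mem ha hb)) h
      exact C.out_mul m2 l2 t t2
  have nD : ∀ n, φ n ∈ K → n ≠ o 32 ∧ n ≠ o 36 := fun n hn =>
    ⟨fun e => C.noD U hc cV cZ sq (IsConj.refl _) (e ▸ KX hn), fun e => C.noD U hc cV cZ sq
      (((relW_iff C.inj).2 (by decide +kernel : (o 256 : NW) * o 32 * (o 256)⁻¹ = o 36)).isConj) (e ▸ KX hn)⟩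
  have lb : ∀ a, φ a ∈ I → a.v ∈ LC := fun a ha => by
    obtain ⟨u, hu, _, ⟨w, hw, rfl⟩, e⟩ := (hI _).1 ha
    have h3 := mJ a (hIK ha)
    obtain ⟨h4, h5⟩ := (LC1 a h3.1 h3).2.2 w hw
    refine h5 (C.labW hδ U F hQ _ h4 (isConj_iff.2 ⟨u, ?_⟩))
    rw [map_mul, map_mul, map_inv, e, mul_inv_cancel_right, mul_assoc (_ * u⁻¹), ee_map, mul_one]
  have c1 := two K le_rfl
  have c2 := two I hIK
  by_cases hIV : ∀ a, φ a ∈ I → a.v < 4
  · have c3 := card_le_cnt_map C.inj (K ⊓ φ.range) (fun a => InJ a ∧ a ≠ o 32) (by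
      rintro _ ⟨hu, u, rfl⟩
      exact ⟨u, ⟨mJ u hu, (nD u hu).1⟩, rfl⟩)
    have c4 := card_le_cnt_map C.inj (I ⊓ φ.range) (fun a => a.v < 4) (by
      rintro _ ⟨hu, u, rfl⟩
      exact ⟨u, hIV u hu, rfl⟩)
    rw [(by decide +kernel : cnt (fun a : NW => InJ a ∧ a ≠ o 32) = 255)] at c3
    rw [(by decide +kernel : cnt (fun a : NW => a.v < 4) = 4)] at c4
    have := Nat.mul_le_mul (show Nat.card K ≤ 510 by omega) (show Nat.card I ≤ 8 by omega)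
    omega
  push Not at hIV
  obtain ⟨a, ha, h4⟩ := hIV
  obtain ⟨h5, h6⟩ := LC2 _ (lb a ha) (not_lt.2 h4)
  rw [o_v] at h5 h6
  have ca : ∀ u, φ u ∈ K → a * u = u * a := fun u hu => C.inj (by rw [map_mul, map_mul, cI _ ha _ hu])
  have c3 := card_le_countP (φ := φ) (K ⊓ φ.range) (List.range 1024) (fun u => u.v % 512 < 256 ∧ u.v % 32 < 16 ∧
      u ≠ o 32 ∧ u ≠ o 36 ∧ a * u = u * a) (by
    rintro _ ⟨hu, u, rfl⟩
    have h3 := mJ u hu
    exact ⟨u, ⟨List.mem_range.2 h3.1, h3.2.1, (LC1 u h3.1 h3).1, (nD u hu).1, (nD u hu).2, ca u hu⟩, rfl⟩)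
  have c4 : Nat.card I ≤ 16 := by
    by_cases hO : I ≤ φ.range
    · exact (card_le_countP (φ := φ) I LC (fun u => a * u = u * a) fun w hw => by
        obtain ⟨n, rfl⟩ := hO hw
        exact ⟨n, ⟨lb n hw, ca n (hIK hw)⟩, rfl⟩).trans h5
    obtain ⟨g, hg, gO⟩ := SetLike.not_le_iff_exists.1 hO
    obtain ⟨n, n1, n2⟩ := ou g (hIK hg) gO
    have := (card_le_countP (φ := φ) (I ⊓ φ.range) LC (fun u => n * thW u * n⁻¹ = u) (by
      rintro _ ⟨hu, u, rfl⟩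
      exact ⟨u, ⟨lb u hu, (n2 u).uniq C.inj (Rel.of_comm (cI _ hg _ (hIK hu))) rfl⟩, rfl⟩)).trans (LC1 n n1.1 n1).2.1
    omega
  have := Nat.mul_le_mul (show Nat.card K ≤ 254 by omega) c4
  omega

end CfsgLib.SM12
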