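import Mathlib
import Cfsg.Agent.Lib.SM12.WB

/-! Package WQ: the subgroup `Q` when `Y = 1` (plans/SM12.md). -/

set_option autoImplicit false
set_option maxRecDepth 100000
set_option synthInstance.maxSize 4096

namespace CfsgLib.SM12

open Subgroup Cfsg CfsgLib.W2 CfsgLib.W2.TG CfsgLib.Tech CfsgLib.CosetEnum CfsgLib.Yos

variable {G : Type*} [Group G] {σ : G} {φ : NW →* G} {Y Q : Subgroup G} {δ : ℕ}

/-- The facts which are needed for the construction of `Q`. -/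
structure WQC (φ : NW →* G) (δ : ℕ) : Prop where
  inj : Function.Injective φ
  pk : ∀ g ∈ QW φ, psi φ g = 1 → ∃ r ∈ R0, g = φ r
  t3 : ∃ u : G, u * u = 1 ∧ (∀ a, InJ a → W2.Rel φ u a (f3 δ a)) ∧
    ∃ α, InA α ∧ W2.Rel φ u (o 16) (o 16 * α)

theorem WQC.psi_ker (C : WQC φ δ) {g : G} (hg : g ∈ QW φ) (h : psi φ g = 1) : ∃ r ∈ R0, g = φ r :=
  C.pk g hg h

theorem GW.WQ_t3 (hδ : δ < 2) (C : GW φ σ ⊥ δ) : ∃ u : G, u * u = 1 ∧
    (∀ a, InJ a → W2.Rel φ u a (f3 δ a)) ∧ ∃ α, InA α ∧ W2.Rel φ u (o 16) (o 16 * α) := by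
  have j1 : ∀ a, InJ a → InJ (f1 δ a) := fun a ha => (f1_J δ hδ a ha.1 ha).1
  have j3 : ∀ a, InJ a → InJ (f3 δ a) := fun a ha => j1 _ (j1 _ (j1 _ ha))
  have r1 : ∀ a, InJ a → W2.Rel φ (φ (o 256) * σ) a (f1 δ a) := fun a ha =>
    (Rel.conj φ _ _).comp (C.relW hδ a ha)
  set k := φ (o 256) * σ
  have r3 : ∀ a, InJ a → W2.Rel φ (k * (k * k)) a (f3 δ a) := fun a ha =>
    (r1 _ (j1 _ (j1 _ ha))).comp ((r1 _ (j1 _ ha)).comp (r1 _ ha))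
  set u := k * (k * k) with hu
  have r6 : ∀ a, InJ a → W2.Rel φ (u * u) a a := fun a ha =>
    ((r3 _ (j3 _ ha)).comp (r3 _ ha)).of_eq rfl (f1_J δ hδ a ha.1 ha).2.2
  have hJ : LA [1, 2, 4, 8, 32, 64, 128, 512] fun j => InJ (o j : NW) := by decide +kernel
  have uu : u * u = 1 := by
    obtain ⟨n, h1, h2⟩ : ∃ n : NW, n.v % 512 < 64 ∧ u * u = φ n := by
      rcases C.cent _ (mem_Cx'.2 (r6 _ (hJ 32 (by simp)))) (mem_Cx'.2 (r6 _ (hJ 1 (by simp)))) with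
        ⟨y, hy, n, h1, h2⟩ | ⟨n, h1, h2⟩
      · exact ⟨n, h1, by rw [h2, mem_bot.1 hy, one_mul]⟩
      · have H : ∀ n : NW, n.v % 512 < 64 → ¬ LA [4, 8, 64, 128, 512] fun j => n * thW (o j) * n⁻¹ = o j := by
          decide +kernel
        exact absurd (fun j hj => (h2 _).uniq C.inj (r6 _ (hJ j (by
          simp only [List.mem_cons] at hj ⊢; tauto))) rfl) (H n h1)
    have H : ∀ δ < 2, ∀ n : NW, n.v % 512 < 64 → LA [4, 8, 64, 128, 512] (fun j => n * o j * n⁻¹ = o j) →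
        InJ n ∧ (f1 δ n = n → n = 1) := by decide +kernel
    obtain ⟨h3, h4⟩ := H δ hδ n h1 fun j hj => (relW_iff C.inj).1 (h2 ▸ r6 _ (hJ j (by
      simp only [List.mem_cons] at hj ⊢; tauto)))
    rw [h2, h4 ((r1 n h3).uniq C.inj (Rel.of_comm (by rw [← h2, hu]; group)) rfl), map_one]
  refine ⟨u, uu, r3, ?_⟩
  have rq : ∀ a, InJ a → W2.Rel φ (u * φ (o 16) * u⁻¹) a (f3 δ (o 16 * f3 δ a * (o 16)⁻¹)) := fun a ha => by
    rw [← mul_eq_one_iff_eq_inv.1 uu]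
    exact ((r3 _ (f1_J δ hδ _ (j3 a ha).1 (j3 a ha)).2.1).comp (Rel.conj φ _ _)).comp (r3 a ha)
  have H1 : ∀ δ < 2, f3 δ (o 16 * f3 δ (o 1) * (o 16)⁻¹) = o 1 ∧ (f3 δ (o 16 * f3 δ (o 32) * (o 16)⁻¹) = o 32 ∨
    f3 δ (o 16 * f3 δ (o 32) * (o 16)⁻¹) = o 33) := by decide +kernel
  obtain ⟨n, h1, h2⟩ : ∃ n : NW, n.v % 512 < 128 ∧ u * φ (o 16) * u⁻¹ = φ n := by
    rcases C.normE (mem_Cx'.2 ((rq _ (hJ 1 (by simp))).of_eq rfl (H1 δ hδ).1))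
      ((H1 δ hδ).2.imp ((rq _ (hJ 32 (by simp))).of_eq rfl) ((rq _ (hJ 32 (by simp))).of_eq rfl)) with
      ⟨y, hy, n, h1, h2⟩ | ⟨n, h1, h2⟩
    · exact ⟨n, h1, by rw [h2, mem_bot.1 hy, one_mul]⟩
    · have H : ∀ δ < 2, ∀ n : NW, n.v % 512 < 128 → ¬ LA [2, 4, 8, 32, 64, 128, 512]
          fun j => n * thW (o j) * n⁻¹ = f3 δ (o 16 * f3 δ (o j) * (o 16)⁻¹) := by decide +kernel
      exact absurd (fun j hj => (h2 _).uniq C.inj (rq _ (hJ j (by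
        simp only [List.mem_cons] at hj ⊢; tauto))) rfl) (H δ hδ n h1)
  have H2 : ∀ δ < 2, ∀ n : NW, n.v % 512 < 128 → n * n = 1 → LA [2, 4, 8, 32, 64]
      (fun j => n * o j * n⁻¹ = f3 δ (o 16 * f3 δ (o j) * (o 16)⁻¹)) → InA ((o 16)⁻¹ * n) := by
    decide +kernel
  refine ⟨_, H2 δ hδ n h1 (C.inj ?_) fun j hj => (relW_iff C.inj).1 (h2 ▸ rq _ (hJ j (by
    simp only [List.mem_cons] at hj ⊢; tauto))), by rw [mul_inv_cancel_left]; exact h2⟩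
  have : φ (o 16) * φ (o 16) = 1 := by
    rw [← map_mul, (by decide +kernel : (o 16 : NW) * o 16 = 1), map_one]
  rw [map_mul, ← h2, map_one, show u * φ (o 16) * u⁻¹ * (u * φ (o 16) * u⁻¹) =
    u * (φ (o 16) * φ (o 16)) * u⁻¹ by group, this, mul_one, mul_inv_cancel]

section bet
variable (C : WQC φ δ) {g h k : G} (hg : g ∈ QW φ) (hh : h ∈ QW φ)
include C hg hh

theorem WQC.cmR : ∃ r ∈ R0, g * h * g⁻¹ * h⁻¹ = φ r := by
  refine C.psi_ker (mul_mem (mul_mem (mul_mem hg hh) (inv_mem hg)) (inv_mem hh)) ?_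
  rw [psi_mul C.inj (mul_mem (mul_mem hg hh) (inv_mem hg)) (inv_mem hh), psi_mul C.inj (mul_mem hg hh) (inv_mem hg),
    psi_mul C.inj hg hh, psi_inv C.inj hg, psi_inv C.inj hh, mul_assoc, (E16_facts _).1]

theorem WQC.bet_left (hk : k ∈ QW φ) : bet φ (g * h) k = bet φ g k * bet φ h k := by
  obtain ⟨r, hr, e1⟩ := C.cmR hg hk
  obtain ⟨s, hs, e2⟩ := C.cmR hh hk
  obtain ⟨a, ha, e3⟩ := hg.2.1 s hs
  rw [bet, bet, bet, show g * h * k * (g * h)⁻¹ * k⁻¹ = g * (h * k * h⁻¹ * k⁻¹) * g⁻¹ * (g * k * g⁻¹ * k⁻¹) by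
    group, e1, e2, e3, ← map_mul, valE_map C.inj, valE_map C.inj, valE_map C.inj,
    piE_mul (mul_mem hs (A_le ha)) hr, piE_A hs ha, (E16_facts _).2]

theorem WQC.bet_right (hk : k ∈ QW φ) : bet φ g (h * k) = bet φ g h * bet φ g k := by
  obtain ⟨r, hr, e1⟩ := C.cmR hg hh
  obtain ⟨s, hs, e2⟩ := C.cmR hg hk
  obtain ⟨a, ha, e3⟩ := hh.2.1 s hs
  rw [bet, bet, bet, show g * (h * k) * g⁻¹ * (h * k)⁻¹ = g * h * g⁻¹ * h⁻¹ * (h * (g * k * g⁻¹ * k⁻¹) * h⁻¹) by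
    group, e1, e2, e3, ← map_mul, valE_map C.inj, valE_map C.inj, valE_map C.inj,
    piE_mul hr (mul_mem hs (A_le ha)), piE_A hs ha]

theorem WQC.bet_conj : bet φ (φ (o 1024) * g * (φ (o 1024))⁻¹) (φ (o 1024) * h * (φ (o 1024))⁻¹) =
    cjE 1024 (bet φ g h) := by
  obtain ⟨r, hr, e1⟩ := C.cmR hg hh
  rw [bet, bet, conj_inv, conj_inv, conj_mul, conj_mul, conj_mul, e1, Rel.conj φ, valE_map C.inj, valE_map C.inj,
    ((R0_facts r hr.2 hr).2.2.2 1024 (by simp)).1]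

theorem WQC.bet_one (h1 : g * g ∈ A0.map φ) (h2 : h * h ∈ A0.map φ) :
    bet φ g h = 1 ↔ g * h * (g * h) ∈ A0.map φ := by
  obtain ⟨r, hr, e1⟩ := C.cmR hg hh
  obtain ⟨a, ha, e2⟩ := h1
  obtain ⟨b, hb, e3⟩ := h2
  rw [bet, show g * h * (g * h) = g * h * g⁻¹ * h⁻¹ * (h * (g * g) * h⁻¹ * (h * h)) by group, e1, ← e2, ← e3,
    hh.1 a ha, ← map_mul, ← map_mul, mem_map_iff_mem C.inj, valE_map C.inj, piE_one hr,
    mul_mem_cancel_right (mul_mem ha hb)]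

theorem WQC.sq_of (e : psi φ h = psi φ g) (h2 : h * h ∈ A0.map φ) : g * g ∈ A0.map φ := by
  obtain ⟨r, hr, e1⟩ := C.psi_ker (mul_mem (inv_mem hh) hg) (by
    rw [psi_mul C.inj (inv_mem hh) hg, psi_inv C.inj hh, e, (E16_facts _).1])
  obtain ⟨b, hb, e3⟩ := h2
  obtain ⟨a, ha, e2⟩ := hh.2.1 r hr
  rw [show g * g = h * (h⁻¹ * g) * h⁻¹ * (h * h) * (h⁻¹ * g) by group, e1, e2, ← e3, ← map_mul, ← map_mul,
    mul_assoc r, mul_assoc r, ← RA_comm hr (mul_mem ha hb), ← mul_assoc]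
  exact mem_map_of_mem φ (mul_mem (R_sq hr) (mul_mem ha hb))

end bet

theorem WQC.bet_R (C : WQC φ δ) {g : G} (hg : g ∈ QW φ) {r : NW} (hr : r ∈ R0) :
    bet φ g (φ r) = 1 := by
  obtain ⟨a, ha, e⟩ := hg.2.1 r hr
  rw [bet, e, RA_comm hr ha, map_mul, mul_inv_cancel_right, valE_map C.inj, piE_one (A_le ha)]
  exact ha

theorem WQC.t3_mem (hδ : δ < 2) (C : WQC φ δ) : ∃ u ∈ QW φ, u * u = 1 ∧
    ∀ a, InJ a → W2.Rel φ u a (f3 δ a) := by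
  obtain ⟨u, h1, h2, h3⟩ := C.t3
  have H : ∀ δ < 2, LA [1, 64] (fun j => InJ (o j : NW) ∧ f3 δ (o j) = o j) ∧
    LA [2, 4, 8] (fun j => InJ (o j : NW) ∧ InA ((o j)⁻¹ * f3 δ (o j))) ∧ InJ (o 32 : NW) ∧
      InR0 (f3 δ (o 32) * (o 32)⁻¹) := by decide +kernel
  obtain ⟨H1, H2, H3, H4⟩ := H δ hδ
  refine ⟨u, mem_QW ((h2 _ (H1 1 (by simp)).1).of_eq rfl (H1 1 (by simp)).2)
    ((h2 _ (H1 64 (by simp)).1).of_eq rfl (H1 64 (by simp)).2) (fun j hj => ?_)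
    ⟨_, H4, (h2 _ H3).of_eq rfl (by group)⟩, h1, h2⟩
  by_cases e : j = 16
  · exact e ▸ h3
  · have hj' : j ∈ [2, 4, 8] := by simp only [List.mem_cons] at hj ⊢; tauto
    exact ⟨_, (H2 j hj').2, (h2 _ (H2 j hj').1).of_eq rfl (by group)⟩

theorem WQC.exW (hδ : δ < 2) (C : WQC φ δ) (w : E16) : ExW φ w := by
  have hr : 1024 ∈ [32, 512, 1024] := by simp
  have orb : ∀ {L : List ℕ}, (∀ j ∈ L, ExW φ (o j)) → ∀ w, LE L (fun j => w = o j ∨ w = cjE 1024 (o j) ∨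
      w = cjE 1024 (cjE 1024 (o j))) → ExW φ w := by
    rintro L hL w ⟨j, hj, rfl | rfl | rfl⟩
    exacts [hL j hj, (hL j hj).conj C.inj hr, ((hL j hj).conj C.inj hr).conj C.inj hr]
  have x0 : ExW φ (o 0) := ⟨1, one_mem _, psi_one C.inj, by simp⟩
  have x1 : ExW φ (o 1) := ⟨φ (o 128), map_mem_QW (by decide +kernel),
    (psi_eq C.inj (r := o 2) ((relW_iff C.inj).2 (by decide +kernel))).trans (by decide +kernel), by
      rw [← map_mul, (by decide +kernel : (o 128 : NW) * o 128 = 1), map_one]; exact one_mem _⟩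
  have x45 : ExW φ (o 4) ∧ ExW φ (o 5) := by
    obtain ⟨u, hu, h1, h2⟩ := C.t3_mem hδ
    have H : ∀ δ < 2, InJ (o 32 : NW) ∧ (piE (f3 δ (o 32) * (o 32)⁻¹) = o 4 ∨ piE (f3 δ (o 32) * (o 32)⁻¹) = o 5) ∧
      cjE 512 (o 4) = o 5 ∧ cjE 512 (o 5) = o 4 := by decide +kernel
    obtain ⟨H1, H2, H3, H4⟩ := H δ hδ
    have : ExW φ (piE (f3 δ (o 32) * (o 32)⁻¹)) :=
      ⟨u, hu, psi_eq C.inj ((h2 _ H1).of_eq rfl (by group)), h1 ▸ one_mem _⟩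
    rcases H2 with e | e <;> rw [e] at this
    exacts [⟨this, H3 ▸ this.conj C.inj (by simp)⟩, ⟨H4 ▸ this.conj C.inj (by simp), this⟩]
  have sing := orb (L := [0, 1, 4, 5]) (by simp only [List.forall_mem_cons]; exact ⟨x0, x1, x45.1, x45.2, by simp⟩)
  have sq : ∀ g ∈ QW φ, ∀ w, psi φ g = w → LE [0, 1, 4, 5] (fun j => w = o j ∨ w = cjE 1024 (o j) ∨
      w = cjE 1024 (cjE 1024 (o j))) → g * g ∈ A0.map φ := fun g hg w e hw => by
    obtain ⟨h, hh, h1, h2⟩ := sing w hw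
    exact C.sq_of hg hh (h1.trans e.symm) h2
  obtain ⟨a, ha, pa, sa⟩ := id x1
  obtain ⟨b, hb, pb, sb⟩ := x45.1
  have ha' := conj_mem_QW hr ha
  have hb' := conj_mem_QW hr hb
  have hb'' := conj_mem_QW hr hb'
  have pa' := psi_conj C.inj hr ha
  have pb' := psi_conj C.inj hr hb
  have pb'' := psi_conj C.inj hr hb'
  have cb := C.bet_conj ha hb'
  rw [pb'] at pb''
  rw [pa] at pa'
  rw [pb] at pb' pb''
  generalize φ (o 1024) * a * (φ (o 1024))⁻¹ = a' at *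
  generalize φ (o 1024) * b * (φ (o 1024))⁻¹ = b' at *
  generalize φ (o 1024) * b' * (φ (o 1024))⁻¹ = b'' at *
  have sa' := sq a' ha' _ pa' (by decide +kernel)
  have sb' := sq b' hb' _ pb' (by decide +kernel)
  have b1 : bet φ a b = 1 := (C.bet_one ha hb sa sb).2 (sq _ (mul_mem ha hb) _
    (by rw [psi_mul C.inj ha hb, pa, pb]) (by decide +kernel))
  have b2 : bet φ a' b' = 1 := (C.bet_one ha' hb' sa' sb').2 (sq _ (mul_mem ha' hb') _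
    (by rw [psi_mul C.inj ha' hb', pa', pb']) (by decide +kernel))
  have paa := psi_mul C.inj ha ha'
  have pbb := psi_mul C.inj hb hb'
  rw [pa, pa'] at paa
  rw [pb, pb'] at pbb
  have b3 : bet φ (a * a') (b * b') = 1 := (C.bet_one (mul_mem ha ha') (mul_mem hb hb')
    (sq _ (mul_mem ha ha') _ paa (by decide +kernel)) (sq _ (mul_mem hb hb') _ pbb (by decide +kernel))).2
    (sq _ (mul_mem (mul_mem ha ha') (mul_mem hb hb')) _
      (by rw [psi_mul C.inj (mul_mem ha ha') (mul_mem hb hb'), paa, pbb]) (by decide +kernel))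
  rw [C.bet_left ha ha' (mul_mem hb hb'), C.bet_right ha hb hb', C.bet_right ha' hb hb', b1, b2, one_mul,
    mul_one] at b3
  obtain ⟨r, hr', e⟩ := C.psi_ker (mul_mem (inv_mem (mul_mem hb hb')) hb'') (by
    rw [psi_mul C.inj (inv_mem (mul_mem hb hb')) hb'', psi_inv C.inj (mul_mem hb hb'), pbb, pb'']
    decide +kernel)
  rw [inv_mul_eq_iff_eq_mul.1 e, C.bet_right ha' (mul_mem hb hb') (R_mem_QW hr'), C.bet_R ha' hr',
    C.bet_right ha' hb hb', b2, mul_one, mul_one] at cb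
  obtain ⟨b4, b5⟩ := (by decide +kernel : ∀ u w : E16, u * w = 1 → w = cjE 1024 u → u = 1 ∧ w = 1) _ _ b3 cb
  refine orb (L := [0, 1, 4, 5, 9, 6]) ?_ w (by revert w; decide +kernel)
  simp only [List.forall_mem_cons]
  refine ⟨x0, x1, x45.1, x45.2, ⟨_, mul_mem ha hb', ?_, (C.bet_one ha hb' sa sb').1 b4⟩,
    ⟨_, mul_mem ha' hb, ?_, (C.bet_one ha' hb sa' sb).1 b5⟩, by simp⟩
  · rw [psi_mul C.inj ha hb', pa, pb']; decide +kernel
  · rw [psi_mul C.inj ha' hb, pa', pb]; decide +kernel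

theorem WQC.exists_QF [Finite G] (hδ : δ < 2) (C : WQC φ δ) : ∃ Q, QF φ Q := by
  have HA : InA (o 1) ∧ InA (o 64) := by decide +kernel
  have ker : ∀ g ∈ QW φ, psi φ g = 1 ↔ g ∈ R0.map φ := fun g hg => ⟨fun h => by
      obtain ⟨r, hr, rfl⟩ := C.psi_ker hg h
      exact mem_map_of_mem φ hr, by
    rintro ⟨r, hr, rfl⟩
    rw [psi_eq C.inj (r := r * o 32 * r⁻¹ * (o 32)⁻¹) ((Rel.conj φ _ _).of_eq rfl (by group))]
    exact (by decide +kernel : UT 128 fun r : NW => InR0 r → piE (r * o 32 * r⁻¹ * (o 32)⁻¹) = 1) r hr.2 hr⟩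
  have ge : R0.map φ ≤ QW φ := by
    rintro _ ⟨r, hr, rfl⟩
    exact R_mem_QW hr
  refine ⟨QW φ, fun g hg => ⟨mem_Cx'.2 (hg.1 _ HA.1), mem_Cx'.2 (hg.1 _ HA.2)⟩, ge, ?_, fun g hg => ?_,
    mem_normalizer_of_forall fun g => conj_mem_QW (by simp),
    mem_normalizer_of_forall fun g => conj_mem_QW (by simp), fun g ⟨_, _, r, hr, h⟩ => ⟨r, hr, (rel_e.1 h).symm⟩,
    fun g hg ⟨a, ha, h⟩ => (ker g hg).1 ?_, fun r hr => ?_, fun n hn h => ?_⟩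
  · obtain ⟨K, W, h1, h2, h3⟩ := card_homW (QW φ) (psi φ) fun a ha b hb => psi_mul C.inj ha hb
    have e1 : K = R0.map φ := Subgroup.ext fun a => (h2 a).trans
      ⟨fun h => (ker a h.1).1 h.2, fun h => ⟨ge h, (ker a (ge h)).2 h⟩⟩
    have e2 : W = ⊤ := eq_top_iff.2 fun w _ => by
      obtain ⟨g, hg, h, -⟩ := C.exW hδ w
      exact (h3 w).2 ⟨g, hg, h⟩
    rw [h1, e1, e2, card_top, card_eq, card_map_of_injective C.inj, R0, card_subG]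
    decide +kernel
  · obtain ⟨h, hh, h1, h2⟩ := C.exW hδ (psi φ g)
    exact C.sq_of hg hh h1 h2
  · rw [psi, ← h, valE_map C.inj, piE_one (A_le ha)]
    exact ha
  · obtain ⟨g, hg, h1, -⟩ := C.exW hδ (piE r)
    obtain ⟨-, -, s, hs, h2⟩ := id hg
    refine ⟨g, hg, ?_⟩
    rw [rel_e.1 h2, ← map_mul, mem_map_iff_mem C.inj, ← piE_one (mul_mem hs hr), piE_mul hs hr, ← psi_eq C.inj h2,
      h1, (E16_facts _).1]
  · obtain ⟨u, hu, -, h2⟩ := C.t3_mem hδ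
    have H : ∀ δ < 2, UT 128 fun n : NW => LA [128, 256] (fun j => o j * n * (o j)⁻¹ = n ∨
        o j * n * (o j)⁻¹ = n * o 1) → InJ n ∧ InJ ((o 1024)⁻¹ * n * o 1024) ∧ ((f3 δ n = n ∨ f3 δ n = n * o 1) →
        (o 1024 * f3 δ ((o 1024)⁻¹ * n * o 1024) * (o 1024)⁻¹ = n ∨
          o 1024 * f3 δ ((o 1024)⁻¹ * n * o 1024) * (o 1024)⁻¹ = n * o 1) → InA n) := by decide +kernel
    have H' : LA [128, 256] fun j => InQ (o j) := by decide +kernel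
    obtain ⟨h3, h4, h5⟩ := H δ hδ n hn fun j hj =>
      (h _ (map_mem_QW (H' j hj))).imp (relW_iff C.inj).1 (relW_iff C.inj).1
    have h6 := ((h2 _ h4).conj_by (o 1024)).of_eq (p' := n) (by group) rfl
    exact h5 ((h u hu).imp (fun e => (h2 n h3).uniq C.inj e rfl) fun e => (h2 n h3).uniq C.inj e rfl)
      ((h _ (conj_mem_QW (m := 1024) (by simp) hu)).imp (fun e => h6.uniq C.inj e rfl) fun e => h6.uniq C.inj e rfl)

theorem GW.exists_QF0 [Finite G] (hδ : δ < 2) (C : GW φ σ ⊥ δ) : ∃ Q, QF φ Q :=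
  WQC.exists_QF hδ ⟨C.inj, fun g hg h => by
    obtain ⟨y, hy, r, hr, e⟩ := C.psi_ker hg h
    exact ⟨r, hr, by rw [e, mem_bot.1 hy, one_mul]⟩, C.WQ_t3 hδ⟩

end CfsgLib.SM12
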