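import Mathlib
import Cfsg.Agent.Lib.SM12.WQ
import Cfsg.Agent.Lib.SM12.Lift

/-! Package WL: the subgroup `Q` (plans/SM12.md). -/

set_option autoImplicit false
set_option maxRecDepth 100000
set_option synthInstance.maxSize 4096

namespace CfsgLib.SM12

open Subgroup Cfsg CfsgLib.W2 CfsgLib.W2.TG CfsgLib.Tech CfsgLib.CosetEnum CfsgLib.Yos

variable {G : Type*} [Group G] {σ : G} {φ : NW →* G} {Y Q : Subgroup G} {δ : ℕ}

theorem WL.two : (∀ r : NW, r.v < 128 → r ^ 2 ^ 2 = 1) ∧ (o 1 : NW).v < 128 ∧ (o 64 : NW).v < 128 := by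
  decide +kernel

/-- Lifting `QF` through a central kernel of odd order. -/
theorem WL.lift {H Γ : Type*} [Group H] [Finite H] [Group Γ] {π : H →* Γ} (C : Cov π)
    (hs : Function.Surjective π) {ψ : NW →* H} {Q : Subgroup Γ} (F : QF (π.comp ψ) Q) : ∃ R, QF ψ R := by
  obtain ⟨R, hc, hm, hR⟩ := C.lift (IsPGroup.of_card (n := 10) F.card) (fun x _ => hs x)
  have t : ∀ r : NW, r.v < 128 → Two (ψ r) := fun r hr => Two.map ψ ⟨2, WL.two.1 r hr⟩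
  have tA : ∀ r ∈ A0, Two (ψ r) := fun r hr => t r (mem_subG.1 hr).2
  have tR : ∀ r ∈ R0, Two (ψ r) := fun r hr => t r (mem_subG.1 hr).2
  have cx : ∀ g, ∀ r : NW, r.v < 128 → π g ∈ Cx (π.comp ψ r) → g ∈ Cx (ψ r) := fun g r hr h =>
    mem_Cx'.2 (C.uniq ((t r hr).conj g) (t r hr) (by
      rw [map_mul, map_mul, map_inv]
      exact mem_Cx'.1 h))
  have nm : ∀ a, π.comp ψ a ∈ normalizer (Q : Set Γ) → ψ a ∈ normalizer (R : Set H) := fun a h =>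
    mem_normalizer_fintype fun g (hg : g ∈ R) => (hR _).2 ⟨((hR g).1 hg).1.conj _, by
      rw [map_mul, map_mul, map_inv]
      exact (mem_normalizer_iff.1 h _).1 ((hR g).1 hg).2⟩
  have ge : R0.map ψ ≤ R := by
    rintro _ ⟨r, hr, rfl⟩
    exact (hR _).2 ⟨tR r hr, F.ge ⟨r, hr, rfl⟩⟩
  have back : ∀ (S : Subgroup NW), (∀ r ∈ S, Two (ψ r)) → ∀ g ∈ R, π g ∈ S.map (π.comp ψ) → g ∈ S.map ψ :=
    fun S hS g hg ⟨r, hr, h⟩ => ⟨r, hr, C.uniq (hS r hr) ((hR g).1 hg).1 h⟩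
  have ee : (ψ (o 32))⁻¹ = ψ (o 32) := by
    rw [← map_inv, show (o 32 : NW)⁻¹ = o 32 by decide +kernel]
  have cm : ∀ g ∈ R, g * ψ (o 32) * g⁻¹ * ψ (o 32) ∈ R := fun g hg => by
    have := mul_mem hg ((mem_normalizer_iff.1 (nm _ F.ne) _).1 (inv_mem hg))
    rwa [ee, ← mul_assoc, ← mul_assoc] at this
  have pc : ∀ g, π (g * ψ (o 32) * g⁻¹ * ψ (o 32)) = π g * π.comp ψ (o 32) * (π g)⁻¹ * π.comp ψ (o 32) :=
    fun g => by rw [map_mul, map_mul, map_mul, map_inv]; rfl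
  have rl : ∀ g a b, W2.Rel ψ g a b → W2.Rel (π.comp ψ) (π g) a b := fun g a b h => by
    show π _ * π _ * (π _)⁻¹ = π _
    rw [← map_inv, ← map_mul, ← map_mul]
    exact congrArg π h
  refine ⟨R, fun g hg => ?_, ge, hc.trans F.card, fun g hg => back _ tA _ (mul_mem hg hg) ?_, nm _ F.ne,
    nm _ F.nt, fun g hg => back _ tR _ (cm g hg) ?_, fun g hg h => back _ tR _ hg (F.ker _ ((hR g).1 hg).2 ?_),
    fun r hr => ?_, fun n hn h => F.cen n hn fun g hg => ?_⟩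
  · have := F.le ((hR g).1 hg).2
    exact ⟨cx g _ WL.two.2.1 this.1, cx g _ WL.two.2.2 this.2⟩
  · rw [map_mul]
    exact F.sq _ ((hR g).1 hg).2
  · rw [pc]
    exact F.ce _ ((hR g).1 hg).2
  · obtain ⟨a, ha, e⟩ := h
    exact ⟨a, ha, by rw [← pc, ← e]; rfl⟩
  · obtain ⟨x, hx, h⟩ := F.surj r hr
    obtain ⟨g, hg, rfl⟩ : x ∈ R.map π := hm ▸ hx
    refine ⟨g, hg, back _ tA _ (mul_mem (cm g hg) (ge ⟨r, hr, rfl⟩)) ?_⟩
    rwa [map_mul, pc]
  · obtain ⟨u, hu, rfl⟩ : g ∈ R.map π := hm ▸ hg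
    exact (h u hu).imp (rl u _ _) (rl u _ _)

theorem WL.map {H : Type*} [Group H] {ψ : NW →* H} {R : Subgroup H} (F : QF ψ R) (f : H →* G)
    (hf : Function.Injective f) : QF (f.comp ψ) (R.map f) := by
  have cx : ∀ g r, g ∈ Cx (ψ r) → f g ∈ Cx (f.comp ψ r) := fun g r h => mem_Cx.2 (by
    show f _ * f _ = f _ * f _
    rw [← map_mul, ← map_mul, mem_Cx.1 h])
  have up : ∀ (S : Subgroup NW) g, f g ∈ S.map (f.comp ψ) ↔ g ∈ S.map ψ := fun S g => by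
    rw [← map_map, mem_map_iff_mem hf]
  have pc : ∀ g, f (g * ψ (o 32) * g⁻¹ * ψ (o 32)) = f g * f.comp ψ (o 32) * (f g)⁻¹ * f.comp ψ (o 32) :=
    fun g => by rw [map_mul, map_mul, map_mul, map_inv]; rfl
  have rl : ∀ g a b, W2.Rel (f.comp ψ) (f g) a b → W2.Rel ψ g a b := fun g a b h => hf (by
    rw [map_mul, map_mul, map_inv]
    exact h)
  refine ⟨?_, ?_, (card_map_of_injective hf).trans F.card, ?_, le_normalizer_map f ⟨_, F.ne, rfl⟩,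
    le_normalizer_map f ⟨_, F.nt, rfl⟩, ?_, ?_, fun r hr => ?_, fun n hn h => F.cen n hn fun g hg => ?_⟩
  · rintro _ ⟨g, hg, rfl⟩
    exact ⟨cx g _ (F.le hg).1, cx g _ (F.le hg).2⟩
  · rw [← map_map]
    exact map_mono F.ge
  · rintro _ ⟨g, hg, rfl⟩
    rw [← map_mul, up]
    exact F.sq g hg
  · rintro _ ⟨g, hg, rfl⟩
    rw [← pc, up]
    exact F.ce g hg
  · rintro _ ⟨g, hg, rfl⟩ h
    rw [← pc, up] at h
    exact (up _ _).2 (F.ker g hg h)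
  · obtain ⟨g, hg, h⟩ := F.surj r hr
    refine ⟨f g, ⟨g, hg, rfl⟩, ?_⟩
    rw [← pc]
    exact map_mul f _ _ ▸ (up _ _).2 h
  · exact (h _ ⟨g, hg, rfl⟩).imp (rl g _ _) (rl g _ _)

theorem GW.exists_QF [Finite G] (hδ : δ < 2) (C : GW φ σ Y δ) :
    ∃ Q, QF φ Q ∧ ∀ g ∈ Q, ∀ y ∈ Y, g * y = y * g := by
  have hn : (Y.subgroupOf (centralizer (Y : Set G))).Normal := ⟨fun y hy g => by
    show g.1 * y.1 * g.1⁻¹ ∈ Y
    rwa [← mem_centralizer_iff.1 g.2 y.1 hy, mul_inv_cancel_right]⟩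
  let π := QuotientGroup.mk' (Y.subgroupOf (centralizer (Y : Set G)))
  have hs : Function.Surjective π := QuotientGroup.mk'_surjective _
  have hk : ∀ g, π g = 1 ↔ g.1 ∈ Y := fun g => QuotientGroup.eq_one_iff g
  have hφ : ∀ a, φ a ∈ centralizer (Y : Set G) := fun a => mem_centralizer_iff.2 fun y hy => (C.cY a y hy).symm
  obtain ⟨φ', C', h⟩ := C.desc π hs hk hφ (mem_centralizer_iff.2 fun y hy => (C.sY y hy).symm)
  obtain rfl : φ' = π.comp (φ.codRestrict _ hφ) := MonoidHom.ext h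
  obtain ⟨Q0, F0⟩ := C'.exists_QF0 hδ
  obtain ⟨R, F⟩ := WL.lift (cov_cent C.odd π hk) hs F0
  refine ⟨_, WL.map F _ (subtype_injective _), ?_⟩
  rintro _ ⟨g, -, rfl⟩ y hy
  exact (mem_centralizer_iff.1 g.2 y hy).symm

end CfsgLib.SM12
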