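import Mathlib
import Cfsg.Agent.Lib.SM12.WGb
import Cfsg.Agent.Lib.SM12.WL

/-! Package WGC: the wreathed case is impossible (plans/SM12.md). -/

set_option autoImplicit false
set_option maxRecDepth 100000
set_option synthInstance.maxSize 4096

namespace CfsgLib.SM12

open Subgroup Cfsg CfsgLib.W2 CfsgLib.W2.TG CfsgLib.Tech CfsgLib.CosetEnum CfsgLib.Yos

variable {G : Type*} [Group G] {σ : G} {φ : NW →* G} {Y Q : Subgroup G} {δ : ℕ}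

theorem GW.false [Finite G] (hδ : δ < 2) (C : GW φ σ Y δ) (U : Fu φ) (hO : φ (o 32) ∈ pResidual 2 G) :
    False := by
  obtain ⟨Q, F, hQY⟩ := C.exists_QF hδ
  obtain ⟨T, hT, hQ, he, hz, hA, hN⟩ := C.exists_syl F hQY
  have HA : InA (o 1) ∧ InA (o 64) ∧ (o 32 : NW) * o 64 * (o 32)⁻¹ = o 64 * o 1 ∧ (o 64 : NW) * o 1 ≠ o 64 ∧
    (o 64 : NW) * o 1 * o 1 = o 64 ∧ InS (o 32) ∧ InJ (o 64 : NW) ∧ (o 1 : NW) * o 1 = 1 ∧ (o 64 : NW) * o 64 = 1 ∧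
    (o 1 : NW) ≠ 1 ∧ (o 64 : NW) ≠ 1 ∧ (o 64 : NW) ≠ o 1 ∧ UT 128 fun a : NW => InA a →
      a = 1 ∨ a = o 1 ∨ a = o 64 ∨ a = o 64 * o 1 := by decide +kernel
  obtain ⟨a1, a2, a3, a4, a5, a6, a7, a8, a9, b1, b2, b3, b4⟩ := HA
  have rz : ∀ b ∈ T, W2.Rel φ b (o 1) (o 1) := fun b hb => mem_Cx'.1 (hz hb)
  have hx : ∀ b ∈ T, W2.Rel φ b (o 64) (o 64) ∨ W2.Rel φ b (o 64) (o 64 * o 1) := fun b hb => by
    obtain ⟨a, ha, e⟩ := conj_mem_of_mem_normalizer (hA hb) (mem_map_of_mem φ a2)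
    have e' : W2.Rel φ b (o 64) a := e.symm
    rcases b4 a ha.2 ha with rfl | rfl | rfl | rfl
    exacts [absurd (e'.uniq' C.inj Rel.one rfl) b2, absurd (e'.uniq' C.inj (rz b hb) rfl) b3, Or.inl e', Or.inr e']
  have re : W2.Rel φ (φ (o 32)) (o 64) (o 64 * o 1) := (relW_iff C.inj).2 a3
  obtain ⟨k, h1, h2⟩ := thompson_ext (H := T) (Q := Cx (φ (o 64))) (by rw [← relIndex_top_right]; exact hT.not_dvd)
    (index_eq_two_iff.2 ⟨⟨_, he⟩, fun b => (hx b b.2).elim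
      (fun h => Or.inr ⟨mem_Cx'.2 h, fun h' => a4 (((h.mul (rz b b.2)).comp re).uniq C.inj (mem_Cx'.1 h') rfl)⟩)
      fun h => Or.inl ⟨mem_Cx'.2 (((h.mul (rz b b.2)).comp re).of_eq rfl a5),
        fun h' => a4 (h.uniq C.inj (mem_Cx'.1 h') rfl)⟩⟩) ee_map hO C.pS.1 C.pS.2
  have h3 := h2 _ (mem_map_of_mem φ a6)
  have HS : LA [1, 4, 8, 16, 512] fun j => InS (o j) := by decide +kernel
  have hS : ∀ j ∈ [4, 8, 16, 512], k⁻¹ * φ (o j) * k ∈ T := fun j hj =>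
    h2 _ (mem_map_of_mem φ (HS j (List.mem_cons_of_mem _ hj)))
  have cc : ∀ {a b : G}, k⁻¹ * b * k ∈ Cx a → k * a * k⁻¹ ∈ Cx b := fun {a b} h => by
    have := conj_mem_Cx (g := k).2 (Cx_comm.1 h)
    rwa [show k * (k⁻¹ * b * k) * k⁻¹ = b by group] at this
  have H : ∀ n : NW, n.v % 512 < 64 → (n * n = 1 → LA [4, 8, 16, 512] (fun j => n * o j * n⁻¹ = o j ∨
      n * o j * n⁻¹ = o 1 * o j) → n ≠ 1 → (n = o 1 ∨ (n.v < 4 ∧ (n * o 1).v < 4 ∧ n * o 16 * n⁻¹ ≠ o 16 ∧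
        (o 2 = n ∨ o 2 = n * o 1))) ∨ LE [0, 64, 128, 192] fun j => o j * o 32 * (o j)⁻¹ = n) ∧
      ¬ LA [4, 8, 16, 512] fun j => n * thW (o j) * n⁻¹ = o j ∨ n * thW (o j) * n⁻¹ = o 1 * o j := by
    decide +kernel
  have key : ∀ a : NW, a * a = 1 → a ≠ 1 → k⁻¹ * φ (o 32) * k ∈ Cx (φ a) → k⁻¹ * φ (o 1) * k ∈ Cx (φ a) →
      ¬ IsConj (φ (o 32)) (φ a) → (∀ j ∈ [4, 8, 16, 512], W2.Rel φ (k * φ a * k⁻¹) (o j) (o j) ∨
        W2.Rel φ (k * φ a * k⁻¹) (o j) (o 1 * o j)) → ∃ n, W2.Rel φ k a n ∧ (n = o 1 ∨ (n.v < 4 ∧ (n * o 1).v < 4 ∧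
          n * o 16 * n⁻¹ ≠ o 16 ∧ (o 2 = n ∨ o 2 = n * o 1))) := fun a q1 q2 q3 q4 q5 q6 => by
    rcases C.cent _ (cc q3) (cc q4) with ⟨y, hy, n, h4, h5⟩ | ⟨n, h4, h5⟩
    · rw [C.inner_two hy (h5 ▸ (two_of_sq (by rw [← map_mul, q1, map_one])).conj k), one_mul] at h5
      have r : W2.Rel φ k a n := h5
      rw [h5] at q6
      refine ⟨n, r, ((H n h4).1 ((r.mul r).uniq C.inj Rel.one q1) (fun j hj => (q6 j hj).imp (relW_iff C.inj).1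
        (relW_iff C.inj).1) fun e => q2 (r.uniq' C.inj Rel.one e)).resolve_right fun ⟨j, _, e⟩ => q5 ?_⟩
      exact ((relW_iff C.inj).2 e).isConj.trans r.isConj.symm
    · exact absurd (fun j hj => (q6 j hj).imp (fun h => (h5 _).uniq C.inj h rfl) fun h => (h5 _).uniq C.inj h rfl)
        (H n h4).2
  have r1 : W2.Rel φ k (o 1) (o 1) := by
    obtain ⟨n, r, rfl | h4⟩ := key (o 1) a8 b1 (hz h3) (hz (h2 _ (mem_map_of_mem φ (HS 1 (by simp))))) U.nc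
      fun j hj => Or.inl (mem_Cx'.1 (cc (hz (hS j hj))))
    · exact r
    · have := mem_Cx'.1 (cc (hz (hS 16 (by simp))))
      rw [r] at this
      exact absurd ((relW_iff C.inj).1 this) h4.2.2.1
  obtain ⟨n2, r2, h4⟩ := key (o 64) a9 b2 h1 (by
      have := r1.symm
      rw [W2.Rel, inv_inv] at this
      exact this.symm ▸ mem_Cx.2 (F.cA _ (F.ge (mem_map_of_mem φ (A_le a1))) _ (mem_map_of_mem φ a2)))
    (fun h => absurd (C.labW hδ U F hQY _ a7 h) (by decide +kernel)) fun j hj =>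
      (hx _ (hS j hj)).imp (fun h => mem_Cx'.1 (cc (mem_Cx'.2 h))) fun h => by
        have i64 : (φ (o 64))⁻¹ = φ (o 64) := inv_eq_of_mul_eq_one_right (by rw [← map_mul, a9, map_one])
        rw [W2.Rel, map_mul] at h ⊢
        calc _ = k * (φ (o 64) * (k⁻¹ * φ (o j) * k * (φ (o 64))⁻¹ * (k⁻¹ * φ (o j) * k)⁻¹)) * k⁻¹ * φ (o j) := by group
          _ = _ := by rw [i64, h, ← mul_assoc (φ _), ← map_mul, a9, map_one, one_mul, r1]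
  obtain ⟨h4, h5, -, h6⟩ := h4.resolve_left fun e => b3 (r2.uniq' C.inj r1 e)
  have cQ : ∀ {a b}, a ∈ A0 → W2.Rel φ k a b → cj k Q ≤ Cx (φ b) := fun ha h => cj_le_iff.2 fun u hu =>
    Eq.symm h ▸ conj_mem_Cx.2 (mem_Cx.2 (F.cA u hu _ (mem_map_of_mem φ ha)))
  have mQ : ∀ {a b}, a ∈ A0 → W2.Rel φ k a b → φ b ∈ cj k Q := fun ha h =>
    Eq.symm h ▸ conj_mem_cj.2 (F.ge (mem_map_of_mem φ (A_le ha)))
  refine C.no_big hδ U F hQY (X := cj k Q) (by rw [card_cj, F.card]) (map_le_iff_le_comap.2 (subG_le ?_)) (cQ a1 r1) ?_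
    (fun u hu => ?_) (by rw [← cj_normalizer, mem_cj]; exact hN h3)
  · simp only [List.forall_mem_cons]
    refine ⟨mQ a1 r1, ?_, by simp⟩
    rcases h6 with e | e <;> rw [e]
    exacts [mQ a2 r2, mQ (mul_mem a2 a1) (r2.mul r1)]
  · rcases h6 with e | e <;> rw [e]
    exacts [cQ a2 r2, cQ (mul_mem a2 a1) (r2.mul r1)]
  · obtain ⟨a, ha, e⟩ := F.sq _ (mem_cj.1 hu)
    rw [show u * u = k * (k⁻¹ * u * k * (k⁻¹ * u * k)) * k⁻¹ by group, ← e]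
    rcases b4 a ha.2 ha with rfl | rfl | rfl | rfl
    exacts [by simp, ⟨_, (by decide +kernel : (o 1 : NW).v < 4), Eq.symm r1⟩, ⟨_, h4, Eq.symm r2⟩,
      ⟨_, h5, Eq.symm (r2.mul r1)⟩]

end CfsgLib.SM12
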