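import Mathlib
import Cfsg.Agent.Lib.SM12.Fr
import Cfsg.Agent.Lib.Yos.XB

/-! Package XBA: homomorphisms from the models of order 3072 (plans/SM12.md). -/

set_option autoImplicit false
set_option maxRecDepth 100000
set_option synthInstance.maxSize 4096

namespace CfsgLib.SM12

open Subgroup Cfsg CfsgLib.W2 CfsgLib.W2.TG CfsgLib.Tech CfsgLib.CosetEnum CfsgLib.Yos

variable {G : Type*} [Group G] {e σ d g x : G} {φ : HM →* G} {Y L : Subgroup G} {b : Prop} {c i : ℕ}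

theorem Fr.exists_xr (C : Fr e φ σ Y L d b) (X : XA e φ σ x c i) :
    ∃ ψ : RG →* G, XR e φ σ ψ c (o (8 * c + 34 * i)) ∧ ψ (o 64) = x := by
  have cm := fun p => (C.comm p).symm
  obtain ⟨ψ, hq, he, hx⟩ := exists_homR C.ee X.xx cm X.xq X.xe
  have hc := X.hc
  have hi := X.hi
  have hs := C.rel
  simp only [List.forall_mem_cons] at hs
  obtain ⟨s1, s2, s4, s8, s32, -⟩ := hs
  have s3 : W2.Rel φ σ (o 3) (o 1) := (s1.mul s2).of_eq (by decide +kernel) (by decide +kernel)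
  have s46 : W2.Rel φ σ (o 46) (o 32) := by simpa using (s32.inv_of_cube C.s3 s4).symm
  have se : σ * e * σ⁻¹ = e := mem_Cx'.1 (C.Le C.sL)
  have tr : ∀ {u : G} {p q : ℕ}, p < 32 → q < 32 → W2.Rel φ u (o p) (o q) → W2.Rel ψ u (o p) (o q) :=
    fun hp hq' h => by rwa [W2.Rel, hq _ hp, hq _ hq']
  have cj : ∀ {p q p' q' : HM}, W2.Rel φ x p q → W2.Rel φ σ p p' → W2.Rel φ σ q q' →
      W2.Rel φ (σ * x * σ⁻¹) p' q' := fun h h1 h2 => (h2.comp h).comp h1.symm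
  set y := σ * x * σ⁻¹ with hy
  have yy : y * y = 1 := by rw [hy, conj_mul, X.xx]; simp
  have y1 := tr (by norm_num) (by norm_num) (cj (X.xq 3 (by norm_num)) s3 s3)
  have y2 := tr (by norm_num) (by norm_num) (cj (X.xq 1 (by norm_num)) s1 s1)
  have y8 := tr (by norm_num) (by norm_num) (cj (X.xq 8 (by norm_num)) s8 s8)
  have y4 : W2.Rel ψ y (o 4) (o (4 + 2 * c)) := tr (by norm_num) (by omega) (cj X.xt s32 (by
    interval_cases c
    exacts [s32, (s32.mul s1).of_eq (by decide +kernel) (by decide +kernel)]))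
  have yt : W2.Rel φ y (o 32) (o (32 + 2 * c)) := by
    interval_cases c
    · exact cj (((X.xq 14 (by norm_num)).mul X.xt).of_eq (by decide +kernel) (by decide +kernel)) s46 s46
    · exact cj (((X.xq 14 (by norm_num)).mul X.xt).of_eq (by decide +kernel) (by decide +kernel)) s46
        ((s46.mul s1).of_eq rfl (by decide +kernel))
  have ye : W2.Rel ψ y (o 32) (o 34) := by
    rw [W2.Rel, he, show (o 34 : RG) = o 32 * o 2 by decide +kernel, map_mul, he, hq 2 (by norm_num), ← s1]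
    nth_rewrite 1 [← se]
    rw [hy, mul_inv_rev, inv_inv, mul_inv_rev]
    calc _ = σ * (x * e * x⁻¹) * σ⁻¹ := by group
      _ = _ := by rw [X.xe, ← conj_mul, se]
  set k : RG := o (8 * c + 34 * i) with hk
  have ek : φ (o (8 * c + 2 * i)) * e ^ i = ψ k := by
    rw [← hq _ (by omega), ← he, ← map_pow, ← map_mul, hk]
    congr 1
    interval_cases c <;> interval_cases i <;> decide +kernel
  have yk : W2.Rel ψ y k (k * o ((k.v / 32) * 2)) := by
    rw [hk]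
    interval_cases c <;> interval_cases i
    exacts [Rel.one.of_eq (by decide +kernel) (by decide +kernel),
      (y2.mul ye).of_eq (by decide +kernel) (by decide +kernel),
      y8.of_eq (by decide +kernel) (by decide +kernel),
      ((y8.mul y2).mul ye).of_eq (by decide +kernel) (by decide +kernel)]
  have e2 : σ⁻¹ * x * σ = y * ψ (o 64 * k) := by
    rw [map_mul, hx, ← ek, ← X.k, ← mul_assoc x, ← mul_assoc x, X.xx, one_mul, ← mul_assoc y, yy, one_mul]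
  have e3 : W2.Rel ψ y (o 64 * k) (o 64 * k)⁻¹ := by
    have : y * ψ (o 64 * k) * (y * ψ (o 64 * k)) = 1 := by
      rw [← e2, show σ⁻¹ * x * σ * (σ⁻¹ * x * σ) = σ⁻¹ * (x * x) * σ by group, X.xx]; simp
    rw [W2.Rel, map_inv, eq_inv_iff_mul_eq_one, inv_eq_of_mul_eq_one_right yy, mul_assoc, this]
  have e4 : W2.Rel ψ y (o 16) (o 16 * (o 64 * k)⁻¹) := by
    have qq : φ (o 16) * φ (o 16) = 1 := by rw [← map_mul, ← map_one φ]; congr 1
    have : φ (o 16) * y * φ (o 16) = σ⁻¹ * x * σ := by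
      have h1 := C.qinv
      have h2 := (X.xq 16 (by norm_num)).comm
      rw [← inv_eq_of_mul_eq_one_right qq] at h1
      calc φ (o 16) * y * φ (o 16) = (φ (o 16) * σ * φ (o 16)) * (φ (o 16))⁻¹ * x * φ (o 16) *
            (φ (o 16) * σ * φ (o 16))⁻¹ * (φ (o 16) * φ (o 16)) := by rw [hy]; group
        _ = _ := by rw [C.qinv, qq, mul_assoc (_ * _) x, h2]; group
    rw [W2.Rel, map_mul, ← e3, ← e2, ← this, hq 16 (by norm_num), ← mul_assoc, ← mul_assoc, ← mul_assoc, qq,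
      one_mul]
  have cjq : ∀ (h : HM) {p q : ℕ}, p < 32 → q < 32 → h * o p * h⁻¹ = o q → W2.Rel ψ (φ h) (o p) (o q) :=
    fun h _ _ hp hq e => tr hp hq ((Rel.conj φ h _).of_eq rfl e)
  have cje : ∀ h : HM, W2.Rel ψ (φ h) (o 32) (o 32) := fun h => Rel.of_comm (by rw [he, cm])
  refine ⟨ψ, ⟨hq, he, injective_of_socle ψ (z := o 1) (fun h => ?_) [o 2, o 4, o 8, o 16, o 32, o 64]
    (by decide +kernel), relR ?_, relR ?_, hx ▸ relR ?_, hx ▸ yt, hx ▸ e2⟩, hx⟩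
  · rw [hq 1 (by norm_num), ← map_one φ] at h
    exact absurd (C.inj h) (by decide +kernel)
  · refine .cons ?_ (.cons ?_ (.cons ?_ (.cons ?_ (.cons ?_ (.cons (cje _) (.cons ?_ .nil))))))
    iterate 5 exact cjq _ (by norm_num) (by norm_num) (by decide +kernel)
    exact Rel.of_comm (by rw [hx, X.xr.comm])
  · refine .cons ?_ (.cons ?_ (.cons ?_ (.cons ?_ (.cons ?_ (.cons (cje _) (.cons ?_ .nil))))))
    iterate 5 exact cjq _ (by norm_num) (by norm_num) (by decide +kernel)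
    have h1 : (o (32 + c) : HM) = o 32 * o c := by interval_cases c <;> decide +kernel
    have h2 : (o (64 + c) : RG) = o c * o 64 := by interval_cases c <;> decide +kernel
    have h3 : (o 32 * (o 32 * o c) : HM) = o c := by interval_cases c <;> decide +kernel
    have tt : φ (o 32) * φ (o 32) = 1 := by rw [← map_mul, ← map_one φ]; congr 1
    rw [W2.Rel, h2, map_mul, hx, hq c (by omega), ← h3, map_mul, ← h1, ← X.xt,
      inv_eq_of_mul_eq_one_right tt]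
    group
  · refine .cons y1 (.cons y2 (.cons y4 (.cons y8 (.cons (by rw [o_v]; exact e4) (.cons ye
      (.cons ?_ .nil))))))
    rw [o_v]
    exact (e3.mul yk.inv).of_eq (mul_inv_cancel_right _ _) rfl


variable {c : G} {k : ℕ}

theorem Fr.actR {ψ : RG →* G} {r : RG} (F : Fr e φ σ Y L c b) (X : XR e φ σ ψ k r) {w : G} {f : RG → RG}
    (hw : ∀ a, W2.Rel ψ w a (f a)) (h : f (o 1) = o 1 ∧ f (o 32) = o 32 ∧ ∀ q < 32, (f (o q)).v < 32) :
    ∃ p : HT, (p.v < 192 ∨ b) ∧ (∀ q < 32, p * o q * p⁻¹ = o (f (o q)).v) ∧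
      ∃ y ∈ Y, ∃ i < 2, w = y * φ (o (p.v % 192)) * c ^ (p.v / 192) * e ^ i := by
  obtain ⟨p, h1, h2, h3⟩ := F.act (g := w) (mem_Cx'.2 (X.e ▸ (hw _).of_eq rfl h.2.1))
    (mem_Cx'.2 (X.q 1 (by norm_num) ▸ (hw _).of_eq rfl h.1))
  refine ⟨p, h1, fun q hq => ?_, h3⟩
  have h4 : cT p (o q) = o (f (o q)).v := F.inj (by
    rw [← h2, ← X.q _ (h.2.2 q hq), o_v, ← hw, X.q q hq])
  have h5 := em_cT p (o q)
  rw [h4, em_apply, em_apply, v_o (k := q) (by omega), v_o ((h.2.2 q hq).trans (by norm_num))] at h5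
  exact h5.symm

theorem Fr.centR {ψ : RG →* G} {r : RG} (F : Fr e φ σ Y L c b) (X : XR e φ σ ψ k r)
    (hY : ∀ a, ∀ y ∈ Y, ψ a * y = y * ψ a) {w : G} (hw : ∀ a, W2.Rel ψ w a a) :
    ∃ δ < 2, ∃ y ∈ Y, w = y * ψ (o δ) := by
  obtain ⟨p, -, h, y, hy, j, hj, e⟩ := F.actR X (f := id) hw (by decide +kernel)
  obtain ⟨δ, h1, rfl⟩ : ∃ δ < 2, p = o δ := by revert h; clear * -; revert p; decide +kernel
  rw [v_o (by omega), Nat.mod_eq_of_lt (by omega), Nat.div_eq_of_lt (by omega), pow_zero, mul_one,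
    ← X.q δ (by omega), ← X.e, ← map_pow, mul_assoc, ← map_mul] at e
  subst e
  interval_cases j
  · exact ⟨δ, h1, y, hy, by rw [pow_zero, mul_one]⟩
  · exact absurd ((hw (o 64)).uniq X.inj ((Rel.of_comm (hY _ y hy).symm).comp (Rel.conj ψ _ _)) rfl)
      (by interval_cases δ <;> decide +kernel)

theorem Fr.cR {ψ : RG →* G} {r : RG} (F : Fr e φ σ Y L c b) (X : XR e φ σ ψ k r)
    (hx : ∀ y ∈ Y, ψ (o 64) * y = y * ψ (o 64)) (a : RG) : ∀ y ∈ Y, ψ a * y = y * ψ a := fun y hy =>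
  mem_Cx.1 ((eq_top_of_genB (gs := [o 2, o 4, o 8, o 16, o 32, o 64]) (D := 3) (by decide +kernel)
    (S := (Cx y).comap ψ) (by
      have h : ∀ q < 32, o q ∈ (Cx y).comap ψ := fun q hq => mem_Cx.2 (X.q q hq ▸ F.cφ _ y hy)
      simp only [List.forall_mem_cons]
      exact ⟨h 2 (by norm_num), h 4 (by norm_num), h 8 (by norm_num), h 16 (by norm_num),
        Cx_comm.1 (X.e ▸ F.eY hy), mem_Cx.2 (hx y hy), by simp⟩)).ge (mem_top a))

theorem Fr.hom {ψ : RG →* G} {r₀ r : RG} (F : Fr e φ σ Y L c b) (X : XR e φ σ ψ k r₀)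
    (hx : ∀ y ∈ Y, ψ (o 64) * y = y * ψ (o 64)) {a1 a2 a3 : ℕ → ℕ → ℕ} {iN : ℕ → ℕ}
    {k1 : TOk 256 (sdm 128 mR Nat.xor a1) iN}
    {k2 : TOk 512 (sdm 256 (sdm 128 mR Nat.xor a1) Nat.xor a2) iN}
    (k3 : TOk 3072 (sdm 512 (sdm 256 (sdm 128 mR Nat.xor a1) Nat.xor a2) mS a3) iN) {lg : List ℕ}
    (H : BOk k1 k2 (wR [1, 2, 6, 11, 31, 32, 64 + k]) (wR lg) r (a3 := a3)) (gg : g * g = 1)
    (gY : ∀ y ∈ Y, g * y = y * g) (hg : ∀ a, W2.Rel ψ g a (wR lg a)) (tg : φ (o 32) * g * (φ (o 32))⁻¹ = g)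
    (d1 : ∀ a, wR lg (wR lr (wR lg (wR lr (wR lg (wR lr a))))) = r * a * r⁻¹)
    (d2 : ∀ δ < 2, wR [1, 2, 6, 11, 31, 32, 64 + k] (o δ) = o δ ∧ wR lg (o δ) = o δ)
    (d3 : ∀ p : HM, (o (p.v % 32) * o (512 * (p.v / 32)) : TG k3) = o (p.v % 32 + 512 * (p.v / 32)))
    (d4 : genB ([o 2, o 4, o 8, o 16, o 32, o 64, o 128, o 512, o 1024] : List (TG k3)) 6 = true) :
    ∃ (Φ : TG k3 →* G) (δ : ℕ), δ < 2 ∧ (∀ a : RG, Φ (o a.v) = ψ a) ∧ Φ (o 128) = g * ψ (o δ) ∧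
      (∀ p : HM, Φ (o (p.v % 32 + 512 * (p.v / 32))) = φ p) ∧ ∀ a, ∀ y ∈ Y, Φ a * y = y * Φ a := by
  set ρ := φ (o 64) with eρ
  have cY := F.cR X hx
  have r3 : ρ * ρ * ρ = 1 := by rw [eρ, ← map_mul, ← map_mul, ← map_one φ]; congr 1
  have e1 : ∀ u : G, u * (ρ * u * ρ⁻¹) * (ρ * (ρ * u * ρ⁻¹) * ρ⁻¹) = u * ρ * (u * ρ) * (u * ρ) := fun u =>
    calc _ = u * ρ * (u * ρ) * (u * (ρ * ρ)⁻¹) := by group
      _ = _ := by rw [inv_eq_of_mul_eq_one_right r3]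
  obtain ⟨δ, hδ, y, hy, hw⟩ := F.centR X cY (w := (ψ r)⁻¹ * (g * ρ * (g * ρ) * (g * ρ))) fun a =>
    ((Rel.conj ψ r a).symm.comp (((((hg _).comp (X.r _)).comp ((hg _).comp (X.r _))).comp
      ((hg _).comp (X.r a))).of_eq rfl (d1 a)))
  obtain rfl : y = 1 := by
    set g2 := ρ * g * ρ⁻¹ with e2
    set g3 := ρ * g2 * ρ⁻¹ with e3
    have gg2 : g2 * g2 = 1 := by rw [e2, conj_mul, gg]; simp
    have gg3 : g3 * g3 = 1 := by rw [e3, conj_mul, gg2]; simp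
    have c3 : g3 ∈ Cx y :=
      have : ρ ∈ Cx y := mem_Cx.2 (F.cφ _ y hy)
      mul_mem (mul_mem this (mul_mem (mul_mem this (mem_Cx.2 (gY y hy))) (inv_mem this))) (inv_mem this)
    obtain ⟨s, hs⟩ : ∃ s, W2.Rel ψ g3 (r * o δ) s := by
      have ri := fun a => (X.r a).inv_of_cube r3 (X.r _)
      exact ⟨_, ((X.r _).comp (((X.r _).comp (hg _)).comp (ri _))).comp (ri _)⟩
    have u2 : ψ (r * o δ) * g3 * (ψ (r * o δ) * g3) = ψ (r * o δ * s) := by
      rw [map_mul ψ _ s, ← hs, inv_eq_of_mul_eq_one_right gg3]; group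
    have u8 : (ψ (r * o δ) * g3) ^ 16 = 1 := by
      rw [show 16 = 2 * 8 from rfl, pow_mul, sq, u2, ← map_pow,
        (by decide +kernel : ∀ a : RG, a ^ 8 = 1), map_one]
    have w : g * g2 = y * (ψ (r * o δ) * g3) := by
      rw [← e1, inv_mul_eq_iff_eq_mul, ← mul_assoc (ψ r), cY r y hy, mul_assoc y, ← map_mul] at hw
      rw [← mul_assoc y, ← hw, ← e2, ← e3, mul_assoc (g * g2), gg3, mul_one]
    have cu : Commute y (ψ (r * o δ) * g3) := Commute.mul_right (cY _ y hy).symm (mem_Cx.1 c3).symm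
    have w16 : (g * g2) ^ 16 = y ^ 16 := by rw [w, cu.mul_pow, u8, mul_one]
    have wi : g * (g * g2) * g⁻¹ = (g * g2)⁻¹ := by
      rw [← mul_assoc, gg, one_mul, mul_inv_rev, inv_eq_of_mul_eq_one_right gg2]
    have := congrArg (· ^ 16) wi
    simp only [conj_pow, inv_pow, w16] at this
    rw [gY _ (pow_mem hy _), mul_inv_cancel_right, eq_inv_iff_mul_eq_one, ← pow_add] at this
    exact eq_one_of_two F.odd hy ⟨5, this⟩
  rw [one_mul] at hw
  obtain ⟨c4, c5⟩ := d2 δ hδ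
  obtain ⟨c1, c2, c3⟩ : (∀ a : RG, o δ * a * (o δ)⁻¹ = a) ∧ wR lr (o δ) = o δ ∧ (o δ * o δ : RG) = 1 := by
    interval_cases δ <;> decide +kernel
  have zg : Commute (ψ (o δ)) g := ((hg _).of_eq rfl c5).comm.symm
  have zr : Commute (ψ (o δ)) ρ := ((X.r _).of_eq rfl c2).comm.symm
  have zz : ψ (o δ) * ψ (o δ) = 1 := by rw [← map_mul, c3, map_one]
  obtain ⟨Φ, f1, f2, f3⟩ := build k1 k2 k3 H ψ (φ.comp s3H) (g := g * ψ (o δ))
    (by rw [← sq, zg.symm.mul_pow, sq, sq, gg, zz, one_mul]) X.r X.t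
    (fun a => (hg a).comp ((Rel.conj ψ _ a).of_eq rfl (c1 a)))
    (show φ (o 32) * _ * (φ (o 32))⁻¹ = _ by rw [← conj_mul, tg, ((X.t _).of_eq rfl c4 :)])
    ((e1 _).trans (by
      rw [mul_assoc g, zr.eq, ← mul_assoc g, ← pow_three', (zg.mul_right zr).symm.mul_pow, pow_three',
        pow_three', zz, one_mul, inv_mul_eq_iff_eq_mul.1 hw, mul_assoc, zz, mul_one]))
  have fq : ∀ q < 128, Φ (o q) = ψ (o q) := fun q hq => by rw [← f1, v_o hq]
  have fp : ∀ p : HM, Φ (o (p.v % 32 + 512 * (p.v / 32))) = φ p := fun p => by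
    have h := f3 (o (p.v / 32))
    rw [v_o (by have := p.v_lt; omega)] at h
    rw [← d3 p, map_mul, h, fq _ (by omega), X.q _ (by omega), MonoidHom.comp_apply, ← map_mul,
      ← (by decide +kernel : ∀ p : HM, p = o (p.v % 32) * s3H (o (p.v / 32))) p]
  refine ⟨Φ, δ, hδ, f1, f2, fp, fun a y hy => mem_Cx.1 ((eq_top_of_genB d4 (S := (Cx y).comap Φ) ?_).ge (mem_top a))⟩
  have h : ∀ q < 128, o q ∈ (Cx y).comap Φ := fun q hq => mem_Cx.2 (fq q hq ▸ cY _ y hy)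
  simp only [List.forall_mem_cons]
  exact ⟨h 2 (by norm_num), h 4 (by norm_num), h 8 (by norm_num), h 16 (by norm_num), h 32 (by norm_num),
    h 64 (by norm_num), mem_comap.2 (f2 ▸ mul_mem (mem_Cx.2 (gY y hy)) (mem_Cx.2 (cY _ y hy))),
    mem_Cx.2 (fp (o 32) ▸ F.cφ _ y hy), mem_Cx.2 (fp (o 64) ▸ F.cφ _ y hy), by simp⟩

end CfsgLib.SM12
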