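import Mathlib
import Cfsg.Agent.Lib.SM12.XBa

/-! Package XBB: the three cases (plans/SM12.md). -/

set_option autoImplicit false
set_option maxRecDepth 100000
set_option synthInstance.maxSize 4096

namespace CfsgLib.SM12

open Subgroup Cfsg CfsgLib.W2 CfsgLib.W2.TG CfsgLib.Tech CfsgLib.CosetEnum CfsgLib.Yos

variable {G : Type*} [Group G] {e σ c g x : G} {φ : HM →* G} {Y L : Subgroup G} {b : Prop} {k i : ℕ}
  {ψ : RG →* G} {r : RG}

theorem Fr.ge (F : Fr e φ σ Y L c b) (X : XR e φ σ ψ k r) {n : ℕ} {m : ℕ → ℕ → ℕ} {j : ℕ → ℕ} {h : TOk n m j}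
    {Φ : TG h →* G} {Out : G → Prop} {xp xq : ℕ} (f1 : ∀ a : RG, Φ (o a.v) = ψ a)
    (fp : ∀ p : HM, Φ (o (p.v % 32 + 512 * (p.v / 32))) = φ p) (cY : ∀ a, ∀ y ∈ Y, Φ a * y = y * Φ a)
    (fy : Φ (o xp) = σ * ψ (o 64) * σ⁻¹) (d1 : (o xp * o (o 64 * r).v : TG h) = o xq)
    (d2 : ∀ p : HM, ∀ i < 2, (o (p.v % 32 + 512 * (p.v / 32)) * o 32 ^ i : TG h).v % 512 < 64)
    (d3 : ∀ g : TG h, g = 1 ∨ g = o 1 ∨ LE [o 2, o 4, o 8, o 16, o 32, o 64] fun k =>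
      k * g * k⁻¹ * g⁻¹ = o 1 ∨ LE [o 2, o 4, o 8, o 16, o 32, o 64] fun l =>
        l * (k * g * k⁻¹ * g⁻¹) * l⁻¹ * (k * g * k⁻¹ * g⁻¹)⁻¹ = o 1)
    (ho : b → ∀ y ∈ Y, ∀ a : TG h, a.v % 512 < 64 →
      (∃ y' ∈ Y, ∃ a' : TG h, a'.v % 512 < 64 ∧ y * Φ a * c = y' * Φ a') ∨ Out (y * Φ a * c)) :
    GE Φ σ Y Out xp xq ∧ Φ (o 32) = e ∧ Φ (o 1) = φ (o 1) := by
  have fq : ∀ q < 128, Φ (o q) = ψ (o q) := fun q hq => by rw [← f1, v_o hq]
  have fe : Φ (o 32) = e := (fq _ (by norm_num)).trans X.e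
  have fp' : ∀ p < 192, Φ (o (p % 32 + 512 * (p / 32))) = φ (o p) := fun p hp => by rw [← fp, v_o hp]
  have fz : Φ (o 1) = φ (o 1) := fp' 1 (by norm_num)
  refine ⟨⟨injective_of_socle Φ (z := o 1) (fun h => ?_) _ d3, F.odd, cY, F.cY σ F.sL, fun g h3 h4 => ?_, F.s3, ?_⟩,
    fe, fz⟩
  · rw [fz, ← map_one φ] at h
    exact absurd (F.inj h) (by decide +kernel)
  · obtain ⟨y, hy, p, i, hi, rfl | ⟨hb, rfl⟩⟩ := F.cent g (fe ▸ h3) (fz ▸ h4)
    · exact .inl ⟨y, hy, _, d2 p i hi, by rw [map_mul, map_pow, fp, fe, mul_assoc]⟩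
    · have := ho hb y hy _ (d2 p i hi)
      rwa [map_mul, map_pow, fp, fe, ← mul_assoc, mul_assoc _ (e ^ i),
        ((Commute.pow_right (mem_Cx.1 F.ce) i).eq).symm, ← mul_assoc] at this
  · have hs := F.rel
    have tr : ∀ p < 192, ∀ q < 192, W2.Rel φ σ (o p) (o q) →
        W2.Rel Φ σ (o (p % 32 + 512 * (p / 32))) (o (q % 32 + 512 * (q / 32))) := fun p hp q hq h => by
      rwa [W2.Rel, fp' p hp, fp' q hq]
    simp only [List.forall_mem_cons] at hs ⊢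
    obtain ⟨s1, s2, s4, s8, s32, -⟩ := hs
    refine ⟨tr 1 (by norm_num) 2 (by norm_num) s1, tr 2 (by norm_num) 3 (by norm_num) s2,
      tr 4 (by norm_num) 46 (by norm_num) s4, tr 8 (by norm_num) 8 (by norm_num) s8, ?_,
      tr 32 (by norm_num) 4 (by norm_num) s32, ?_, ?_, by simp⟩
    · rw [W2.Rel, fe]; exact mem_Cx'.1 (F.Le F.sL)
    · rw [W2.Rel, fy, fq _ (by norm_num)]
    · rw [W2.Rel, ← d1, map_mul, fy, f1, ← X.k]
      calc _ = σ * σ * ψ (o 64) * (σ * σ)⁻¹ := by group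
        _ = _ := by rw [eq_inv_of_mul_eq_one_left F.s3, inv_inv]

/-- The relations of `θ = t c`. -/
structure Th (φ : HM →* G) (ψ : RG →* G) (y c θ : G) (k : ℕ) : Prop where
  eq : θ = φ (o 32) * c
  h : ∀ a, W2.Rel φ θ a (cT (o 224) a)
  r : ∀ a, W2.Rel ψ θ a (wR [1, 2, 4, 11, 21, 32, 64] a)
  y : Commute θ y
  sq : θ * θ = φ (o 1)

theorem Fr.th (F : Fr e φ σ Y L c b) (hb : b) (X : XR e φ σ ψ k r) (hk : k < 2)
    (hθ : ψ (o 64) * (φ (o 32) * c) = φ (o 32) * c * ψ (o 64)) :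
    Th φ ψ (σ * ψ (o 64) * σ⁻¹) c (φ (o 32) * c) k := by
  have h : ∀ a, W2.Rel φ (φ (o 32) * c) a (cT (o 224) a) := fun a =>
    ((Rel.conj φ _ _).comp (F.crel hb a)).of_eq rfl (by revert a; decide +kernel)
  have tr : ∀ p < 32, ∀ q < 32, cT (o 224) (o p) = o q → W2.Rel ψ (φ (o 32) * c) (o p) (o q) :=
    fun p hp q hq l => by rw [W2.Rel, X.q p hp, X.q q hq, h, l]
  refine ⟨rfl, h, relR ?_, ?_, ?_⟩
  · refine .cons ?_ (.cons ?_ (.cons ?_ (.cons ?_ (.cons ?_ (.cons ?_ (.cons (Rel.of_comm hθ.symm) .nil))))))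
    iterate 5 exact tr _ (by norm_num) _ (by norm_num) (by decide +kernel)
    rw [W2.Rel, X.e]; exact mem_Cx'.1 (mul_mem (F.φe _) F.ce)
  · have h1 : ψ (o 64) * c * (ψ (o 64))⁻¹ = φ (o k) * c := by
      have h2 := X.t (o 64)
      rw [W2.Rel, show wR [1, 2, 6, 11, 31, 32, 64 + k] (o 64) = o k * o 64 by interval_cases k <;> decide +kernel,
        map_mul, X.q k (by omega)] at h2
      have h3 : φ (o k) * φ (o k) = 1 := by rw [← map_mul, ← map_one φ]; congr 1; interval_cases k <;> decide +kernel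
      have h4 : φ (o 32) * φ (o k) = φ (o k) * φ (o 32) := by
        rw [← map_mul, ← map_mul]; congr 1; interval_cases k <;> decide +kernel
      refine mul_left_cancel (a := φ (o k) * φ (o 32)) ?_
      calc _ = φ (o k) * (φ (o 32) * ψ (o 64) * (φ (o 32))⁻¹) * (φ (o 32) * c) * (ψ (o 64))⁻¹ := by group
        _ = _ := by
          rw [h2, ← mul_assoc (φ _) (φ _), h3, one_mul, hθ, mul_inv_cancel_right, ← h4, mul_assoc (φ _),
            ← mul_assoc (φ (o k)), h3, one_mul]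
    have h2 : W2.Rel φ σ (o k) (o (2 * k)) := by
      interval_cases k
      exacts [Rel.one.of_eq o_zero.symm o_zero.symm, F.rel (1, 2) (by simp)]
    have h3 : σ * ψ (o 64) * σ⁻¹ * c * (σ * ψ (o 64) * σ⁻¹)⁻¹ = φ (o (2 * k)) * c :=
      calc _ = σ * (ψ (o 64) * (σ⁻¹ * (c * σ)) * (ψ (o 64))⁻¹) * σ⁻¹ := by group
        _ = _ := by rw [F.cs, inv_mul_cancel_left, h1, ← h2, mul_assoc σ, mul_assoc σ, mul_assoc σ, mul_assoc (φ _),
          mul_assoc (φ _), (Commute.inv_right F.cs).eq]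
    refine (mul_inv_eq_iff_eq_mul.1 ?_ : _ * _ = _ * _).symm
    rw [← conj_mul, h3, X.yt, ← mul_assoc, ← map_mul]
    congr 2; interval_cases k <;> decide +kernel
  · rw [show (o 1 : HM) = o 32 * cT (o 192) (o 32) by decide +kernel, map_mul, ← F.crel hb,
      inv_eq_of_mul_eq_one_right F.cc]
    simp only [mul_assoc]

theorem Fr.not_comm (F : Fr e φ σ Y L c b) (hb : b) {p : HT} (hp : p * o 224 * p⁻¹ = o 1 * o 224) {y : G}
    (hy : y ∈ Y) : ¬ Commute (φ (o 32) * c) (y * φ (o (p.v % 192)) * c ^ (p.v / 192) * e ^ i) := fun h => by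
  obtain ⟨Ψ, -, h1, h2⟩ := F.exists_ht hb
  obtain ⟨d1, d2, d3⟩ : p = em (o (p.v % 192)) * o 192 ^ (p.v / 192) ∧ (o 224 : HT) = em (o 32) * o 192 ∧
      (o 1 : HT) = em (o 1) := by clear * -; revert p; decide +kernel
  have h3 := congrArg Ψ hp
  rw [map_mul, map_mul, map_mul, map_inv, d2, d3, map_mul, h1, h1, h2, d1, map_mul, map_pow, h1, h2] at h3
  have h4 : φ (o 32) * c ∈ Cx e := mul_mem (F.φe _) F.ce
  generalize φ (o 32) * c = θ at *
  rw [mul_assoc y] at h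
  generalize φ (o (p.v % 192)) * c ^ (p.v / 192) = u at *
  have h5 := mul_mem (inv_mem hy) (conj_mem_of_mem_normalizer (F.nY h4) hy)
  have h6 : θ * (y * u) = y * u * θ := by
    have := h.eq
    rwa [← mul_assoc θ, mul_assoc _ (e ^ i), ← (Commute.pow_right (mem_Cx.1 h4) i).eq, ← mul_assoc (y * u),
      mul_left_inj] at this
  rw [show y⁻¹ * (θ * y * θ⁻¹) = y⁻¹ * (θ * (y * u)) * u⁻¹ * θ⁻¹ by group, h6,
    show y⁻¹ * (y * u * θ) * u⁻¹ = u * θ * u⁻¹ by group, h3, mul_inv_cancel_right] at h5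
  exact absurd (F.eq_one h5) (by decide +kernel)

theorem bokS : BOk ok1S ok2S (wR [1, 2, 6, 11, 31, 32, 64]) (wR [1, 2, 5, 10, 118, 35, 67]) (o 0) (a3 := a3S) := by
  unfold BOk; decide +kernel

theorem zz_aux {N : ℕ} {m : ℕ → ℕ → ℕ} {j : ℕ → ℕ} {h : TOk N m j} {Φ : TG h → G} (f : ∀ a : RG, Φ (o a.v) = ψ a)
    {δ : ℕ} (hδ : δ < 2) : g * ψ (o δ) * Φ (o δ) = g := by
  have := f (o δ)
  rw [v_o (by omega)] at this
  rw [this, mul_assoc, ← map_mul, show (o δ * o δ : RG) = 1 by interval_cases δ <;> decide +kernel,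
    map_one, mul_one]

theorem Fr.caseW (F : Fr e φ σ Y L c b) (X : XR e φ σ ψ 0 (o 0)) (hx : ∀ y ∈ Y, ψ (o 64) * y = y * ψ (o 64))
    (yY : ∀ y ∈ Y, σ * ψ (o 64) * σ⁻¹ * y = y * (σ * ψ (o 64) * σ⁻¹))
    (yy : σ * ψ (o 64) * σ⁻¹ * (σ * ψ (o 64) * σ⁻¹) = 1)
    (T : b → Th φ ψ (σ * ψ (o 64) * σ⁻¹) c (φ (o 32) * c) 0) :
    ∃ (ψ : NW →* G) (δ : ℕ), δ < 2 ∧ GW ψ σ Y δ ∧ ψ (o 32) = e ∧ ψ (o 1) = φ (o 1) := by
  obtain ⟨Φ, δ, hδ, f1, f2, fp, cY⟩ := F.hom X hx ok3W bokW yy yY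
    (fun a => (X.y a).of_eq rfl (by revert a; decide +kernel)) (mem_Cx'.1 (mem_Cx.2 X.yt.comm.symm))
    (by decide +kernel) (by decide +kernel) (by decide +kernel) (by decide +kernel)
  refine ⟨Φ, δ, hδ, F.ge X f1 fp cY ?_ (by interval_cases δ <;> decide +kernel) (by decide +kernel)
    (by decide +kernel) fun hb y hy a ha => .inr ⟨a * o 512, by revert a; decide +kernel, ?_⟩⟩
  · rw [show (o (128 + δ) : NW) = o 128 * o δ by interval_cases δ <;> decide +kernel, map_mul, f2, zz_aux f1 hδ]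
  have T := T hb
  have ft : Φ (o 512) = φ (o 32) := fp (o 32)
  have : ∀ p, W2.Rel Φ (φ (o 32) * c) p (thW p) := fun p => by
    refine rel_of_gen thW (fun _ => True) [o 2, o 8, o 32, o 64, o 128, o 512, o 1024] 6 (by decide +kernel) ?_ p trivial
    have q : ∀ q < 128, (thW (o q)) = o (wR [1, 2, 4, 11, 21, 32, 64] (o q)).v →
        W2.Rel Φ (φ (o 32) * c) (o q) (thW (o q)) := fun q hq l => by
      rw [W2.Rel, l, f1, ← T.r, ← f1, v_o hq]
    have q' : ∀ q : HM, thW (o (q.v % 32 + 512 * (q.v / 32))) =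
        o ((cT (o 224) q).v % 32 + 512 * ((cT (o 224) q).v / 32)) → W2.Rel Φ (φ (o 32) * c)
          (o (q.v % 32 + 512 * (q.v / 32))) (thW (o (q.v % 32 + 512 * (q.v / 32)))) := fun q l => by
      rw [W2.Rel, l, fp, fp, T.h]
    simp only [List.forall_mem_cons]
    refine ⟨q 2 (by norm_num) ?_, q 8 (by norm_num) ?_, q 32 (by norm_num) ?_, q 64 (by norm_num) ?_, ?_,
      q' (o 32) ?_, q' (o 64) ?_, by simp⟩
    iterate 4 decide +kernel
    · rw [show thW (o 128) = o 128 by decide +kernel, W2.Rel, f2, ← conj_mul, T.y.eq, mul_inv_cancel_right, T.r]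
      congr 2; interval_cases δ <;> decide +kernel
    all_goals decide +kernel
  intro p
  have tt : φ (o 32) * φ (o 32) = 1 := by rw [← map_mul, ← map_one φ]; congr 1
  rw [show y * Φ a * c = y * (Φ (a * o 512) * (φ (o 32) * c)) by
    rw [map_mul, ft, mul_assoc (Φ a), ← mul_assoc (φ _), tt, one_mul, mul_assoc]]
  exact (Rel.of_comm (cY _ y hy).symm).comp ((Rel.conj Φ _ _).comp (this p))

theorem Fr.caseC (F : Fr e φ σ Y L c b) (hb : ¬ b) (X : XR e φ σ ψ 1 (o 42))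
    (hx : ∀ y ∈ Y, ψ (o 64) * y = y * ψ (o 64))
    (yY : ∀ y ∈ Y, σ * ψ (o 64) * σ⁻¹ * y = y * (σ * ψ (o 64) * σ⁻¹))
    (yy : σ * ψ (o 64) * σ⁻¹ * (σ * ψ (o 64) * σ⁻¹) = 1) :
    ∃ (ψ : NC →* G) (δ : ℕ), δ < 2 ∧ GC ψ σ Y δ ∧ ψ (o 32) = e ∧ ψ (o 1) = φ (o 1) := by
  set y := σ * ψ (o 64) * σ⁻¹ with hy
  set t := φ (o 32) with et
  have tt : t * t = 1 := by rw [et, ← map_mul, ← map_one φ]; congr 1
  have yt : y * t * y⁻¹ = t * ψ (o 2) := by
    rw [X.q 2 (by norm_num), et, ← map_mul]; exact X.yt.of_eq rfl (by decide +kernel)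
  have t1 := (X.t (o 36)).of_eq rfl (show _ = o 36 * (o 2)⁻¹ by decide +kernel)
  have t2 := (X.t (o 2)).of_eq rfl (show _ = o 2 by decide +kernel)
  have tg : t * (ψ (o 36) * t * y) * t⁻¹ = ψ (o 36) * t * y := by
    have h3 : t * y * t⁻¹ = ψ (o 2) * y := by
      rw [mul_inv_eq_iff_eq_mul] at yt
      rw [inv_eq_of_mul_eq_one_right tt, mul_assoc, yt, mul_assoc t, ← mul_assoc t, tt, one_mul]
    rw [← conj_mul, ← conj_mul, t1, h3, mul_inv_cancel_right, map_mul, map_inv, mul_assoc, mul_assoc,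
      ← mul_assoc t, t2.comm, mul_assoc (ψ _), inv_mul_cancel_left, mul_assoc]
  obtain ⟨Φ, δ, hδ, f1, f2, fp, cY⟩ := F.hom X hx ok3C bokC (g := ψ (o 36) * t * y) (by
      have y1 := ((X.t _).comp (X.y (o 36))).of_eq rfl (show _ = (o 36)⁻¹ * (o 2)⁻¹ by decide +kernel)
      calc _ = ψ (o 36) * (t * y * ψ (o 36) * (t * y)⁻¹) * t * (y * t * y⁻¹) * (y * y) := by group
        _ = 1 := by rw [y1, yt, yy, map_mul, map_inv, map_inv, mul_assoc _ t, ← mul_assoc t, tt]; group)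
    (fun u hu => mem_Cx.1 (mul_mem (mul_mem (mem_Cx.2 (F.cR X hx _ u hu)) (mem_Cx.2 (F.cφ _ u hu)))
      (mem_Cx.2 (yY u hu)))) (fun a => (((Rel.conj ψ (o 36) _).comp (X.t _)).comp (X.y a)).of_eq rfl
      (by revert a; decide +kernel)) tg (by decide +kernel) (by decide +kernel) (by decide +kernel) (by decide +kernel)
  refine ⟨Φ, δ, hδ, F.ge X f1 fp cY ?_ (by interval_cases δ <;> decide +kernel) (by decide +kernel)
    (by decide +kernel) fun h => absurd h hb⟩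
  rw [show (o (678 + δ) : NC) = o 512 * (o (o 36 : RG).v)⁻¹ * (o 128 * o δ) by interval_cases δ <;> decide +kernel,
    map_mul, map_mul, map_mul, f2, zz_aux f1 hδ, map_inv, f1, show Φ (o 512) = t from fp (o 32), mul_assoc (ψ _),
    mul_assoc, inv_mul_cancel_left, ← mul_assoc, tt, one_mul]

theorem Fr.caseS (F : Fr e φ σ Y L c b) (hb : b) (X : XR e φ σ ψ 0 (o 34))
    (hx : ∀ y ∈ Y, ψ (o 64) * y = y * ψ (o 64))
    (yY : ∀ y ∈ Y, σ * ψ (o 64) * σ⁻¹ * y = y * (σ * ψ (o 64) * σ⁻¹))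
    (yy : σ * ψ (o 64) * σ⁻¹ * (σ * ψ (o 64) * σ⁻¹) = 1) (cc : ∀ y ∈ Y, c * y = y * c)
    (T : Th φ ψ (σ * ψ (o 64) * σ⁻¹) c (φ (o 32) * c) 0) :
    ∃ (ψ : NT →* G) (δ : ℕ), δ < 2 ∧ GS ψ σ Y δ ∧ ψ (o 32) = e ∧ ψ (o 1) = φ (o 1) := by
  set y := σ * ψ (o 64) * σ⁻¹ with hy
  set θ := φ (o 32) * c with eθ
  have z1 : φ (o 1) = ψ (o 1) := (X.q 1 (by norm_num)).symm
  have tθ : φ (o 32) * θ * (φ (o 32))⁻¹ = ψ (o 1) * θ := by
    have := T.h (o 32)⁻¹
    rw [W2.Rel, mul_inv_eq_iff_eq_mul, map_inv] at this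
    rw [mul_assoc, this, ← mul_assoc, ← map_mul, ← z1]
    exact congrArg (φ · * θ) (by decide +kernel)
  have tg : ∀ u, φ (o 32) * (ψ (o 77) * θ * y * u) * (φ (o 32))⁻¹ = ψ (o 77) * θ * y * (φ (o 32) * u * (φ (o 32))⁻¹) :=
    fun u => by
      rw [← conj_mul, ← conj_mul, ← conj_mul, tθ, X.t, ← X.yt.comm, mul_inv_cancel_right, ← mul_assoc (ψ _), ← map_mul]
      exact congrArg (ψ · * θ * y * _) (by decide +kernel)
  obtain ⟨Φ, δ, hδ, f1, f2, fp, cY⟩ := F.hom X hx ok3S bokS (g := ψ (o 77) * θ * y) (by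
      calc _ = ψ (o 77) * (θ * y * ψ (o 77) * (θ * y)⁻¹) * (θ * (y * θ) * y) := by group
        _ = 1 := by
          rw [(T.r _).comp (X.y _), ← T.y.eq, ← mul_assoc θ, T.sq, mul_assoc (φ _), yy, mul_one, z1, ← map_mul,
            ← map_mul, ← map_one ψ]
          exact congrArg ψ (by decide +kernel))
    (fun u hu => mem_Cx.1 (mul_mem (mul_mem (mem_Cx.2 (F.cR X hx _ u hu)) (mul_mem (mem_Cx.2 (F.cφ _ u hu))
      (mem_Cx.2 (cc u hu)))) (mem_Cx.2 (yY u hu))))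
    (fun a => (((Rel.conj ψ (o 77) _).comp (T.r _)).comp (X.y a)).of_eq rfl (by revert a; decide +kernel))
    (by simpa using tg 1) (by decide +kernel) (by decide +kernel) (by decide +kernel) (by decide +kernel)
  have ft : Φ (o 512) = φ (o 32) := fp (o 32)
  have ec : c = (φ (o 32))⁻¹ * θ := by rw [eθ, inv_mul_cancel_left]
  have rc : ∀ p, W2.Rel Φ c p (o (a4S 1 p.v)) := fun p => by
    refine rel_of_gen (fun p => o (a4S 1 p.v)) (fun _ => True) [o 2, o 8, o 32, o 64, o 128, o 512, o 1024] 6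
      (by decide +kernel) ?_ p trivial
    have q : ∀ q < 128, (o 512 * o (a4S 1 (o q : NS).v) * (o 512)⁻¹ : NS) = o (wR [1, 2, 4, 11, 21, 32, 64] (o q)).v →
        W2.Rel Φ c (o q) (o (a4S 1 (o q : NS).v)) := fun q hq l => by
      rw [ec, ← ft]
      refine ((Rel.conj Φ _ _).of_eq rfl l).symm.comp ?_
      rw [W2.Rel, f1, ← T.r, ← f1, v_o hq]
    have q' : ∀ q : HM, (o (a4S 1 (o (q.v % 32 + 512 * (q.v / 32)) : NS).v) : NS) =
        o ((cT (o 192) q).v % 32 + 512 * ((cT (o 192) q).v / 32)) → W2.Rel Φ c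
          (o (q.v % 32 + 512 * (q.v / 32))) (o (a4S 1 (o (q.v % 32 + 512 * (q.v / 32)) : NS).v)) := fun q l => by
      rw [W2.Rel, l, fp, fp, F.crel hb]
    simp only [List.forall_mem_cons]
    refine ⟨q 2 (by norm_num) ?_, q 8 (by norm_num) ?_, q 32 (by norm_num) ?_, q 64 (by norm_num) ?_, ?_,
      q' (o 32) ?_, q' (o 64) ?_, by simp⟩
    iterate 4 decide +kernel
    · rw [ec, ← ft]
      refine ((Rel.conj Φ _ _).of_eq rfl (show _ = o (o 3 : RG).v * o 128 by decide +kernel)).symm.comp ?_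
      rw [W2.Rel, map_mul, f1, f2, ← conj_mul, ← conj_mul, ← conj_mul, T.r, T.r, T.y.eq, mul_inv_cancel_right,
        mul_inv_cancel_right, ← mul_assoc (ψ (o 3)), ← mul_assoc (ψ (o 3)), ← mul_assoc (ψ (o 3)), ← map_mul]
      exact congrArg₂ (fun a b => ψ a * θ * y * ψ b) (by decide +kernel) (by interval_cases δ <;> decide +kernel)
    all_goals decide +kernel
  obtain ⟨Ψ, hΨ⟩ := sd_lift ok4S rfl Φ (hom2 c F.cc) (by decide +kernel) fun s a => by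
    rcases (by decide +kernel : ∀ s : TG ok2, s = o 0 ∨ s = o 1) s with rfl | rfl
    · exact (show W2.Rel Φ (c ^ 0) a a by simp [W2.Rel]).of_eq rfl (by revert a; decide +kernel)
    · exact (show W2.Rel Φ (c ^ 1) a _ by rw [pow_one]; exact rc a)
  have p1 : ∀ n < 3072, Ψ (o n) = Φ (o n) := fun n hn => by
    rw [hΨ, v_o (by omega), Nat.mod_eq_of_lt hn, Nat.div_eq_of_lt hn, o_zero, map_one, mul_one]
  have p2 : Ψ (o 3072) = c := by
    rw [hΨ, show (o ((o 3072 : NT).v % 3072) : NS) = 1 by decide +kernel, map_one, one_mul]; exact pow_one c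
  have g1 : ∀ a : RG, Ψ (o a.v) = ψ a := fun a => by rw [p1 _ (by have := a.v_lt; omega), f1]
  obtain ⟨h1, h2⟩ := F.ge X (Φ := Ψ) (Out := fun _ => False) (xp := 3789 - δ) (xq := 3759 - δ) g1
    (fun p => by rw [p1 _ (by have := p.v_lt; omega), fp])
    (fun a u hu => by
      rw [hΨ, hom2_apply]
      exact mem_Cx.1 (mul_mem (mem_Cx.2 (cY _ u hu)) (pow_mem (mem_Cx.2 (cc u hu)) _)))
    (by rw [show (o (3789 - δ) : NT) = (o (o 77 : RG).v * (o 512 * o 3072))⁻¹ * (o 128 * o δ) by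
          interval_cases δ <;> decide +kernel, map_mul, map_inv, map_mul, map_mul, map_mul, g1, p2,
        p1 512 (by norm_num), p1 128 (by norm_num), ft, f2, zz_aux g1 hδ, inv_mul_cancel_left])
    (by interval_cases δ <;> decide +kernel) (by decide +kernel) (by decide +kernel)
    fun _ u hu a ha => .inl ⟨u, hu, a * o 3072, by clear * - ha; revert a; decide +kernel, by
      rw [map_mul, p2, mul_assoc]⟩
  exact ⟨Ψ, δ, hδ, ⟨h1, Rel.of_comm (by rw [p2, F.cs])⟩, h2⟩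

theorem Fr.exists_ge (F : Fr e φ σ Y L c b) (X : XA e φ σ x k i) (hx : ∀ y ∈ Y, x * y = y * x)
    (hθ : b → x * (φ (o 32) * c) = φ (o 32) * c * x) :
    (∃ (ψ : NW →* G) (δ : ℕ), δ < 2 ∧ GW ψ σ Y δ ∧ ψ (o 32) = e ∧ ψ (o 1) = φ (o 1)) ∨
    (¬ b ∧ ∃ (ψ : NC →* G) (δ : ℕ), δ < 2 ∧ GC ψ σ Y δ ∧ ψ (o 32) = e ∧ ψ (o 1) = φ (o 1)) ∨
    ∃ (ψ : NT →* G) (δ : ℕ), δ < 2 ∧ GS ψ σ Y δ ∧ ψ (o 32) = e ∧ ψ (o 1) = φ (o 1) := by
  obtain ⟨ψ, R, rfl⟩ := F.exists_xr X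
  have hc := X.hc
  have hi := X.hi
  have T := fun hb => F.th hb R hc (hθ hb)
  have yy : σ * ψ (o 64) * σ⁻¹ * (σ * ψ (o 64) * σ⁻¹) = 1 := by rw [conj_mul, X.xx]; simp
  have yY : ∀ y ∈ Y, σ * ψ (o 64) * σ⁻¹ * y = y * (σ * ψ (o 64) * σ⁻¹) := fun y hy =>
    have := mem_Cx.2 (F.cY σ F.sL y hy)
    mem_Cx.1 (mul_mem (mul_mem this (mem_Cx.2 (hx y hy))) (inv_mem this))
  have k1 : k = 1 → (i = 0 ∨ b) → False := fun e h => by
    subst e
    obtain ⟨p, h1, h2, u, hu, j, -, h3⟩ := F.actR R (fun a => ((((((R.r _).comp (R.y _)).comp (R.r _)).comp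
      (R.r _)).comp (R.y _)).comp (R.r _)).comp (R.y a)) (by interval_cases i <;> decide +kernel)
    obtain ⟨h4, h5⟩ : (i = 0 → 192 ≤ p.v) ∧ p * o 224 * p⁻¹ = o 1 * o 224 := by
      revert h2; clear * - hi; revert p; interval_cases i <;> decide +kernel
    have hb : b := h.elim (fun l => h1.resolve_left (h4 l).not_gt) id
    have ρ : Commute (φ (o 32) * c) (φ (o 64)) := (((T hb).h _).of_eq rfl (by decide +kernel)).comm
    have y := (T hb).y
    exact F.not_comm hb h5 hu (h3 ▸ (((((ρ.mul_right y).mul_right ρ).mul_right ρ).mul_right y).mul_right ρ).mul_right y)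
  interval_cases k <;> interval_cases i
  · exact .inl (F.caseW R hx yY yy T)
  · obtain ⟨p, h1, h2, u, hu, j, -, h3⟩ := F.actR R (fun a => (((((R.r _).comp (R.y _)).comp (R.r _)).comp
      (R.y _)).comp (R.r _)).comp (R.y a)) (by decide +kernel)
    have h4 : p.v / 192 = 1 := by revert h2; clear * -; revert p; decide +kernel
    have hb : b := h1.resolve_left (by omega)
    refine .inr (.inr (F.caseS hb R hx yY yy (fun w hw => ?_) (T hb)))
    have h5 : ∀ w ∈ Y, u * c ∈ Cx w := fun w hw => by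
      have ρ : φ (o 64) ∈ Cx w := mem_Cx.2 (F.cφ _ w hw)
      have y := mem_Cx.2 (yY w hw)
      have := mul_mem (mul_mem (mul_mem (mul_mem (mul_mem ρ y) ρ) y) ρ) y
      rwa [h3, mul_mem_cancel_right (pow_mem (Cx_comm.1 (F.eY hw)) _), h4, pow_one, ← F.cφ _ u hu, mul_assoc,
        mul_mem_cancel_left (mem_Cx.2 (F.cφ _ w hw))] at this
    have h6 : Commute u c := show u * c = c * u by simpa [mul_assoc] using (mem_Cx.1 (h5 u hu)).symm
    have h7 := pow_mem (h5 w hw) (Nat.card Y)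
    rw [h6.mul_pow, pow_card_eq_one hu, one_mul, pow_odd_eq F.odd F.cc] at h7
    exact mem_Cx.1 h7
  · exact (k1 rfl (.inl rfl)).elim
  · exact .inr (.inl ⟨fun hb => k1 rfl (.inr hb), F.caseC (fun hb => k1 rfl (.inr hb)) R hx yY yy⟩)

end CfsgLib.SM12
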